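import Cfsg.Agent.H487.EP.Wreath2

/-!
# S3499: the kill for stabilisers of tensor decompositions with equal factors, final part (helper487)
-/

set_option autoImplicit false
set_option linter.unusedSectionVars false

namespace Cfsg.Agent.H487.EP

open Matrix Subgroup Cfsg.Agent.H284 Cfsg.Agent.H419.EP Cfsg.Geo
open scoped MatrixGroups Kronecker

variable {ι : Type} [Fintype ι] [DecidableEq ι] {F : Type*} [Field F] {t m : ℕ}
variable {e : ι ≃ (Fin t → Fin m)} {P : GL ι F} {i0 i1 : Fin t}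
variable {p : Matrix (Fin m) (Fin m) F} {b bi : Matrix (Fin m) (Fin m) F}

theorem comm_of_cjm {g : GL ι F} {y z : Matrix ι ι F} (h : cjm g y = z) : (g : Matrix ι ι F) * y = z * (g : Matrix ι ι F) := by
  rw [← h, cjm, mul_assoc, Units.inv_mul, mul_one]

theorem cjm_of_comm {g : GL ι F} {y z : Matrix ι ι F} (h : (g : Matrix ι ι F) * y = z * (g : Matrix ι ι F)) :
    cjm g y = z := by
  rw [cjm, h, mul_assoc, Units.mul_inv, mul_one]

set_option maxHeartbeats 1000000 in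
/-- **the elements of `M ∩ M^x`** -/
theorem wreath_types (h01 : i0 ≠ i1) (hp : p * p = p) (hp0 : p ≠ 0) (hp1 : p ≠ 1) (hbi : b * bi = 1) (hb : NonSc b)
    (hR : ∀ (k l : F) (q : Matrix (Fin m) (Fin m) F), q * q = q → b ≠ k • (1 - q) + l • q) {x g : GL ι F}
    (hx : (x : Matrix ι ι F) = sl e P i0 p * sl e P i1 b + sl e P i0 (1 - p))
    (hg : g ∈ tensorWreathSubgroup m t e P) (hgx : x⁻¹ * g * x ∈ tensorWreathSubgroup m t e P) :
    ∃ (a₁ a₂ : GL (Fin m) F), Acts (sl e P i0) (sl e P i1) g a₁ a₂ ∧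
      ((cjm a₁ p = p ∧ ∃ k : F, k ≠ 0 ∧ cjm a₂ b = k • b) ∨ (cjm a₁ p = 1 - p ∧ ∃ k : F, k ≠ 0 ∧ cjm a₂ b = k • bi)) := by
  have hT := ts_sl e P h01
  have hone : (1 : Matrix (Fin m) (Fin m) F) ≠ 0 := hb.one_ne
  obtain ⟨π, a, hπ⟩ := wreath_acts hg
  have hY : x⁻¹ * g * x * g⁻¹ ∈ tensorWreathSubgroup m t e P := mul_mem hgx (inv_mem hg)
  set Y := x⁻¹ * g * x * g⁻¹ with hYdef
  obtain ⟨ρ, c, hρ⟩ := wreath_acts hY
  -- `X = g x g⁻¹ = x Y`
  set X : Matrix ι ι F := cjm g (x : Matrix ι ι F) with hXdef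
  have hxY : (x : Matrix ι ι F) * (Y : Matrix ι ι F) = X := by
    rw [← Units.val_mul, hYdef, show x * (x⁻¹ * g * x * g⁻¹) = g * x * g⁻¹ by group]
    rfl
  have hXv : X = sl e P (π i0) (cjm (a i0) p) * sl e P (π i1) (cjm (a i1) b) + sl e P (π i0) (1 - cjm (a i0) p) := by
    rw [hXdef, hx, cjm_add, cjm_mul, hπ, hπ, hπ, cjm_sub, cjm_one]
  have hπ01 : π i0 ≠ π i1 := fun h => h01 (π.injective h)
  -- transfer
  have hL : ∀ (k : Fin t) (u : Matrix (Fin m) (Fin m) F), X * sl e P k u = sl e P k u * X →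
      sl e P k u * (x : Matrix ι ι F) = (x : Matrix ι ι F) * sl e P (ρ k) (cjm (c k) u) := by
    intro k u hu
    have h1 := comm_of_cjm (hρ k u)
    rw [← hxY] at hu
    have h2 : (sl e P k u * (x : Matrix ι ι F)) * (Y : Matrix ι ι F) =
        ((x : Matrix ι ι F) * sl e P (ρ k) (cjm (c k) u)) * (Y : Matrix ι ι F) := by
      rw [mul_assoc, ← hu, mul_assoc, h1, mul_assoc]
    have := congrArg (fun y => y * ((Y⁻¹ : GL ι F) : Matrix ι ι F)) h2
    simpa only [mul_assoc, Units.mul_inv, mul_one] using this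
  -- commutation with `X`
  have hXc : ∀ (k : Fin t), k ≠ π i0 → k ≠ π i1 → ∀ u, X * sl e P k u = sl e P k u * X := by
    intro k h0 h1 u
    rw [hXv, add_mul, mul_add, mul_assoc, (ts_sl e P (Ne.symm h1)).comm, ← mul_assoc, (ts_sl e P (Ne.symm h0)).comm,
      mul_assoc, (ts_sl e P (Ne.symm h0)).comm]
  have hs0 : i0 = π i0 ∨ i0 = π i1 := by
    by_contra hcon
    push Not at hcon
    exact N0 h01 hp hp0 hp1 hb hx (l := ρ i0) fun u => ⟨_, hL i0 u (hXc i0 hcon.1 hcon.2 u)⟩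
  have hs1 : i1 = π i0 ∨ i1 = π i1 := by
    by_contra hcon
    push Not at hcon
    exact N1 h01 hp hp0 hp1 hb hx (l := ρ i1) fun u => ⟨_, hL i1 u (hXc i1 hcon.1 hcon.2 u)⟩
  -- the other slots
  have hk : ∀ k, k ≠ i0 → k ≠ i1 → k ≠ π i0 ∧ k ≠ π i1 := by
    intro k h0 h1
    rcases hs0 with h2 | h2
    · rcases hs1 with h3 | h3
      · exact absurd (h2.trans h3.symm) h01
      · exact ⟨by rw [← h2]; exact h0, by rw [← h3]; exact h1⟩
    · rcases hs1 with h3 | h3
      · exact ⟨by rw [← h3]; exact h1, by rw [← h2]; exact h0⟩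
      · exact absurd (h2.trans h3.symm) h01
  have hρk : ∀ k, k ≠ i0 → k ≠ i1 → ∀ u, sl e P k u = sl e P (ρ k) (cjm (c k) u) := by
    intro k h0 h1 u
    have h2 := hL k u (hXc k (hk k h0 h1).1 (hk k h0 h1).2 u)
    rw [← x_comm h01 hx h0 h1] at h2
    have := congrArg (fun y => ((x⁻¹ : GL ι F) : Matrix ι ι F) * y) h2
    simpa only [← mul_assoc, Units.inv_mul, one_mul] using this
  have hρ1 : ∀ k, k ≠ i0 → k ≠ i1 → ρ k = k := by
    intro k h0 h1
    by_contra hne
    obtain ⟨z, hz⟩ := sl_scalar (Ne.symm hne) hone (hρk k h0 h1 b)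
    exact hb z hz
  have hρ0 : ρ i0 = i0 ∨ ρ i0 = i1 := by
    by_contra hcon
    push Not at hcon
    have := hρ1 (ρ i0) hcon.1 hcon.2
    exact hcon.1 (ρ.injective this)
  have hρ1' : ρ i1 = i0 ∨ ρ i1 = i1 := by
    by_contra hcon
    push Not at hcon
    have := hρ1 (ρ i1) hcon.1 hcon.2
    exact hcon.2 (ρ.injective this)
  -- if `ρ i0 = i0` then `Y` is a pure tensor
  have hpure : ρ i0 = i0 → ∃ c' d' : Matrix (Fin m) (Fin m) F, IsUnit c' ∧ IsUnit d' ∧
      (Y : Matrix ι ι F) = sl e P i0 c' * sl e P i1 d' := by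
    intro h0
    have h1 : ρ i1 = i1 := by
      rcases hρ1' with h | h
      · exact absurd (ρ.injective (h.trans h0.symm)) (Ne.symm h01)
      · exact h
    set Z : Matrix ι ι F := sl e P i0 ((c i0)⁻¹ : GL (Fin m) F).val * sl e P i1 ((c i1)⁻¹ : GL (Fin m) F).val *
      (Y : Matrix ι ι F) with hZ
    have hcc : ∀ (g' : GL (Fin m) F) (u : Matrix (Fin m) (Fin m) F), (g'⁻¹ : GL (Fin m) F).val * cjm g' u =
        u * (g'⁻¹ : GL (Fin m) F).val := by
      intro g' u
      rw [cjm, ← mul_assoc, ← mul_assoc, Units.inv_mul, one_mul]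
    obtain ⟨l, hl⟩ := scalar_of_sl (e := e) (P := P) Z (by
      intro k u
      by_cases hk0 : k = i0
      · subst hk0
        have h2 := comm_of_cjm (hρ k u)
        rw [h0] at h2
        rw [hZ, mul_assoc, h2, ← mul_assoc, mul_assoc (sl e P k ((c k)⁻¹ : GL (Fin m) F).val), ← hT.comm, ← mul_assoc,
          ← map_mul, hcc, map_mul]
        simp only [mul_assoc]
      by_cases hk1 : k = i1
      · subst hk1
        have h2 := comm_of_cjm (hρ k u)
        rw [h1] at h2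
        rw [hZ, mul_assoc, h2, ← mul_assoc, mul_assoc (sl e P i0 ((c i0)⁻¹ : GL (Fin m) F).val), ← map_mul, hcc, map_mul,
          ← mul_assoc, hT.comm]
        simp only [mul_assoc]
      · have h2 := comm_of_cjm (hρ k u)
        rw [← hρk k hk0 hk1 u] at h2
        rw [hZ, mul_assoc, h2, ← mul_assoc, mul_assoc (sl e P i0 ((c i0)⁻¹ : GL (Fin m) F).val),
          (ts_sl e P (Ne.symm hk1)).comm, ← mul_assoc, (ts_sl e P (Ne.symm hk0)).comm]
        simp only [mul_assoc])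
    have hYZ : (Y : Matrix ι ι F) = sl e P i0 (c i0 : Matrix (Fin m) (Fin m) F) * sl e P i1 (c i1 : Matrix (Fin m) (Fin m) F) * Z := by
      rw [hZ]
      have h2 : sl e P i0 (c i0 : Matrix (Fin m) (Fin m) F) * sl e P i1 (c i1 : Matrix (Fin m) (Fin m) F) *
          (sl e P i0 ((c i0)⁻¹ : GL (Fin m) F).val * sl e P i1 ((c i1)⁻¹ : GL (Fin m) F).val) = 1 := by
        rw [mul_assoc, ← mul_assoc (sl e P i1 _), ← hT.comm, mul_assoc, ← map_mul, Units.mul_inv, map_one, mul_one,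
          ← map_mul, Units.mul_inv, map_one]
      rw [← mul_assoc, h2, one_mul]
    have hl0 : l ≠ 0 := by
      rintro rfl
      rw [zero_smul] at hl
      rw [hl, mul_zero] at hYZ
      have h3 : (1 : Matrix ι ι F) = 0 := by
        rw [← Units.mul_inv Y, hYZ, zero_mul]
      have h4 := (hT.ind1 (u := 1) (v := 1) (by rw [map_one, map_one, one_mul, h3]))
      rcases h4 with h4 | h4 <;> exact hone h4
    refine ⟨l • (c i0 : Matrix (Fin m) (Fin m) F), (c i1 : Matrix (Fin m) (Fin m) F), ?_, (c i1).isUnit, ?_⟩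
    · exact (Units.mk0 l hl0 • c i0).isUnit
    · rw [hYZ, hl, map_smul, Matrix.mul_smul, mul_one, Matrix.smul_mul]
  have hp' : cjm (a i0) p * cjm (a i0) p = cjm (a i0) p := by rw [← cjm_mul, hp]
  rcases hs0 with h2 | h2
  · -- `π` fixes `i0` and `i1`
    have h3 : i1 = π i1 := by
      rcases hs1 with h | h
      · exact absurd (h2.trans h.symm) h01
      · exact h
    have hact : Acts (sl e P i0) (sl e P i1) g (a i0) (a i1) :=
      ⟨fun u => by rw [hπ, ← h2], fun u => by rw [hπ, ← h3]⟩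
    refine ⟨a i0, a i1, hact, ?_⟩
    rw [← h2, ← h3] at hXv
    rcases hρ0 with h4 | h4
    · obtain ⟨c', d', hc', hd', hYv⟩ := hpure h4
      rw [hYv, hXv, hx] at hxY
      exact hT.lemA hp hp0 hp1 hbi hp' (cjm_ne_zero _ hp0) (cjm_ne_one _ hp1) (hb.cjm _) hc' hd' hxY
    · exfalso
      have h5 : ρ i1 = i0 := by
        rcases hρ1' with h | h
        · exact h
        · exact absurd (ρ.injective (h.trans h4.symm)) (Ne.symm h01)
      have h6 := hL i1 (cjm (a i1) b) (by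
        rw [hXv, add_mul, mul_add, mul_assoc, ← mul_assoc (sl e P i1 (cjm (a i1) b)) (sl e P i0 (cjm (a i0) p)),
          ← hT.comm, mul_assoc, hT.comm (1 - cjm (a i0) p)])
      rw [h5] at h6
      obtain ⟨z, hz⟩ := N1' h01 hp hp1 hx h6
      exact (hb.cjm _) z hz
  · exfalso
    have h3 : i1 = π i0 := by
      rcases hs1 with h | h
      · exact h
      · exact absurd (h2.trans h.symm) h01
    rw [← h2, ← h3] at hXv
    rcases hρ0 with h4 | h4
    · obtain ⟨c', d', hc', hd', hYv⟩ := hpure h4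
      rw [hYv, hXv, hx] at hxY
      obtain ⟨k, l, hkl⟩ := hT.lemB hp hp0 hp1 hp' (cjm_ne_zero _ hp0) (cjm_ne_one _ hp1) hc' hxY
      apply hR k l (cjm (a i1)⁻¹ p) (by rw [← cjm_mul, hp])
      rw [← cjm_inv_self (a i1) b, hkl, cjm_add, cjm_smul, cjm_smul, cjm_sub, cjm_one]
    · have h6 := hL i0 (cjm (a i1) b) (by
        rw [hXv, add_mul, mul_add, hT.comm (cjm (a i1) b) (1 - cjm (a i0) p), ← hT.comm, ← mul_assoc]
        congr 1
        rw [mul_assoc, mul_assoc, hT.comm])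
      rw [h4] at h6
      obtain ⟨z, hz⟩ := N0' h01 hp hp0 hp1 hb hx h6
      exact (hb.cjm _) z hz

variable {Q : Type*} [Group Q] [Finite Q] {A : Subgroup Q} {Γ : Subgroup (MulAut Q)}

/-- **The kill for tensor decompositions with equal factors** -/
theorem kill_wreath (h : EPT A Γ) {S : Subgroup (GL ι F)} (mo : Model Q S) (e : ι ≃ (Fin t → Fin m)) (P : GL ι F)
    (hA : mo.hat A = tensorWreathSubgroup m t e P ⊓ S) (h01 : i0 ≠ i1)
    (hp : p * p = p) (hp0 : p ≠ 0) (hp1 : p ≠ 1) {c : GL (Fin m) F} (hbc : BC b bi c)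
    (hR : ∀ (k l : F) (q : Matrix (Fin m) (Fin m) F), q * q = q → b ≠ k • (1 - q) + l • q)
    {x : GL ι F} (hxS : x ∈ S) (hxv : (x : Matrix ι ι F) = sl e P i0 p * sl e P i1 b + sl e P i0 (1 - p))
    {w : GL ι F} (hwS : w ∈ S) {c₁ : GL (Fin m) F} (hcp : cjm c₁ p = p)
    (hwv : (w : Matrix ι ι F) = sl e P i0 (c₁ : Matrix (Fin m) (Fin m) F) * sl e P i1 (c : Matrix (Fin m) (Fin m) F)) :
    False :=
  kill_two h mo hA (ts_sl e P h01) hp hp0 hbc hxS hxv (fun u v _ hg => pure_mem h01 u v hg)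
    (fun _ hg hgx => wreath_types h01 hp hp0 hp1 hbc.mbi hbc.nonSc hR hxv hg hgx)
    (pure_mem h01 c₁ c hwv) hwS (Acts.of_pure (ts_sl e P h01) hwv) hcp

/-- `1 + N`, `N ≠ 0` nilpotent, is not of the form `k (1 - q) + l q` -/
theorem unip_ne {κ : Type} [Fintype κ] [DecidableEq κ] {N : Matrix κ κ F} (hN : IsNilpotent N) (hN0 : N ≠ 0) (k l : F)
    (q : Matrix κ κ F) (hq : q * q = q) : 1 + N ≠ k • (1 - q) + l • q := by
  intro h
  have hN1 : N = (k - 1) • (1 - q) + (l - 1) • q := by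
    rw [sub_smul, sub_smul, one_smul, one_smul]
    have : N = k • (1 - q) + l • q - 1 := by rw [← h]; abel
    rw [this]
    abel
  have h1 : (1 - q) * q = 0 := by rw [sub_mul, one_mul, hq, sub_self]
  have h2 : q * (1 - q) = 0 := by rw [mul_sub, mul_one, hq, sub_self]
  have h3 : (1 - q) * (1 - q) = 1 - q := by rw [mul_sub, h1, mul_one, sub_zero]
  have hpow : ∀ n : ℕ, N ^ (n + 1) = (k - 1) ^ (n + 1) • (1 - q) + (l - 1) ^ (n + 1) • q := by
    intro n
    induction n with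
    | zero => simpa using hN1
    | succ n ih =>
      rw [pow_succ, ih, hN1]
      simp only [add_mul, mul_add, Matrix.smul_mul, Matrix.mul_smul, h1, h2, h3, hq, smul_zero, add_zero, zero_add,
        smul_smul, pow_succ]
      congr 1 <;> congr 1 <;> ring
  obtain ⟨n, hn⟩ := hN
  have hn' : N ^ (n + 1) = 0 := by rw [pow_succ, hn, zero_mul]
  rw [hpow n] at hn'
  have h4 : (k - 1) ^ (n + 1) • (1 - q) = 0 := by
    have := congrArg (fun y => (1 - q) * y) hn'
    simpa [mul_add, Matrix.mul_smul, h1, h3] using this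
  have h5 : (l - 1) ^ (n + 1) • q = 0 := by rw [h4, zero_add] at hn'; exact hn'
  apply hN0
  rw [hN1]
  have h6 : (k - 1) • (1 - q) = 0 := by
    rcases smul_eq_zero.1 h4 with h7 | h7
    · rw [pow_eq_zero_iff (by omega)] at h7
      rw [h7, zero_smul]
    · rw [h7, smul_zero]
  have h7 : (l - 1) • q = 0 := by
    rcases smul_eq_zero.1 h5 with h7 | h7
    · rw [pow_eq_zero_iff (by omega)] at h7
      rw [h7, zero_smul]
    · rw [h7, smul_zero]
  rw [h6, h7, add_zero]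

end Cfsg.Agent.H487.EP
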