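import Cfsg.Agent.H487.EP.DataSp

/-!
# S3499: the matrices `b`, `c` for symplectic factors of dimension at least four, characteristic two and three (helper487)
-/

set_option autoImplicit false
set_option linter.unusedSectionVars false

namespace Cfsg.Agent.H487.EP

open Matrix Subgroup Cfsg.Agent.H284 Cfsg.Agent.H419.EP Cfsg.Geo
open Cfsg.Agent.H919 (HermForm)
open scoped MatrixGroups Kronecker

variable {F : Type} [Field F] [Fintype F]

/-- diagonal blocks -/
def bd (x y : GL (Fin 2) F) : GL (Fin 2 ⊕ Fin 2) F where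
  val := fromBlocks (x : Matrix (Fin 2) (Fin 2) F) 0 0 (y : Matrix (Fin 2) (Fin 2) F)
  inv := fromBlocks ((x⁻¹ : GL (Fin 2) F) : Matrix (Fin 2) (Fin 2) F) 0 0 ((y⁻¹ : GL (Fin 2) F) : Matrix (Fin 2) (Fin 2) F)
  val_inv := by
    rw [fromBlocks_multiply, Units.mul_inv, Units.mul_inv]
    simp
  inv_val := by
    rw [fromBlocks_multiply, Units.inv_mul, Units.inv_mul]
    simp

theorem bd_val (x y : GL (Fin 2) F) : (bd x y : Matrix (Fin 2 ⊕ Fin 2) (Fin 2 ⊕ Fin 2) F) =
    fromBlocks (x : Matrix (Fin 2) (Fin 2) F) 0 0 (y : Matrix (Fin 2) (Fin 2) F) := rfl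

theorem bd_inv (x y : GL (Fin 2) F) : (((bd x y)⁻¹ : GL (Fin 2 ⊕ Fin 2) F) : Matrix (Fin 2 ⊕ Fin 2) (Fin 2 ⊕ Fin 2) F) =
    fromBlocks ((x⁻¹ : GL (Fin 2) F) : Matrix (Fin 2) (Fin 2) F) 0 0 ((y⁻¹ : GL (Fin 2) F) : Matrix (Fin 2) (Fin 2) F) := rfl

theorem bd_mem {x y : GL (Fin 2) F} (hx : x ∈ IsoG (J2 F)) (hy : y ∈ IsoG (J2 F)) : bd x y ∈ IsoG (J4 F) := by
  rw [mem_isoG] at hx hy ⊢
  rw [bd_val, J4, fromBlocks_transpose, fromBlocks_multiply, fromBlocks_multiply]
  simp only [transpose_zero, Matrix.zero_mul, Matrix.mul_zero, add_zero, zero_add, hx, hy]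

theorem bd_mul (x y x' y' : GL (Fin 2) F) : bd x y * bd x' y' = bd (x * x') (y * y') := by
  apply Units.ext
  rw [Units.val_mul, bd_val, bd_val, bd_val, fromBlocks_multiply]
  simp

/-- `x ↦ bd x 1` -/
def bdh : GL (Fin 2) F →* GL (Fin 2 ⊕ Fin 2) F where
  toFun x := bd x 1
  map_one' := by
    apply Units.ext
    rw [bd_val]
    simp
  map_mul' x y := by rw [bd_mul, mul_one]

theorem bd_mem_KG {x : GL (Fin 2) F} (hx : x ∈ KG (J2 F)) : bd x 1 ∈ KG (J4 F) := by
  have h1 : (KG (J2 F)).map bdh ≤ KG (J4 F) := by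
    rw [KG, Subgroup.map_commutator]
    apply Subgroup.commutator_mono <;>
    · rintro _ ⟨x, hx, rfl⟩
      exact bd_mem hx (one_mem _)
  exact h1 ⟨x, hx, rfl⟩

/-- the swap -/
def sw (F : Type) [Field F] : GL (Fin 2 ⊕ Fin 2) F where
  val := fromBlocks 0 1 1 0
  inv := fromBlocks 0 1 1 0
  val_inv := by rw [fromBlocks_multiply]; simp
  inv_val := by rw [fromBlocks_multiply]; simp

theorem sw_mem : sw F ∈ IsoG (J4 F) := by
  rw [mem_isoG]
  change (fromBlocks 0 1 1 0)ᵀ * J4 F * fromBlocks 0 1 1 0 = J4 F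
  rw [J4, fromBlocks_transpose, fromBlocks_multiply, fromBlocks_multiply]
  simp

theorem bd_inv_mem {t : GL (Fin 2) F} (ht : t ∈ IsoG (J2 F)) : bd t t⁻¹ ∈ KG (J4 F) := by
  refine mem_KG_of (x := bd t 1) (y := sw F) (bd_mem ht (one_mem _)) sw_mem ?_
  change fromBlocks (t : Matrix (Fin 2) (Fin 2) F) 0 0 ((t⁻¹ : GL (Fin 2) F) : Matrix (Fin 2) (Fin 2) F) *
    (fromBlocks 0 1 1 0 * fromBlocks (t : Matrix (Fin 2) (Fin 2) F) 0 0 ((1 : GL (Fin 2) F) : Matrix (Fin 2) (Fin 2) F)) =
    fromBlocks (t : Matrix (Fin 2) (Fin 2) F) 0 0 ((1 : GL (Fin 2) F) : Matrix (Fin 2) (Fin 2) F) * fromBlocks 0 1 1 0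
  rw [fromBlocks_multiply, fromBlocks_multiply, fromBlocks_multiply]
  simp

theorem bb_of {n : ℕ} (hn : 4 ≤ n) {f : (Fin n → F) → (Fin n → F) → F} (hf : IsSymplecticForm f)
    {u t : GL (Fin 2) F} (hu : u ∈ KG (J2 F)) (ht : t ∈ IsoG (J2 F)) (htu : t * u * t⁻¹ = u⁻¹) (huu : u * u ≠ 1)
    (hkl : ∀ k l : F, ((u : Matrix (Fin 2) (Fin 2) F) - k • 1) * ((u : Matrix (Fin 2) (Fin 2) F) - l • 1) = 0 →
      (1 - k) * (1 - l) ≠ 0) : BB (gramMatrix f) := by
  obtain ⟨R, C, h⟩ := exists_four hn hf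
  refine ⟨TU h.cr (bd u 1), TU h.cr (bd t t⁻¹), TU_mem_KG h (bd_mem_KG hu), TU_mem_KG h (bd_inv_mem ht), BC_TU h.cr ?_ ?_,
    ?_⟩
  · rw [← Units.val_mul, ← Units.val_mul]
    congr 1
    have e1 : (bd t t⁻¹)⁻¹ = bd t⁻¹ (t⁻¹)⁻¹ := rfl
    have e2 : (bd u 1)⁻¹ = bd u⁻¹ 1⁻¹ := rfl
    rw [e1, e2, bd_mul, bd_mul, htu]
    simp
  · intro k hk
    rw [← Units.val_mul, bd_mul, bd_val, ← fromBlocks_one, fromBlocks_smul] at hk
    obtain ⟨h1, -, -, h2⟩ := fromBlocks_inj.1 hk
    have h3 := congrFun (congrFun h2 0) 0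
    simp only [Units.val_one, Matrix.one_apply_eq, Matrix.smul_apply, smul_eq_mul, mul_one] at h3
    apply huu
    apply Units.ext
    rw [h1, ← h3, one_smul, Units.val_one]
  · intro k l q hq
    rw [TU_val]
    refine TT_hR h.cr ?_ k l q hq
    intro k l h0
    rw [bd_val, ← fromBlocks_one, fromBlocks_smul, fromBlocks_smul, sub_eq_add_neg, sub_eq_add_neg, fromBlocks_neg,
      fromBlocks_neg, fromBlocks_add, fromBlocks_add, fromBlocks_multiply, ← fromBlocks_zero] at h0
    obtain ⟨h1, -, -, h2⟩ := fromBlocks_inj.1 h0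
    simp only [smul_zero, neg_zero, add_zero, Matrix.mul_zero, zero_add] at h1 h2
    refine hkl k l (by rw [sub_eq_add_neg, sub_eq_add_neg]; exact h1) ?_
    have h3 := congrFun (congrFun h2 0) 0
    rw [Units.val_one, ← sub_eq_add_neg, ← sub_eq_add_neg] at h3
    have e : ((1 : Matrix (Fin 2) (Fin 2) F) - k • 1) * (1 - l • 1) = ((1 - k) * (1 - l)) • 1 := by
      have e1 : ∀ k : F, (1 : Matrix (Fin 2) (Fin 2) F) - k • 1 = (1 - k) • 1 := fun k => by rw [sub_smul, one_smul]
      rw [e1, e1, Matrix.smul_mul, Matrix.mul_smul, one_mul, smul_smul]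
    rw [e, Matrix.smul_apply, Matrix.one_apply_eq, smul_eq_mul, mul_one] at h3
    exact h3

/-- **symplectic factors of dimension at least four, characteristic three** -/
theorem bb_three {n : ℕ} (hn : 4 ≤ n) (h3 : (3 : F) = 0) {f : (Fin n → F) → (Fin n → F) → F}
    (hf : IsSymplecticForm f) : BB (gramMatrix f) := by
  have h2 : (2 : F) ≠ 0 := by
    intro h2
    have : (1 : F) = 0 := by linear_combination h3 - h2
    exact one_ne_zero this
  refine bb_of hn hf (u := mk2 0 1 (-1) 0 (by ring)) (t := mk2 1 1 1 (-1) (by linear_combination -h3)) ?_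
    (mk2_mem _ _ _ _ _) ?_ ?_ ?_
  · refine mem_KG_of (x := mk2 0 1 (-1) (-1) (by ring)) (y := mk2 1 0 (-1) 1 (by ring)) (mk2_mem _ _ _ _ _)
      (mk2_mem _ _ _ _ _) ?_
    rw [mk2_val, mk2_val, mk2_val]
    ext i j
    fin_cases i <;> fin_cases j <;> simp [Matrix.mul_apply, Fin.sum_univ_two] <;>
      first | linear_combination h3 | linear_combination -h3 | ring1
  · apply Units.ext
    rw [Units.val_mul, Units.val_mul, mk2_inv, mk2_inv, mk2_val, mk2_val]
    ext i j
    fin_cases i <;> fin_cases j <;> simp [Matrix.mul_apply, Fin.sum_univ_two] <;>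
      first | linear_combination h3 | linear_combination -h3 | ring1
  · intro h0
    have h1 := congrArg (fun y : GL (Fin 2) F => (y : Matrix (Fin 2) (Fin 2) F) 0 0) h0
    simp only [Units.val_mul, mk2_val, Matrix.mul_apply, Fin.sum_univ_two, Units.val_one, Matrix.one_apply_eq] at h1
    simp at h1
    apply h2
    linear_combination -h1
  · intro k l h0
    rw [mk2_val] at h0
    have e1 := congrFun (congrFun h0 0) 0
    have e2 := congrFun (congrFun h0 0) 1
    simp [Matrix.mul_apply, Fin.sum_univ_two] at e1 e2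
    intro h4
    apply h2
    linear_combination h4 - e1 - e2

/-- **symplectic factors of dimension at least four, characteristic two** -/
theorem bb_two {n : ℕ} (hn : 4 ≤ n) (h2 : (2 : F) = 0) {f : (Fin n → F) → (Fin n → F) → F}
    (hf : IsSymplecticForm f) : BB (gramMatrix f) := by
  refine bb_of hn hf (u := mk2 0 1 1 1 (by linear_combination -h2)) (t := mk2 0 1 1 0 (by linear_combination -h2)) ?_
    (mk2_mem _ _ _ _ _) ?_ ?_ ?_
  · refine mem_KG_of (x := mk2 0 1 1 0 (by linear_combination -h2)) (y := mk2 0 1 1 1 (by linear_combination -h2))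
      (mk2_mem _ _ _ _ _) (mk2_mem _ _ _ _ _) ?_
    rw [mk2_val, mk2_val]
    ext i j
    fin_cases i <;> fin_cases j <;> simp [Matrix.mul_apply, Fin.sum_univ_two] <;>
      first | linear_combination h2 | linear_combination -h2 | ring1
  · apply Units.ext
    rw [Units.val_mul, Units.val_mul, mk2_inv, mk2_inv, mk2_val, mk2_val]
    ext i j
    fin_cases i <;> fin_cases j <;> simp [Matrix.mul_apply, Fin.sum_univ_two] <;>
      first | linear_combination h2 | linear_combination -h2 | ring1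
  · intro h0
    have h1 := congrArg (fun y : GL (Fin 2) F => (y : Matrix (Fin 2) (Fin 2) F) 0 1) h0
    simp only [Units.val_mul, mk2_val, Matrix.mul_apply, Fin.sum_univ_two, Units.val_one] at h1
    simp at h1
  · intro k l h0
    rw [mk2_val] at h0
    have e1 := congrFun (congrFun h0 0) 0
    have e2 := congrFun (congrFun h0 0) 1
    simp [Matrix.mul_apply, Fin.sum_univ_two] at e1 e2
    intro h4
    apply one_ne_zero (α := F)
    linear_combination e1 - h4 + e2

/-- **symplectic factors of dimension at least four** -/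
theorem bb_four {n : ℕ} (hn : 4 ≤ n) {f : (Fin n → F) → (Fin n → F) → F}
    (hf : IsSymplecticForm f) : BB (gramMatrix f) := by
  by_cases h4 : 4 ≤ Fintype.card F
  · exact bb_big (by omega) h4 hf
  · have h0 := FiniteField.cast_card_eq_zero F
    have h1 : 1 < Fintype.card F := Fintype.one_lt_card
    rcases (show Fintype.card F = 2 ∨ Fintype.card F = 3 by omega) with h | h
    · rw [h] at h0
      exact bb_two hn (by exact_mod_cast h0) hf
    · rw [h] at h0
      exact bb_three hn (by exact_mod_cast h0) hf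

end Cfsg.Agent.H487.EP
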