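import Cfsg.Agent.H487.EP.Iso

/-!
# S3499: isometries of tensor decompositions, the elements `psi` (helper487)
-/

set_option autoImplicit false
set_option linter.unusedSectionVars false

namespace Cfsg.Agent.H487.EP

open Matrix Subgroup Cfsg.Agent.H284 Cfsg.Agent.H419.EP Cfsg.Geo
open Cfsg.Agent.H925 (mem_iso_iff polar_iso polar_self Q_add')
open scoped MatrixGroups Kronecker

variable {κ₁ κ₂ ι : Type} [Fintype κ₁] [DecidableEq κ₁] [Fintype κ₂] [DecidableEq κ₂] [Fintype ι] [DecidableEq ι]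
variable {F : Type} [Field F] [Fintype F]

/-- adjoint involutions -/
def Adj {κ : Type} [Fintype κ] [DecidableEq κ] (B : (ι → F) → (ι → F) → F) (s : Matrix κ κ F →ₐ[F] Matrix ι ι F)
    (G : Matrix κ κ F) : Prop :=
  ∀ u u' : Matrix κ κ F, uᵀ * G = G * u' → ∀ v w : ι → F, B (s u *ᵥ v) w = B v (s u' *ᵥ w)

/-- two commuting matrix algebras closed under adjoints -/
structure Fr (Qf : (ι → F) → F) (s : Matrix κ₁ κ₁ F →ₐ[F] Matrix ι ι F) (r : Matrix κ₂ κ₂ F →ₐ[F] Matrix ι ι F)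
    (G₁ : Matrix κ₁ κ₁ F) (G₂ : Matrix κ₂ κ₂ F) : Prop where
  hQ : IsNondegenerateQuadraticForm Qf
  ts : TS s r
  adjL : Adj (QuadraticMap.polar Qf) s G₁
  adjR : Adj (QuadraticMap.polar Qf) r G₂
  quad : (2 : F) ≠ 0 ∨ ∃ Z : Set (ι → F), Submodule.span F Z = ⊤ ∧ (∀ v ∈ Z, Qf v = 0) ∧
    (∀ u, ∀ v ∈ Z, s u *ᵥ v ∈ Z) ∧ (∀ u, ∀ v ∈ Z, r u *ᵥ v ∈ Z)

variable {Qf : (ι → F) → F} {s : Matrix κ₁ κ₁ F →ₐ[F] Matrix ι ι F} {r : Matrix κ₂ κ₂ F →ₐ[F] Matrix ι ι F}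
variable {G₁ : Matrix κ₁ κ₁ F} {G₂ : Matrix κ₂ κ₂ F}

/-- `u ↦ s p * r u + s (1 - p)` -/
def psiM (hc : ∀ a b, s a * r b = r b * s a) {p : Matrix κ₁ κ₁ F} (hp : p * p = p) :
    Matrix κ₂ κ₂ F →* Matrix ι ι F where
  toFun u := s p * r u + s (1 - p)
  map_one' := by rw [map_one, mul_one, ← map_add, add_sub_cancel, map_one]
  map_mul' u v := by
    have hq : (1 - p) * p = 0 := by rw [sub_mul, one_mul, hp, sub_self]
    have hq' : p * (1 - p) = 0 := by rw [mul_sub, mul_one, hp, sub_self]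
    have hqq : (1 - p) * (1 - p) = 1 - p := by rw [mul_sub, hq, mul_one, sub_zero]
    rw [add_mul, mul_add, mul_add, mul_assoc (s p) (r u) (s (1 - p)), ← hc, ← mul_assoc (s p) (s (1 - p)), ← map_mul s,
      hq', map_zero, zero_mul, ← mul_assoc (s (1 - p)), ← map_mul s, hq, map_zero, zero_mul, ← map_mul s, hqq,
      mul_assoc (s p) (r u), ← mul_assoc (r u), ← hc, mul_assoc (s p) (r u), ← mul_assoc (s p) (s p), ← map_mul s, hp,
      map_mul r]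
    abel

theorem psiM_apply (hc : ∀ a b, s a * r b = r b * s a) {p : Matrix κ₁ κ₁ F} (hp : p * p = p) (u : Matrix κ₂ κ₂ F) :
    psiM hc hp u = s p * r u + s (1 - p) := rfl

/-- `psi` on invertible matrices -/
def psi (hc : ∀ a b, s a * r b = r b * s a) {p : Matrix κ₁ κ₁ F} (hp : p * p = p) : GL κ₂ F →* GL ι F :=
  Units.map (psiM hc hp)

theorem psi_val (hc : ∀ a b, s a * r b = r b * s a) {p : Matrix κ₁ κ₁ F} (hp : p * p = p) (u : GL κ₂ F) :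
    (psi hc hp u : Matrix ι ι F) = s p * r (u : Matrix κ₂ κ₂ F) + s (1 - p) := rfl

/-- a linear map preserving the polar form and `Q` on a spanning set of singular vectors is an isometry -/
theorem iso_of_span (hQ : IsNondegenerateQuadraticForm Qf) {x : GL ι F}
    (hx : ∀ v w, QuadraticMap.polar Qf ((x : Matrix ι ι F) *ᵥ v) ((x : Matrix ι ι F) *ᵥ w) = QuadraticMap.polar Qf v w)
    {Z : Set (ι → F)} (hZ : Submodule.span F Z = ⊤) (h0 : ∀ v ∈ Z, Qf v = 0)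
    (h1 : ∀ v ∈ Z, Qf ((x : Matrix ι ι F) *ᵥ v) = 0) : x ∈ isometryGroup F Qf := by
  rw [mem_iso_iff]
  intro v
  have hv : v ∈ Submodule.span F Z := by rw [hZ]; trivial
  induction hv using Submodule.span_induction with
  | mem v hv => rw [h1 v hv, h0 v hv]
  | zero => rw [mulVec_zero]
  | add v w _ _ hv hw =>
    have := hx v w
    rw [mulVec_add, Q_add' hQ, Q_add' hQ, hv, hw, this]
  | smul c v _ hv => rw [mulVec_smul, hQ.smul, hQ.smul, hv]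

theorem iso_of_polar (hQ : IsNondegenerateQuadraticForm Qf) (h2 : (2 : F) ≠ 0) {x : GL ι F}
    (hx : ∀ v w, QuadraticMap.polar Qf ((x : Matrix ι ι F) *ᵥ v) ((x : Matrix ι ι F) *ᵥ w) = QuadraticMap.polar Qf v w) :
    x ∈ isometryGroup F Qf := by
  rw [mem_iso_iff]
  intro v
  have := hx v v
  rw [polar_self hQ, polar_self hQ] at this
  exact mul_left_cancel₀ h2 this

/-- the commutator subgroup -/
theorem comm_le_omega (Qf : (ι → F) → F) : ⁅isometryGroup F Qf, isometryGroup F Qf⁆ ≤ omegaGL Qf := by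
  rw [omegaGL, Omega]
  have := Subgroup.map_subtype_commutator (isometryGroup F Qf)
  rw [this]

theorem Fr.symm_iso (h : Fr Qf s r G₁ G₂) {c : GL κ₁ F} (hc : c ∈ IsoG G₁) {x : GL ι F}
    (hx : (x : Matrix ι ι F) = s (c : Matrix κ₁ κ₁ F)) : x ∈ isometryGroup F Qf := by
  have hpol : ∀ v w, QuadraticMap.polar Qf ((x : Matrix ι ι F) *ᵥ v) ((x : Matrix ι ι F) *ᵥ w) = QuadraticMap.polar Qf v w := by
    intro v w
    rw [hx, h.adjL _ _ (isoG_adj hc), mulVec_mulVec, ← map_mul, Units.inv_mul, map_one, one_mulVec]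
  rcases h.quad with h2 | ⟨Z, hZ, h0, hs, hr⟩
  · exact iso_of_polar h.hQ h2 hpol
  · exact iso_of_span h.hQ hpol hZ h0 fun v hv => by
      rw [hx]
      exact h0 _ (hs _ _ hv)

/-- **the elements `psi c` are isometries** -/
theorem Fr.psi_iso (h : Fr Qf s r G₁ G₂) {p : Matrix κ₁ κ₁ F} (hp : p * p = p) (hpa : pᵀ * G₁ = G₁ * p)
    {c : GL κ₂ F} (hc : c ∈ IsoG G₂) : psi h.ts.comm hp c ∈ isometryGroup F Qf := by
  have hqa : (1 - p)ᵀ * G₁ = G₁ * (1 - p) := by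
    rw [Matrix.transpose_sub, Matrix.transpose_one, sub_mul, mul_sub, hpa, one_mul, mul_one]
  have hq : p * (1 - p) = 0 := by rw [mul_sub, mul_one, hp, sub_self]
  have hB := h.hQ.polar_bilinear
  have hpol : ∀ v w, QuadraticMap.polar Qf ((psi h.ts.comm hp c : Matrix ι ι F) *ᵥ v)
      ((psi h.ts.comm hp c : Matrix ι ι F) *ᵥ w) = QuadraticMap.polar Qf v w := by
    intro v w
    have h1 : ∀ v w, QuadraticMap.polar Qf ((psi h.ts.comm hp c : Matrix ι ι F) *ᵥ v) w =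
        QuadraticMap.polar Qf v ((psi h.ts.comm hp c⁻¹ : Matrix ι ι F) *ᵥ w) := by
      intro v w
      rw [psi_val, psi_val, add_mulVec, add_mulVec, hB.add_left, hB.add_right, h.adjL _ _ hqa, ← mulVec_mulVec,
        h.adjL _ _ hpa, h.adjR _ _ (isoG_adj hc), mulVec_mulVec, ← h.ts.comm]
    rw [h1, map_inv, mulVec_mulVec, Units.inv_mul, one_mulVec]
  rcases h.quad with h2 | ⟨Z, hZ, h0, hs, hr⟩
  · exact iso_of_polar h.hQ h2 hpol
  · refine iso_of_span h.hQ hpol hZ h0 fun v hv => ?_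
    have e : QuadraticMap.polar Qf (s p *ᵥ (r (c : Matrix κ₂ κ₂ F) *ᵥ v)) (s (1 - p) *ᵥ v) = 0 := by
      rw [h.adjL _ _ hpa, mulVec_mulVec, ← map_mul, hq, map_zero, zero_mulVec]
      have := hB.smul_right 0 (r (c : Matrix κ₂ κ₂ F) *ᵥ v) 0
      simpa using this
    rw [psi_val, add_mulVec, ← mulVec_mulVec, Q_add' h.hQ, h0 _ (hs _ _ (hr _ _ hv)), h0 _ (hs _ _ hv), e]
    simp

/-- the elements `psi c` with `c` in the commutator subgroup -/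
theorem Fr.psi_omega (h : Fr Qf s r G₁ G₂) {p : Matrix κ₁ κ₁ F} (hp : p * p = p) (hpa : pᵀ * G₁ = G₁ * p)
    {c : GL κ₂ F} (hc : c ∈ KG G₂) : psi h.ts.comm hp c ∈ ⁅isometryGroup F Qf, isometryGroup F Qf⁆ := by
  have h1 : (KG G₂).map (psi h.ts.comm hp) ≤ ⁅isometryGroup F Qf, isometryGroup F Qf⁆ := by
    rw [KG, Subgroup.map_commutator]
    apply Subgroup.commutator_mono <;>
    · rintro _ ⟨x, hx, rfl⟩
      exact h.psi_iso hp hpa hx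
  exact h1 ⟨c, hc, rfl⟩

/-- the output for the kill -/
def Good (Qf : (ι → F) → F) (s : Matrix κ₁ κ₁ F →ₐ[F] Matrix ι ι F) (r : Matrix κ₂ κ₂ F →ₐ[F] Matrix ι ι F) : Prop :=
  ∃ (p : Matrix κ₁ κ₁ F) (b bi : Matrix κ₂ κ₂ F) (c : GL κ₂ F) (x w : GL ι F), p * p = p ∧ p ≠ 0 ∧ p ≠ 1 ∧
    BC b bi c ∧ (∀ (k l : F) (q : Matrix κ₂ κ₂ F), q * q = q → b ≠ k • (1 - q) + l • q) ∧
    x ∈ omegaGL Qf ∧ (x : Matrix ι ι F) = s p * r b + s (1 - p) ∧
    w ∈ omegaGL Qf ∧ (w : Matrix ι ι F) = s ((1 : GL κ₁ F) : Matrix κ₁ κ₁ F) * r (c : Matrix κ₂ κ₂ F)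

/-- the data in the first factor -/
def PP {κ : Type} [Fintype κ] [DecidableEq κ] (G : Matrix κ κ F) : Prop :=
  ∃ p : Matrix κ κ F, p * p = p ∧ p ≠ 0 ∧ p ≠ 1 ∧ pᵀ * G = G * p

/-- the data in the second factor -/
def BB {κ : Type} [Fintype κ] [DecidableEq κ] (G : Matrix κ κ F) : Prop :=
  ∃ b c : GL κ F, b ∈ KG G ∧ c ∈ KG G ∧ BC (b : Matrix κ κ F) ((b⁻¹ : GL κ F) : Matrix κ κ F) c ∧
    ∀ (k l : F) (q : Matrix κ κ F), q * q = q → (b : Matrix κ κ F) ≠ k • (1 - q) + l • q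

theorem Fr.w_mem (h : Fr Qf s r G₁ G₂) {c : GL κ₂ F} (hc : c ∈ KG G₂) : ∃ w ∈ omegaGL Qf,
    (w : Matrix ι ι F) = s ((1 : GL κ₁ F) : Matrix κ₁ κ₁ F) * r (c : Matrix κ₂ κ₂ F) := by
  refine ⟨psi h.ts.comm (p := 1) (mul_one 1) c, comm_le_omega Qf (h.psi_omega (mul_one 1) (by simp) hc), ?_⟩
  rw [psi_val, sub_self, map_zero, add_zero, Units.val_one]

theorem Fr.good (h : Fr Qf s r G₁ G₂) (h1 : PP G₁) (h2 : BB G₂) : Good Qf s r := by
  obtain ⟨p, hp, hp0, hp1, hpa⟩ := h1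
  obtain ⟨b, c, hb, hc, hbc, hR⟩ := h2
  obtain ⟨w, hw, hwv⟩ := h.w_mem hc
  exact ⟨p, _, _, c, _, w, hp, hp0, hp1, hbc, hR, comm_le_omega Qf (h.psi_omega hp hpa hb), psi_val _ _ _, hw, hwv⟩

/-- the version with two projections -/
theorem Fr.good_two (h : Fr Qf s r G₁ G₂) {p₁ p₂ : Matrix κ₁ κ₁ F} (hp₁ : p₁ * p₁ = p₁) (hp₂ : p₂ * p₂ = p₂)
    (h12 : p₁ * p₂ = 0) (h21 : p₂ * p₁ = 0) (hp0 : p₁ + p₂ ≠ 0) (hp1 : p₁ + p₂ ≠ 1) (hpa : p₁ᵀ * G₁ = G₁ * p₁)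
    {σ : GL κ₁ F} (hσ : σ ∈ IsoG G₁) (hσp : cjm σ p₁ = p₂) {b c : GL κ₂ F} (hb : b ∈ IsoG G₂) (hb2 : b * b ∈ KG G₂)
    (hc : c ∈ KG G₂) (hbc : BC (b : Matrix κ₂ κ₂ F) ((b⁻¹ : GL κ₂ F) : Matrix κ₂ κ₂ F) c)
    (hR : ∀ (k l : F) (q : Matrix κ₂ κ₂ F), q * q = q → (b : Matrix κ₂ κ₂ F) ≠ k • (1 - q) + l • q) : Good Qf s r := by
  obtain ⟨w, hw, hwv⟩ := h.w_mem hc
  let y : GL ι F := psi h.ts.comm hp₁ b
  let τ : GL ι F := Units.map (s : Matrix κ₁ κ₁ F →* Matrix ι ι F) σ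
  have hτv : (τ : Matrix ι ι F) = s (σ : Matrix κ₁ κ₁ F) := rfl
  have hτi : ((τ⁻¹ : GL ι F) : Matrix ι ι F) = s ((σ⁻¹ : GL κ₁ F) : Matrix κ₁ κ₁ F) := rfl
  have hτ : τ ∈ isometryGroup F Qf := h.symm_iso hσ hτv
  have hy : y ∈ isometryGroup F Qf := h.psi_iso hp₁ hpa hb
  have hy2 : y * y ∈ ⁅isometryGroup F Qf, isometryGroup F Qf⁆ := by
    have := h.psi_omega hp₁ hpa hb2
    rwa [map_mul] at this
  have hx : y * (τ * y * τ⁻¹) ∈ ⁅isometryGroup F Qf, isometryGroup F Qf⁆ := by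
    have e : y * (τ * y * τ⁻¹) = (y * y) * (y⁻¹ * τ * (y⁻¹)⁻¹ * τ⁻¹) := by group
    rw [e]
    exact mul_mem hy2 (Subgroup.commutator_mem_commutator (inv_mem hy) hτ)
  refine ⟨p₁ + p₂, _, _, c, _, w, ?_, hp0, hp1, hbc, hR, comm_le_omega Qf hx, ?_, hw, hwv⟩
  · rw [add_mul, mul_add, mul_add, hp₁, hp₂, h12, h21]
    abel
  · have e1 : ((τ * y * τ⁻¹ : GL ι F) : Matrix ι ι F) = s p₂ * r (b : Matrix κ₂ κ₂ F) + s (1 - p₂) := by
      rw [Units.val_mul, Units.val_mul, hτv, hτi, psi_val, mul_add, add_mul, ← mul_assoc (s (σ : Matrix κ₁ κ₁ F)) (s p₁),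
        mul_assoc _ (r (b : Matrix κ₂ κ₂ F)), ← h.ts.comm, ← mul_assoc, ← map_mul, ← map_mul, ← map_mul, ← map_mul,
        mul_sub, sub_mul, mul_one, Units.mul_inv]
      change s (cjm σ p₁) * _ + s (1 - cjm σ p₁) = _
      rw [hσp]
    rw [Units.val_mul, e1, psi_val]
    have e2 : p₁ * (1 - p₂) = p₁ := by rw [mul_sub, mul_one, h12, sub_zero]
    have e3 : (1 - p₁) * p₂ = p₂ := by rw [sub_mul, one_mul, h12, sub_zero]
    have e4 : (1 - p₁) * (1 - p₂) = 1 - (p₁ + p₂) := by rw [mul_sub, e3, mul_one]; abel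
    rw [add_mul, mul_add, mul_add, mul_assoc (s p₁) _ (s p₂ * _), ← mul_assoc (r _) (s p₂), ← h.ts.comm, mul_assoc (s p₂),
      ← mul_assoc (s p₁) (s p₂), ← map_mul s, h12, map_zero, zero_mul, zero_add, mul_assoc (s p₁), ← h.ts.comm,
      ← mul_assoc, ← map_mul s, e2, ← mul_assoc, ← map_mul s, e3, ← map_mul s, e4, map_add, add_mul, add_assoc]

end Cfsg.Agent.H487.EP
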