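import Cfsg.Agent.H487.EP.Fr
import Cfsg.Agent.H487.EP.Wreath3
import Cfsg.Agent.H932.TensAlt
import Cfsg.Agent.H919.AschWreathForm3

/-!
# S3499: tensor decompositions of quadratic forms give frames `Fr` (helper487)
-/

set_option autoImplicit false
set_option linter.unusedSectionVars false

namespace Cfsg.Agent.H487.EP

open Matrix Subgroup Cfsg.Agent.H284 Cfsg.Agent.H419.EP Cfsg.Geo
open Cfsg.Agent.H922 (pureVec pureMat_mulVec)
open Cfsg.Agent.H919 (HermForm pureMat pureMat_apply pureMat_mul slotMat framePure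
  single_eq_pureVec)
open Cfsg.Agent.H912 (pt comp_eq_sum exists_comp_eq formOfGram_eq_dotProduct kronecker_mulVec_pt)
open scoped MatrixGroups Kronecker

variable {ι : Type} [Fintype ι] [DecidableEq ι] {F : Type} [Field F] [Fintype F]

section general

variable {κ : Type} [Fintype κ] [DecidableEq κ]

theorem frA_mulVec (e : ι ≃ κ) (P : GL ι F) (X : Matrix κ κ F) (x : κ → F) :
    frA e P X *ᵥ ((P : Matrix ι ι F) *ᵥ (x ∘ e)) = (P : Matrix ι ι F) *ᵥ ((X *ᵥ x) ∘ e) := by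
  rw [frA_apply, mulVec_mulVec, mul_assoc _ _ (P : Matrix ι ι F), ← Units.val_mul, inv_mul_cancel, Units.val_one,
    mul_one, ← mulVec_mulVec]
  congr 1
  funext l
  simp only [mulVec, dotProduct, coe_reindexAlgEquiv, reindex_apply, submatrix_apply, Equiv.symm_symm,
    Function.comp_apply]
  exact Equiv.sum_comp e (fun b => X (e l) b * x b)

theorem adj_frame (e : ι ≃ κ) (P : GL ι F) {B : (ι → F) → (ι → F) → F} {G : Matrix κ κ F} {c : F}
    (hform : ∀ x y : κ → F, B ((P : Matrix ι ι F) *ᵥ (x ∘ e)) ((P : Matrix ι ι F) *ᵥ (y ∘ e)) = c * (x ⬝ᵥ (G *ᵥ y)))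
    {X X' : Matrix κ κ F} (h : Xᵀ * G = G * X') (v w : ι → F) : B (frA e P X *ᵥ v) w = B v (frA e P X' *ᵥ w) := by
  obtain ⟨x, rfl⟩ := exists_comp_eq e P v
  obtain ⟨y, rfl⟩ := exists_comp_eq e P w
  rw [frA_mulVec, frA_mulVec, hform, hform, mulVec_mulVec, ← h, ← mulVec_mulVec, Matrix.dotProduct_mulVec x Xᵀ,
    Matrix.vecMul_transpose]

theorem span_frame (e : ι ≃ κ) (P : GL ι F) {Z : Set (ι → F)}
    (hZ : ∀ a : κ, (P : Matrix ι ι F) *ᵥ (Pi.single a (1 : F) ∘ e) ∈ Z) : Submodule.span F Z = ⊤ := by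
  rw [eq_top_iff]
  intro v _
  obtain ⟨x, rfl⟩ := exists_comp_eq e P v
  rw [comp_eq_sum]
  exact Submodule.sum_mem _ fun a _ => Submodule.smul_mem _ _ (Submodule.subset_span (hZ a))

end general

theorem kr_adjL {n₁ n₂ : ℕ} {G₁ : Matrix (Fin n₁) (Fin n₁) F} {G₂ : Matrix (Fin n₂) (Fin n₂) F}
    {u u' : Matrix (Fin n₁) (Fin n₁) F} (h : uᵀ * G₁ = G₁ * u') :
    (u ⊗ₖ (1 : Matrix (Fin n₂) (Fin n₂) F))ᵀ * (G₁ ⊗ₖ G₂) = (G₁ ⊗ₖ G₂) * (u' ⊗ₖ (1 : Matrix (Fin n₂) (Fin n₂) F)) := by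
  rw [← Matrix.mul_kronecker_mul, ← h, mul_one]
  have e : (u ⊗ₖ (1 : Matrix (Fin n₂) (Fin n₂) F))ᵀ = uᵀ ⊗ₖ (1 : Matrix (Fin n₂) (Fin n₂) F) := by
    ext i j
    simp [Matrix.kroneckerMap_apply, Matrix.one_apply, eq_comm]
  rw [e, ← Matrix.mul_kronecker_mul, one_mul]

theorem kr_adjR {n₁ n₂ : ℕ} {G₁ : Matrix (Fin n₁) (Fin n₁) F} {G₂ : Matrix (Fin n₂) (Fin n₂) F}
    {u u' : Matrix (Fin n₂) (Fin n₂) F} (h : uᵀ * G₂ = G₂ * u') :
    ((1 : Matrix (Fin n₁) (Fin n₁) F) ⊗ₖ u)ᵀ * (G₁ ⊗ₖ G₂) = (G₁ ⊗ₖ G₂) * ((1 : Matrix (Fin n₁) (Fin n₁) F) ⊗ₖ u') := by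
  rw [← Matrix.mul_kronecker_mul, ← h, mul_one]
  have e : ((1 : Matrix (Fin n₁) (Fin n₁) F) ⊗ₖ u)ᵀ = (1 : Matrix (Fin n₁) (Fin n₁) F) ⊗ₖ uᵀ := by
    ext i j
    simp [Matrix.kroneckerMap_apply, Matrix.one_apply, eq_comm]
  rw [e, ← Matrix.mul_kronecker_mul, one_mul]

/-- **the frame of a tensor decomposition** -/
theorem fr_tensor {Qf : (ι → F) → F} (hQ : IsNondegenerateQuadraticForm Qf) {n₁ n₂ : ℕ}
    {f₁ : (Fin n₁ → F) → (Fin n₁ → F) → F} {f₂ : (Fin n₂ → F) → (Fin n₂ → F) → F} {e : ι ≃ Fin n₁ × Fin n₂} {P : GL ι F}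
    (hT : IsTensorFormStructure id (QuadraticMap.polar Qf) f₁ f₂ e P)
    (hq : (2 : F) ≠ 0 ∨ ∀ v w, Qf ((P : Matrix ι ι F) *ᵥ (pt v w ∘ e)) = 0) :
    Fr Qf (sL e P) (sR e P) (gramMatrix f₁) (gramMatrix f₂) := by
  obtain ⟨c, hc, hform⟩ := hT
  have hform' : ∀ x y : Fin n₁ × Fin n₂ → F, QuadraticMap.polar Qf ((P : Matrix ι ι F) *ᵥ (x ∘ e))
      ((P : Matrix ι ι F) *ᵥ (y ∘ e)) = c * (x ⬝ᵥ ((gramMatrix f₁ ⊗ₖ gramMatrix f₂) *ᵥ y)) := by
    intro x y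
    rw [hform, formOfGram_eq_dotProduct]
    rfl
  refine ⟨hQ, ts e P, fun u u' h v w => adj_frame e P hform' (kr_adjL h) v w,
    fun u u' h v w => adj_frame e P hform' (kr_adjR h) v w, ?_⟩
  rcases hq with h2 | hq
  · exact Or.inl h2
  · refine Or.inr ⟨{v | ∃ x y, v = (P : Matrix ι ι F) *ᵥ (pt x y ∘ e)}, ?_, ?_, ?_, ?_⟩
    · apply span_frame e P
      rintro ⟨a, b⟩
      refine ⟨Pi.single a 1, Pi.single b 1, ?_⟩
      congr 2
      funext ⟨a', b'⟩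
      simp only [pt, Pi.single_apply, Prod.mk.injEq]
      by_cases h1 : a' = a <;> by_cases h2 : b' = b <;> simp [h1, h2]
    · rintro _ ⟨x, y, rfl⟩
      exact hq x y
    · rintro u _ ⟨x, y, rfl⟩
      refine ⟨u *ᵥ x, (1 : Matrix (Fin n₂) (Fin n₂) F) *ᵥ y, ?_⟩
      rw [← kronecker_mulVec_pt, ← frA_mulVec]
      rfl
    · rintro u _ ⟨x, y, rfl⟩
      refine ⟨(1 : Matrix (Fin n₁) (Fin n₁) F) *ᵥ x, u *ᵥ y, ?_⟩
      rw [← kronecker_mulVec_pt, ← frA_mulVec]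
      rfl

theorem slot_adj {t m : ℕ} {G : Matrix (Fin m) (Fin m) F} {u u' : Matrix (Fin m) (Fin m) F} (h : uᵀ * G = G * u')
    (i : Fin t) : (slotMat i u)ᵀ * pureMat (fun _ => G) = pureMat (fun _ => G) * slotMat i u' := by
  have e : (slotMat i u)ᵀ = slotMat i uᵀ := by
    ext a b
    rw [Matrix.transpose_apply, slotMat, slotMat, pureMat_apply, pureMat_apply]
    refine Finset.prod_congr rfl fun j _ => ?_
    by_cases hj : j = i
    · subst hj
      rw [Function.update_self, Function.update_self, Matrix.transpose_apply]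
    · rw [Function.update_of_ne hj, Function.update_of_ne hj, Matrix.one_apply, Matrix.one_apply]
      simp [eq_comm]
  rw [e, slotMat, slotMat, pureMat_mul, pureMat_mul]
  congr 1
  funext j
  by_cases hj : j = i
  · subst hj
    rw [Function.update_self, Function.update_self, h]
  · rw [Function.update_of_ne hj, Function.update_of_ne hj, one_mul, mul_one]

theorem slot_pure {t m : ℕ} (e : ι ≃ (Fin t → Fin m)) (P : GL ι F) (i : Fin t) (u : Matrix (Fin m) (Fin m) F)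
    (w : Fin t → (Fin m → F)) : ∃ w', sl e P i u *ᵥ framePure e P w = framePure e P w' := by
  refine ⟨fun j => (Function.update (fun _ => (1 : Matrix (Fin m) (Fin m) F)) i u) j *ᵥ w j, ?_⟩
  rw [sl_apply, framePure, frA_mulVec, framePure, slotMat, pureMat_mulVec]

/-- **the frame of a tensor power** -/
theorem fr_wreath {Qf : (ι → F) → F} (hQ : IsNondegenerateQuadraticForm Qf) {t m : ℕ}
    {f₁ : (Fin m → F) → (Fin m → F) → F} {e : ι ≃ (Fin t → Fin m)} {P : GL ι F}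
    (hT : IsTensorPowerFormStructure id (QuadraticMap.polar Qf) f₁ e P)
    (hq : (2 : F) ≠ 0 ∨ ∀ w, Qf (framePure e P w) = 0) {i j : Fin t} (hij : i ≠ j) :
    Fr Qf (sl e P i) (sl e P j) (gramMatrix f₁) (gramMatrix f₁) := by
  obtain ⟨c, hc, hform⟩ := hT
  have hform' : ∀ x y : (Fin t → Fin m) → F, QuadraticMap.polar Qf ((P : Matrix ι ι F) *ᵥ (x ∘ e))
      ((P : Matrix ι ι F) *ᵥ (y ∘ e)) = c * (x ⬝ᵥ (pureMat (fun _ => gramMatrix f₁) *ᵥ y)) := by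
    intro x y
    rw [hform]
    congr 1
    simp only [dotProduct, mulVec, Finset.mul_sum]
    refine Finset.sum_congr rfl fun a _ => Finset.sum_congr rfl fun b _ => ?_
    rw [pureMat_apply, id, mul_assoc]
  refine ⟨hQ, ts_sl e P hij, fun u u' h v w => adj_frame e P hform' (slot_adj h i) v w,
    fun u u' h v w => adj_frame e P hform' (slot_adj h j) v w, ?_⟩
  rcases hq with h2 | hq
  · exact Or.inl h2
  · refine Or.inr ⟨{v | ∃ w, v = framePure e P w}, ?_, ?_, ?_, ?_⟩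
    · apply span_frame e P
      intro a
      exact ⟨fun i => Pi.single (a i) 1, by rw [single_eq_pureVec]; rfl⟩
    · rintro _ ⟨w, rfl⟩
      exact hq w
    · rintro u _ ⟨w, rfl⟩
      exact slot_pure e P i u w
    · rintro u _ ⟨w, rfl⟩
      exact slot_pure e P j u w

end Cfsg.Agent.H487.EP
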