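import Cfsg.Agent.H487.EP.FrTW

/-!
# S3499: the kill from the data `Good` (helper487)
-/

set_option autoImplicit false
set_option linter.unusedSectionVars false

namespace Cfsg.Agent.H487.EP

open Matrix Subgroup Cfsg.Agent.H284 Cfsg.Agent.H419.EP Cfsg.Geo
open scoped MatrixGroups Kronecker

variable {κ₁ κ₂ ι : Type} [Fintype κ₁] [DecidableEq κ₁] [Fintype κ₂] [DecidableEq κ₂] [Fintype ι] [DecidableEq ι]
variable {F : Type} [Field F] [Fintype F]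

/-- `x ∉ M` -/
theorem not_mem_two {M : Subgroup (GL ι F)}
    {s : Matrix κ₁ κ₁ F →ₐ[F] Matrix ι ι F} {r : Matrix κ₂ κ₂ F →ₐ[F] Matrix ι ι F} (hTS : TS s r)
    {p : Matrix κ₁ κ₁ F} (hp : p * p = p) (hp0 : p ≠ 0) {b bi : Matrix κ₂ κ₂ F} {c : GL κ₂ F} (hbc : BC b bi c)
    {x : GL ι F}
    (hM : ∀ g ∈ M, x⁻¹ * g * x ∈ M → ∃ (a₁ : GL κ₁ F) (a₂ : GL κ₂ F), Acts s r g a₁ a₂ ∧
      ((cjm a₁ p = p ∧ ∃ k : F, k ≠ 0 ∧ cjm a₂ b = k • b) ∨ (cjm a₁ p = 1 - p ∧ ∃ k : F, k ≠ 0 ∧ cjm a₂ b = k • bi)))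
    {w : GL ι F} (hwM : w ∈ M) {c₁ : GL κ₁ F} (hw : Acts s r w c₁ c) (hcp : cjm c₁ p = p) : x ∉ M := by
  have hone : (1 : Matrix κ₂ κ₂ F) ≠ 0 := hbc.nonSc.one_ne
  have hone1 : (1 : Matrix κ₁ κ₁ F) ≠ 0 := by
    intro h0
    apply hp0
    calc p = p * 1 := (mul_one _).symm
      _ = 0 := by rw [h0, mul_zero]
  intro hx
  obtain ⟨a₁, a₂, hact, h1⟩ := hM w hwM (M.mul_mem (M.mul_mem (M.inv_mem hx) hwM) hx)
  have e1 : cjm a₁ p = p := by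
    apply hTS.inj_left hone
    rw [← hact.left, hw.left, hcp]
  have e2 : cjm a₂ b = cjm c b := by
    apply hTS.symm.inj_left hone1
    rw [← hact.right, hw.right]
  rcases h1 with ⟨-, k, hk, h2⟩ | ⟨h2, -⟩
  · exact hbc.ne k (by rw [← e2, h2])
  · rw [e1] at h2
    apply hp0
    calc p = p * p := hp.symm
      _ = p * (1 - p) := by rw [← h2]
      _ = 0 := by rw [mul_sub, mul_one, hp, sub_self]

/-- the elements of `M ∩ M^x` -/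
theorem tensor_types {n₁ n₂ : ℕ} (e : ι ≃ Fin n₁ × Fin n₂) (P : GL ι F)
    {p : Matrix (Fin n₁) (Fin n₁) F} (hp : p * p = p) (hp0 : p ≠ 0) (hp1 : p ≠ 1)
    {b bi : Matrix (Fin n₂) (Fin n₂) F} (hbi : b * bi = 1) (hb : NonSc b)
    {x : GL ι F} (hxv : (x : Matrix ι ι F) = sL e P p * sR e P b + sL e P (1 - p)) {g : GL ι F}
    (hg : g ∈ tensorProductSubgroup n₁ n₂ e P) (hgx : x⁻¹ * g * x ∈ tensorProductSubgroup n₁ n₂ e P) :
    ∃ (a₁ : GL (Fin n₁) F) (a₂ : GL (Fin n₂) F), Acts (sL e P) (sR e P) g a₁ a₂ ∧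
      ((cjm a₁ p = p ∧ ∃ k : F, k ≠ 0 ∧ cjm a₂ b = k • b) ∨ (cjm a₁ p = 1 - p ∧ ∃ k : F, k ≠ 0 ∧ cjm a₂ b = k • bi)) := by
  obtain ⟨a₁, a₂, hga⟩ := (mem_tensor e P).1 hg
  have hact := Acts.of_pure (ts e P) hga
  refine ⟨a₁, a₂, hact, ?_⟩
  have hY : x⁻¹ * g * x * g⁻¹ ∈ tensorProductSubgroup n₁ n₂ e P := mul_mem hgx (inv_mem hg)
  obtain ⟨c', d', hY'⟩ := (mem_tensor e P).1 hY
  have e1 : (x : Matrix ι ι F) * ((x⁻¹ * g * x * g⁻¹ : GL ι F) : Matrix ι ι F) = cjm g (x : Matrix ι ι F) := by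
    rw [← Units.val_mul, show x * (x⁻¹ * g * x * g⁻¹) = g * x * g⁻¹ by group]
    rfl
  have hX : cjm g (x : Matrix ι ι F) = sL e P (cjm a₁ p) * sR e P (cjm a₂ b) + sL e P (1 - cjm a₁ p) := by
    rw [hxv, cjm_add, cjm_mul, hact.left, hact.right, hact.left, cjm_sub, cjm_one]
  rw [hY', hX, hxv] at e1
  have hp' : cjm a₁ p * cjm a₁ p = cjm a₁ p := by rw [← cjm_mul, hp]
  exact (ts e P).lemA hp hp0 hp1 hbi hp' (cjm_ne_zero a₁ hp0) (cjm_ne_one a₁ hp1) (hb.cjm a₂) c'.isUnit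
    d'.isUnit e1

variable {Q : Type*} [Group Q] [Finite Q] {A : Subgroup Q} {Γ : Subgroup (MulAut Q)} {Qf : (ι → F) → F}

/-- **The kill for tensor decompositions, form version** -/
theorem good_tensor (h : EPT A Γ) (m : Model Q (omegaGL Qf)) {n₁ n₂ : ℕ} (e : ι ≃ Fin n₁ × Fin n₂) (P : GL ι F)
    (hA : m.hat A ≤ tensorProductSubgroup n₁ n₂ e P) (hG : Good Qf (sL e P) (sR e P)) : False := by
  obtain ⟨p, b, bi, c, x, w, hp, hp0, hp1, hbc, hR, hx, hxv, hw, hwv⟩ := hG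
  have hcp : cjm (1 : GL (Fin n₁) F) p = p := by simp [cjm]
  have hxM := not_mem_two (M := tensorProductSubgroup n₁ n₂ e P) (ts e P) hp hp0 hbc
    (fun g hg hgx => tensor_types e P hp hp0 hp1 hbc.mbi hbc.nonSc hxv hg hgx) ((mem_tensor e P).2 ⟨1, c, hwv⟩)
    (Acts.of_pure (ts e P) hwv) hcp
  have hA' := Cfsg.Agent.H458.EP.hat_eq m h.max hA (fun hle => hxM (hle hx))
  exact kill_tensor h m e P hA' hp hp0 hp1 hbc hx hxv hw hcp hwv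

/-- **The kill for tensor powers, form version** -/
theorem good_wreath (h : EPT A Γ) (mo : Model Q (omegaGL Qf)) {t m : ℕ} (e : ι ≃ (Fin t → Fin m)) (P : GL ι F)
    (hA : mo.hat A ≤ tensorWreathSubgroup m t e P) {i0 i1 : Fin t} (h01 : i0 ≠ i1)
    (hG : Good Qf (sl e P i0) (sl e P i1)) : False := by
  obtain ⟨p, b, bi, c, x, w, hp, hp0, hp1, hbc, hR, hx, hxv, hw, hwv⟩ := hG
  have hcp : cjm (1 : GL (Fin m) F) p = p := by simp [cjm]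
  have hxM := not_mem_two (M := tensorWreathSubgroup m t e P) (ts_sl e P h01) hp hp0 hbc
    (fun _ hg hgx => wreath_types h01 hp hp0 hp1 hbc.mbi hbc.nonSc hR hxv hg hgx) (pure_mem h01 1 c hwv)
    (Acts.of_pure (ts_sl e P h01) hwv) hcp
  have hA' := Cfsg.Agent.H458.EP.hat_eq mo h.max hA (fun hle => hxM (hle hx))
  exact kill_wreath h mo e P hA' h01 hp hp0 hp1 hbc hR hx hxv hw hcp hwv

end Cfsg.Agent.H487.EP
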