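import Cfsg.Agent.H487.EP.Kill
import Cfsg.Agent.H925.OrthRed

/-!
# S3499: isometries of tensor decompositions (helper487)

* `IsoG G` : the isometry group of a Gram matrix, `KG G` its commutator subgroup;
* `SubG G J R C` : the columns of `R` span a nondegenerate subspace with Gram matrix `J`; `TT` extends isometries of `J`
  by the identity on the orthogonal complement;
* `Fr Qf s r G₁ G₂` : the two algebras `s`, `r` with their adjoint involutions; `psi`.
-/

set_option autoImplicit false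
set_option linter.unusedSectionVars false

namespace Cfsg.Agent.H487.EP

open Matrix Subgroup Cfsg.Agent.H284 Cfsg.Agent.H419.EP Cfsg.Geo
open scoped MatrixGroups Kronecker

section isoG

variable {κ μ : Type} [Fintype κ] [DecidableEq κ] [Fintype μ] [DecidableEq μ] {F : Type*} [Field F]

/-- the isometry group of a Gram matrix -/
def IsoG (G : Matrix κ κ F) : Subgroup (GL κ F) where
  carrier := {c | (c : Matrix κ κ F)ᵀ * G * (c : Matrix κ κ F) = G}
  mul_mem' {a b} ha hb := by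
    change (a : Matrix κ κ F)ᵀ * G * (a : Matrix κ κ F) = G at ha
    change (b : Matrix κ κ F)ᵀ * G * (b : Matrix κ κ F) = G at hb
    change ((a * b : GL κ F) : Matrix κ κ F)ᵀ * G * ((a * b : GL κ F) : Matrix κ κ F) = G
    rw [Units.val_mul, Matrix.transpose_mul]
    calc (b : Matrix κ κ F)ᵀ * (a : Matrix κ κ F)ᵀ * G * ((a : Matrix κ κ F) * (b : Matrix κ κ F))
        = (b : Matrix κ κ F)ᵀ * ((a : Matrix κ κ F)ᵀ * G * (a : Matrix κ κ F)) * (b : Matrix κ κ F) := by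
          simp only [mul_assoc]
      _ = G := by rw [ha, hb]
  one_mem' := by
    change ((1 : GL κ F) : Matrix κ κ F)ᵀ * G * ((1 : GL κ F) : Matrix κ κ F) = G
    simp
  inv_mem' {a} ha := by
    change (a : Matrix κ κ F)ᵀ * G * (a : Matrix κ κ F) = G at ha
    change ((a⁻¹ : GL κ F) : Matrix κ κ F)ᵀ * G * ((a⁻¹ : GL κ F) : Matrix κ κ F) = G
    have h1 : (a : Matrix κ κ F) * ((a⁻¹ : GL κ F) : Matrix κ κ F) = 1 := Units.mul_inv a
    have h2 : ((a⁻¹ : GL κ F) : Matrix κ κ F)ᵀ * (a : Matrix κ κ F)ᵀ = 1 := by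
      rw [← Matrix.transpose_mul, h1, Matrix.transpose_one]
    calc ((a⁻¹ : GL κ F) : Matrix κ κ F)ᵀ * G * ((a⁻¹ : GL κ F) : Matrix κ κ F)
        = ((a⁻¹ : GL κ F) : Matrix κ κ F)ᵀ * ((a : Matrix κ κ F)ᵀ * G * (a : Matrix κ κ F)) *
          ((a⁻¹ : GL κ F) : Matrix κ κ F) := by rw [ha]
      _ = (((a⁻¹ : GL κ F) : Matrix κ κ F)ᵀ * (a : Matrix κ κ F)ᵀ) * G *
          ((a : Matrix κ κ F) * ((a⁻¹ : GL κ F) : Matrix κ κ F)) := by simp only [mul_assoc]
      _ = G := by rw [h1, h2, one_mul, mul_one]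

theorem mem_isoG {G : Matrix κ κ F} {c : GL κ F} : c ∈ IsoG G ↔ (c : Matrix κ κ F)ᵀ * G * (c : Matrix κ κ F) = G := Iff.rfl

/-- the commutator subgroup of the isometry group -/
def KG (G : Matrix κ κ F) : Subgroup (GL κ F) := ⁅IsoG G, IsoG G⁆

theorem KG_le (G : Matrix κ κ F) : KG G ≤ IsoG G := Subgroup.commutator_le_self _

theorem comm_mem_KG {G : Matrix κ κ F} {a b : GL κ F} (ha : a ∈ IsoG G) (hb : b ∈ IsoG G) : a * b * a⁻¹ * b⁻¹ ∈ KG G :=
  Subgroup.commutator_mem_commutator ha hb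

/-- the adjoint of an isometry -/
theorem isoG_adj {G : Matrix κ κ F} {c : GL κ F} (hc : c ∈ IsoG G) :
    (c : Matrix κ κ F)ᵀ * G = G * ((c⁻¹ : GL κ F) : Matrix κ κ F) := by
  calc (c : Matrix κ κ F)ᵀ * G = (c : Matrix κ κ F)ᵀ * G * ((c : Matrix κ κ F) * ((c⁻¹ : GL κ F) : Matrix κ κ F)) := by
        rw [Units.mul_inv, mul_one]
    _ = _ := by rw [← mul_assoc, mem_isoG.1 hc]

/-- a nondegenerate subspace -/
structure SubG (G : Matrix κ κ F) (J : Matrix μ μ F) (R : Matrix κ μ F) (C : Matrix μ κ F) : Prop where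
  cr : C * R = 1
  rg : Rᵀ * G = J * C
  gr : G * R = Cᵀ * J

variable {G : Matrix κ κ F} {J : Matrix μ μ F} {R : Matrix κ μ F} {C : Matrix μ κ F}

/-- extension by the identity -/
def TT (hcr : C * R = 1) : Matrix μ μ F →* Matrix κ κ F where
  toFun A := 1 + R * (A - 1) * C
  map_one' := by simp
  map_mul' A B := by
    have h1 : R * (A - 1) * C * (R * (B - 1) * C) = R * ((A - 1) * (B - 1)) * C := by
      calc R * (A - 1) * C * (R * (B - 1) * C) = R * (A - 1) * (C * R) * (B - 1) * C := by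
            simp only [Matrix.mul_assoc]
        _ = R * ((A - 1) * (B - 1)) * C := by rw [hcr, Matrix.mul_one]; simp only [Matrix.mul_assoc]
    have h2 : A * B - 1 = (A - 1) + (B - 1) + (A - 1) * (B - 1) := by noncomm_ring
    have h3 : ∀ X Y : Matrix κ κ F, (1 + X) * (1 + Y) = 1 + X + Y + X * Y := by intro X Y; noncomm_ring
    rw [h3, h1, h2, Matrix.mul_add, Matrix.mul_add, Matrix.add_mul, Matrix.add_mul]
    abel

theorem TT_apply (hcr : C * R = 1) (A : Matrix μ μ F) : TT hcr A = 1 + R * (A - 1) * C := rfl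

theorem C_mul_TT (hcr : C * R = 1) (A : Matrix μ μ F) : C * TT hcr A = A * C := by
  rw [TT_apply, Matrix.mul_add, Matrix.mul_one, ← Matrix.mul_assoc, ← Matrix.mul_assoc, hcr, Matrix.one_mul,
    Matrix.sub_mul, Matrix.one_mul]
  abel

theorem TT_mul_R (hcr : C * R = 1) (A : Matrix μ μ F) : TT hcr A * R = R * A := by
  rw [TT_apply, Matrix.add_mul, Matrix.one_mul, Matrix.mul_assoc, hcr, Matrix.mul_one, Matrix.mul_sub, Matrix.mul_one]
  abel

/-- compression -/
theorem compress_TT (hcr : C * R = 1) (A : Matrix μ μ F) : C * TT hcr A * R = A := by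
  rw [C_mul_TT, Matrix.mul_assoc, hcr, Matrix.mul_one]

theorem TT_nonSc (hcr : C * R = 1) {A : Matrix μ μ F} (hA : NonSc A) : NonSc (TT hcr A) := by
  intro k hk
  apply hA k
  have := compress_TT hcr A
  rw [hk, Matrix.mul_smul, Matrix.smul_mul, Matrix.mul_one, hcr] at this
  exact this.symm

/-- `TT A` is not `k (1 - q) + l q` if `(A - k) (A - l) ≠ 0` -/
theorem TT_hR (hcr : C * R = 1) {A : Matrix μ μ F} (hA : ∀ k l : F, (A - k • 1) * (A - l • 1) ≠ 0)
    (k l : F) (q : Matrix κ κ F) (hq : q * q = q) : TT hcr A ≠ k • (1 - q) + l • q := by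
  intro h
  apply hA k l
  have hz : (TT hcr A - k • 1) * (TT hcr A - l • 1) = 0 := by
    have e1 : TT hcr A - k • 1 = (l - k) • q := by rw [h, smul_sub, sub_smul]; abel
    have e2 : TT hcr A - l • 1 = (k - l) • (1 - q) := by rw [h, smul_sub, smul_sub, sub_smul, sub_smul]; abel
    rw [e1, e2, Matrix.smul_mul, Matrix.mul_smul, mul_sub, mul_one, hq, sub_self, smul_zero, smul_zero]
  have h1 : C * ((TT hcr A - k • 1) * (TT hcr A - l • 1)) * R = (A - k • 1) * (A - l • 1) := by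
    have e1 : C * (TT hcr A - k • 1) = (A - k • 1) * C := by
      rw [Matrix.mul_sub, C_mul_TT, Matrix.sub_mul, Matrix.mul_smul, Matrix.smul_mul, Matrix.mul_one, Matrix.one_mul]
    have e2 : (TT hcr A - l • 1) * R = R * (A - l • 1) := by
      rw [Matrix.sub_mul, TT_mul_R, Matrix.mul_sub, Matrix.mul_smul, Matrix.smul_mul, Matrix.mul_one, Matrix.one_mul]
    rw [← Matrix.mul_assoc, e1, Matrix.mul_assoc, e2, Matrix.mul_assoc, ← Matrix.mul_assoc C, hcr, Matrix.one_mul]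
  rw [← h1, hz, Matrix.mul_zero, Matrix.zero_mul]

/-- extension by the identity, for invertible matrices -/
def TU (hcr : C * R = 1) : GL μ F →* GL κ F := Units.map (TT hcr)

theorem TU_val (hcr : C * R = 1) (A : GL μ F) : (TU hcr A : Matrix κ κ F) = TT hcr (A : Matrix μ μ F) := rfl

theorem TU_inv_val (hcr : C * R = 1) (A : GL μ F) :
    ((TU hcr A)⁻¹ : GL κ F).val = TT hcr ((A⁻¹ : GL μ F) : Matrix μ μ F) := by
  rw [← map_inv]; rfl

theorem TU_mem (h : SubG G J R C) {A : GL μ F} (hA : A ∈ IsoG J) : TU h.cr A ∈ IsoG G := by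
  rw [mem_isoG, TU_val]
  rw [mem_isoG] at hA
  set a : Matrix μ μ F := (A : Matrix μ μ F)
  have h1 : (TT h.cr a)ᵀ = 1 + Cᵀ * (a - 1)ᵀ * Rᵀ := by
    rw [TT_apply, Matrix.transpose_add, Matrix.transpose_one, Matrix.transpose_mul, Matrix.transpose_mul,
      ← Matrix.mul_assoc]
  have h2 : (TT h.cr a)ᵀ * G = G + Cᵀ * ((a - 1)ᵀ * J) * C := by
    rw [h1, Matrix.add_mul, Matrix.one_mul, Matrix.mul_assoc _ Rᵀ, h.rg]
    simp only [Matrix.mul_assoc]
  have h3 : a * 1 = a := mul_one a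
  have h4 : (a - 1)ᵀ * J + J * (a - 1) + (a - 1)ᵀ * J * (a - 1) = 0 := by
    have : aᵀ * J * a - J = 0 := by rw [hA, sub_self]
    rw [← this, Matrix.transpose_sub, Matrix.transpose_one]
    noncomm_ring
  rw [h2, Matrix.add_mul, TT_apply, Matrix.mul_add, Matrix.mul_one, Matrix.mul_add, Matrix.mul_one]
  have h5 : G * (R * (a - 1) * C) = Cᵀ * (J * (a - 1)) * C := by
    rw [← Matrix.mul_assoc, ← Matrix.mul_assoc, h.gr]
    simp only [Matrix.mul_assoc]
  have h6 : Cᵀ * ((a - 1)ᵀ * J) * C * (R * (a - 1) * C) = Cᵀ * ((a - 1)ᵀ * J * (a - 1)) * C := by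
    calc Cᵀ * ((a - 1)ᵀ * J) * C * (R * (a - 1) * C) = Cᵀ * ((a - 1)ᵀ * J) * (C * R) * (a - 1) * C := by
          simp only [Matrix.mul_assoc]
      _ = _ := by rw [h.cr, Matrix.mul_one]; simp only [Matrix.mul_assoc]
  rw [h5, h6]
  have h7 : Cᵀ * ((a - 1)ᵀ * J) * C + Cᵀ * (J * (a - 1)) * C + Cᵀ * ((a - 1)ᵀ * J * (a - 1)) * C = 0 := by
    rw [← Matrix.add_mul, ← Matrix.add_mul, ← Matrix.mul_add, ← Matrix.mul_add, h4, Matrix.mul_zero, Matrix.zero_mul]
  calc G + Cᵀ * (J * (a - 1)) * C + (Cᵀ * ((a - 1)ᵀ * J) * C + Cᵀ * ((a - 1)ᵀ * J * (a - 1)) * C)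
      = G + (Cᵀ * ((a - 1)ᵀ * J) * C + Cᵀ * (J * (a - 1)) * C + Cᵀ * ((a - 1)ᵀ * J * (a - 1)) * C) := by abel
    _ = G := by rw [h7, add_zero]

theorem TU_mem_KG (h : SubG G J R C) {A : GL μ F} (hA : A ∈ KG J) : TU h.cr A ∈ KG G := by
  have h1 : (KG J).map (TU h.cr) ≤ KG G := by
    rw [KG, Subgroup.map_commutator]
    apply Subgroup.commutator_mono <;>
    · rintro _ ⟨x, hx, rfl⟩
      exact TU_mem h hx
  exact h1 ⟨A, hA, rfl⟩

theorem BC_TU (hcr : C * R = 1) {A B : GL μ F} (hAB : (B : Matrix μ μ F) * (A : Matrix μ μ F) * ((B⁻¹ : GL μ F) : Matrix μ μ F) =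
    ((A⁻¹ : GL μ F) : Matrix μ μ F)) (hA : NonSc ((A : Matrix μ μ F) * (A : Matrix μ μ F))) :
    BC (TU hcr A : Matrix κ κ F) (((TU hcr A)⁻¹ : GL κ F) : Matrix κ κ F) (TU hcr B) := by
  apply BC.of_inv
  · exact Units.mul_inv _
  · rw [cjm, TU_inv_val, TU_inv_val, TU_val, TU_val, ← map_mul, ← map_mul, hAB]
  · rw [TU_val, ← map_mul]
    exact TT_nonSc hcr hA

/-- the projection -/
theorem proj_idem (hcr : C * R = 1) {E : Matrix μ μ F} (hE : E * E = E) : R * E * C * (R * E * C) = R * E * C := by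
  calc R * E * C * (R * E * C) = R * E * (C * R) * E * C := by simp only [Matrix.mul_assoc]
    _ = R * (E * E) * C := by rw [hcr, Matrix.mul_one]; simp only [Matrix.mul_assoc]
    _ = _ := by rw [hE]

theorem proj_compress (hcr : C * R = 1) (E : Matrix μ μ F) : C * (R * E * C) * R = E := by
  calc C * (R * E * C) * R = (C * R) * E * (C * R) := by simp only [Matrix.mul_assoc]
    _ = E := by rw [hcr, Matrix.one_mul, Matrix.mul_one]

theorem proj_ne_zero (hcr : C * R = 1) {E : Matrix μ μ F} (hE : E ≠ 0) : R * E * C ≠ 0 := by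
  intro h
  apply hE
  rw [← proj_compress hcr E, h, Matrix.mul_zero, Matrix.zero_mul]

theorem proj_ne_one (hcr : C * R = 1) {E : Matrix μ μ F} (hE : E ≠ 1) : R * E * C ≠ 1 := by
  intro h
  apply hE
  rw [← proj_compress hcr E, h, Matrix.mul_one, hcr]

theorem proj_adj (h : SubG G J R C) {E : Matrix μ μ F} (hE : Eᵀ * J = J * E) : (R * E * C)ᵀ * G = G * (R * E * C) := by
  rw [Matrix.transpose_mul, Matrix.transpose_mul, Matrix.mul_assoc, Matrix.mul_assoc, h.rg, ← Matrix.mul_assoc Eᵀ, hE,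
    ← Matrix.mul_assoc G, ← Matrix.mul_assoc G, h.gr]
  simp only [Matrix.mul_assoc]

end isoG

end Cfsg.Agent.H487.EP
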