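import Mathlib

/-!
# Two commuting matrix algebras (helper487)

`TS s r` : `s : M_κ₁(F) → R`, `r : M_κ₂(F) → R` commuting and independent (`R = M_ι(F)`). For an idempotent `p` of
`M_κ₁(F)` and `b` in `M_κ₂(F)` we study the elements `x = s p * r b + s (1 - p)`.
-/

set_option autoImplicit false
set_option linter.unusedSectionVars false

namespace Cfsg.Agent.H487.EP

open Matrix

variable {κ₁ κ₂ ι : Type} [Fintype κ₁] [DecidableEq κ₁] [Fintype κ₂] [DecidableEq κ₂] [Fintype ι] [DecidableEq ι]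
variable {F : Type*} [Field F]

/-- two commuting, independent matrix algebras -/
structure TS (s : Matrix κ₁ κ₁ F →ₐ[F] Matrix ι ι F) (r : Matrix κ₂ κ₂ F →ₐ[F] Matrix ι ι F) : Prop where
  comm : ∀ a b, s a * r b = r b * s a
  ind : ∀ (N : ℕ) (u : Fin N → Matrix κ₁ κ₁ F) (v : Fin N → Matrix κ₂ κ₂ F), ∑ a, s (u a) * r (v a) = 0 →
    ∀ i j k l, ∑ a, u a i j * v a k l = 0

variable {s : Matrix κ₁ κ₁ F →ₐ[F] Matrix ι ι F} {r : Matrix κ₂ κ₂ F →ₐ[F] Matrix ι ι F}

theorem TS.ind3 (h : TS s r) {u u1 u2 : Matrix κ₁ κ₁ F} {v v1 v2 : Matrix κ₂ κ₂ F}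
    (e : s u * r v = s u1 * r v1 + s u2 * r v2) (i j : κ₁) (k l : κ₂) :
    u i j * v k l = u1 i j * v1 k l + u2 i j * v2 k l := by
  have h1 := h.ind 3 ![u, u1, u2] ![v, -v1, -v2] (by
    simp only [Fin.sum_univ_three, Matrix.cons_val_zero, Matrix.cons_val_one, Matrix.cons_val, map_neg, mul_neg]
    rw [e]; abel) i j k l
  simp only [Fin.sum_univ_three, Matrix.cons_val_zero, Matrix.cons_val_one, Matrix.cons_val, Matrix.neg_apply, mul_neg] at h1
  linear_combination h1

theorem TS.ind2 (h : TS s r) {u u1 : Matrix κ₁ κ₁ F} {v v1 : Matrix κ₂ κ₂ F}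
    (e : s u * r v = s u1 * r v1) (i j : κ₁) (k l : κ₂) : u i j * v k l = u1 i j * v1 k l := by
  have h1 := h.ind3 (u := u) (v := v) (u1 := u1) (v1 := v1) (u2 := 0) (v2 := 0) (by simp [e]) i j k l
  simpa using h1

theorem TS.ind1 (h : TS s r) {u : Matrix κ₁ κ₁ F} {v : Matrix κ₂ κ₂ F} (e : s u * r v = 0) : u = 0 ∨ v = 0 := by
  by_contra hcon
  push Not at hcon
  obtain ⟨h1, h2⟩ := hcon
  obtain ⟨i, j, hij⟩ : ∃ i j, u i j ≠ 0 := by
    by_contra hc; push Not at hc; exact h1 (by ext i j; exact hc i j)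
  obtain ⟨k, l, hkl⟩ : ∃ i j, v i j ≠ 0 := by
    by_contra hc; push Not at hc; exact h2 (by ext i j; exact hc i j)
  have := h.ind2 (u := u) (v := v) (u1 := 0) (v1 := 0) (by simp [e]) i j k l
  simp [hij, hkl] at this

theorem TS.symm (h : TS s r) : TS r s where
  comm := fun a b => (h.comm b a).symm
  ind := fun N u v e i j k l => by
    have := h.ind N v u (by rw [← e]; exact Finset.sum_congr rfl fun a _ => h.comm _ _) k l i j
    rw [← this]
    exact Finset.sum_congr rfl fun a _ => mul_comm _ _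

/-- **the main independence lemma** -/
theorem TS.key (h : TS s r) {u v1 v2 : Matrix κ₁ κ₁ F} {d w1 w2 : Matrix κ₂ κ₂ F}
    (e : s u * r d = s v1 * r w1 + s v2 * r w2) (hu : u ≠ 0)
    (hw : ∀ a b : F, a • w1 + b • w2 = 0 → a = 0 ∧ b = 0) :
    ∃ a b : F, v1 = a • u ∧ v2 = b • u ∧ d = a • w1 + b • w2 := by
  have h1 := h.ind3 e
  obtain ⟨i, j, hij⟩ : ∃ i j, u i j ≠ 0 := by
    by_contra hc; push Not at hc; exact hu (by ext i j; exact hc i j)
  set a : F := v1 i j / u i j with ha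
  set b : F := v2 i j / u i j with hb
  have hd : d = a • w1 + b • w2 := by
    ext k l
    rw [Matrix.add_apply, Matrix.smul_apply, Matrix.smul_apply, smul_eq_mul, smul_eq_mul]
    have := h1 i j k l
    field_simp at this ⊢
    rw [ha, hb]
    field_simp
    linear_combination this
  refine ⟨a, b, ?_, ?_, hd⟩
  · ext i' j'
    have h2 : (v1 i' j' - a * u i' j') • w1 + (v2 i' j' - b * u i' j') • w2 = 0 := by
      ext k l
      have := h1 i' j' k l
      rw [hd, Matrix.add_apply, Matrix.smul_apply, Matrix.smul_apply, smul_eq_mul, smul_eq_mul] at this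
      rw [Matrix.add_apply, Matrix.smul_apply, Matrix.smul_apply, smul_eq_mul, smul_eq_mul, Matrix.zero_apply]
      linear_combination -this
    have h3 := (hw _ _ h2).1
    rw [Matrix.smul_apply, smul_eq_mul]
    linear_combination h3
  · ext i' j'
    have h2 : (v1 i' j' - a * u i' j') • w1 + (v2 i' j' - b * u i' j') • w2 = 0 := by
      ext k l
      have := h1 i' j' k l
      rw [hd, Matrix.add_apply, Matrix.smul_apply, Matrix.smul_apply, smul_eq_mul, smul_eq_mul] at this
      rw [Matrix.add_apply, Matrix.smul_apply, Matrix.smul_apply, smul_eq_mul, smul_eq_mul, Matrix.zero_apply]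
      linear_combination -this
    have h3 := (hw _ _ h2).2
    rw [Matrix.smul_apply, smul_eq_mul]
    linear_combination h3

/-- not a scalar matrix -/
def NonSc (b : Matrix κ₂ κ₂ F) : Prop := ∀ c : F, b ≠ c • (1 : Matrix κ₂ κ₂ F)

theorem NonSc.one_ne {b : Matrix κ₂ κ₂ F} (hb : NonSc b) : (1 : Matrix κ₂ κ₂ F) ≠ 0 := by
  intro h
  apply hb 0
  rw [zero_smul]
  calc b = b * 1 := (mul_one b).symm
    _ = 0 := by rw [h, mul_zero]

theorem NonSc.lin {b : Matrix κ₂ κ₂ F} (hb : NonSc b) (a c : F) (e : a • b + c • (1 : Matrix κ₂ κ₂ F) = 0) :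
    a = 0 ∧ c = 0 := by
  have ha : a = 0 := by
    by_contra hne
    apply hb (-c / a)
    have : b = a⁻¹ • (a • b) := by rw [smul_smul, inv_mul_cancel₀ hne, one_smul]
    rw [this, eq_neg_of_add_eq_zero_left e, smul_neg, ← neg_smul, smul_smul]
    congr 1
    field_simp
  refine ⟨ha, ?_⟩
  rw [ha, zero_smul, zero_add] at e
  exact (smul_eq_zero.1 e).resolve_right hb.one_ne

theorem NonSc.of_mul {b b' : Matrix κ₂ κ₂ F} (hb : NonSc b) (h : b * b' = 1) : NonSc b' := by
  intro c hc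
  rw [hc, Matrix.mul_smul, mul_one] at h
  have hc0 : c ≠ 0 := by
    rintro rfl
    rw [zero_smul] at h
    exact hb.one_ne h.symm
  apply hb c⁻¹
  rw [← h, smul_smul, inv_mul_cancel₀ hc0, one_smul]

/-- **Lemma (Sub).** -/
theorem TS.sub (h : TS s r) {e c p' : Matrix κ₁ κ₁ F} {d b' : Matrix κ₂ κ₂ F} (he : e ≠ 0) (hc : IsUnit c)
    (hp' : p' * p' = p') (hb' : NonSc b')
    (eq : s (e * c) * r d = s (e * p') * r b' + s (e * (1 - p')) * r 1) :
    (e * p' = 0 ∧ ∃ k : F, d = k • 1) ∨ (e * p' = e ∧ ∃ k : F, d = k • b') := by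
  have hec : e * c ≠ 0 := by
    intro h0
    apply he
    obtain ⟨c, rfl⟩ := hc
    calc e = e * c * ((c⁻¹ : (Matrix κ₁ κ₁ F)ˣ) : Matrix κ₁ κ₁ F) := by rw [mul_assoc, Units.mul_inv, mul_one]
      _ = 0 := by rw [h0, zero_mul]
  obtain ⟨a, b, h1, h2, h3⟩ := h.key eq hec hb'.lin
  have hab : (a + b) • (e * c) = e := by
    rw [add_smul, ← h1, ← h2, ← mul_add, add_sub_cancel, mul_one]
  have hab0 : a + b ≠ 0 := by
    intro h0
    rw [h0, zero_smul] at hab
    exact he hab.symm
  have h4 : e * c = (a + b)⁻¹ • e := by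
    conv_rhs => rw [← hab]
    rw [smul_smul, inv_mul_cancel₀ hab0, one_smul]
  have h5 : e * p' = (a * (a + b)⁻¹) • e := by rw [h1, h4, smul_smul]
  have h6 : (a * (a + b)⁻¹) * (a * (a + b)⁻¹) = a * (a + b)⁻¹ := by
    have h7 : (a * (a + b)⁻¹ * (a * (a + b)⁻¹)) • e = (a * (a + b)⁻¹) • e := by
      rw [mul_smul, ← h5, ← Matrix.smul_mul, ← h5, mul_assoc, hp']
    exact smul_left_injective F he h7
  rcases mul_eq_zero.1 (show (a * (a + b)⁻¹) * (a * (a + b)⁻¹ - 1) = 0 by rw [mul_sub, h6, mul_one, sub_self]) with h8 | h8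
  · left
    have ha : a = 0 := (mul_eq_zero.1 h8).resolve_right (inv_ne_zero hab0)
    refine ⟨by rw [h5, h8, zero_smul], b, by rw [h3, ha, zero_smul, zero_add]⟩
  · right
    have h9 : a * (a + b)⁻¹ = 1 := by linear_combination h8
    have hb : b = 0 := by
      have : a = a + b := by
        calc a = a * (a + b)⁻¹ * (a + b) := by rw [mul_assoc, inv_mul_cancel₀ hab0, mul_one]
          _ = a + b := by rw [h9, one_mul]
      linear_combination -this
    refine ⟨by rw [h5, h9, one_smul], a, by rw [h3, hb, zero_smul, add_zero]⟩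

/-- **Lemma A** -/
theorem TS.lemA (h : TS s r) {p p' c : Matrix κ₁ κ₁ F} {b bi b' d : Matrix κ₂ κ₂ F} (hp : p * p = p) (hp0 : p ≠ 0)
    (hp1 : p ≠ 1) (hbi : b * bi = 1) (hp' : p' * p' = p') (hp0' : p' ≠ 0) (hp1' : p' ≠ 1) (hb' : NonSc b')
    (hc : IsUnit c) (hd : IsUnit d)
    (eq : (s p * r b + s (1 - p)) * (s c * r d) = s p' * r b' + s (1 - p')) :
    (p' = p ∧ ∃ k : F, k ≠ 0 ∧ b' = k • b) ∨ (p' = 1 - p ∧ ∃ k : F, k ≠ 0 ∧ b' = k • bi) := by
  have hbi' : bi * b = 1 := mul_eq_one_comm.1 hbi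
  have hone : (1 : Matrix κ₂ κ₂ F) ≠ 0 := hb'.one_ne
  have hd0 : d ≠ 0 := by
    rintro rfl
    rw [isUnit_zero_iff] at hd
    exact hone hd.symm
  have hq0 : (1 - p) ≠ 0 := sub_ne_zero.2 (Ne.symm hp1)
  have hqp : (1 - p) * p = 0 := by rw [sub_mul, one_mul, hp, sub_self]
  have hpq : p * (1 - p) = 0 := by rw [mul_sub, mul_one, hp, sub_self]
  have hqq : (1 - p) * (1 - p) = 1 - p := by rw [mul_sub, hqp, mul_one, sub_zero]
  have e1 : s ((1 - p) * c) * r d = s ((1 - p) * p') * r b' + s ((1 - p) * (1 - p')) * r 1 := by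
    have := congrArg (fun y => s (1 - p) * y) eq
    simp only [mul_add, ← mul_assoc, ← map_mul, hqp, hqq, map_zero, zero_mul, zero_add, add_mul] at this
    rw [this, map_one, mul_one]
  have e2 : s (p * c) * r (b * d) = s (p * p') * r b' + s (p * (1 - p')) * r 1 := by
    have := congrArg (fun y => s p * y) eq
    simp only [mul_add, ← mul_assoc, ← map_mul, hpq, hp, map_zero, zero_mul, add_zero, add_mul] at this
    rw [mul_assoc (s p), ← h.comm c b, ← mul_assoc, ← map_mul, mul_assoc, ← map_mul] at this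
    rw [this, map_one, mul_one]
  rcases h.sub hq0 hc hp' hb' e1 with ⟨h1, k, hk⟩ | ⟨h1, k, hk⟩
  · rcases h.sub hp0 hc hp' hb' e2 with ⟨h2, k', hk'⟩ | ⟨h2, k', hk'⟩
    · exfalso
      apply hp0'
      calc p' = (1 - p) * p' + p * p' := by rw [← add_mul, sub_add_cancel, one_mul]
        _ = 0 := by rw [h1, h2, add_zero]
    · left
      have hk0 : k ≠ 0 := by
        rintro rfl
        rw [zero_smul] at hk
        exact hd0 hk
      have hk'0 : k' ≠ 0 := by
        rintro rfl
        rw [zero_smul] at hk'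
        apply hd0
        calc d = bi * (b * d) := by rw [← mul_assoc, hbi', one_mul]
          _ = 0 := by rw [hk', mul_zero]
      refine ⟨?_, k'⁻¹ * k, mul_ne_zero (inv_ne_zero hk'0) hk0, ?_⟩
      · calc p' = (1 - p) * p' + p * p' := by rw [← add_mul, sub_add_cancel, one_mul]
          _ = p := by rw [h1, h2, zero_add]
      · rw [hk, Matrix.mul_smul, mul_one] at hk'
        rw [mul_smul, hk', smul_smul, inv_mul_cancel₀ hk'0, one_smul]
  · rcases h.sub hp0 hc hp' hb' e2 with ⟨h2, k', hk'⟩ | ⟨h2, k', hk'⟩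
    · right
      have hk0 : k ≠ 0 := by
        rintro rfl
        rw [zero_smul] at hk
        exact hd0 hk
      have hk'0 : k' ≠ 0 := by
        rintro rfl
        rw [zero_smul] at hk'
        apply hd0
        calc d = bi * (b * d) := by rw [← mul_assoc, hbi', one_mul]
          _ = 0 := by rw [hk', mul_zero]
      refine ⟨?_, k⁻¹ * k', mul_ne_zero (inv_ne_zero hk0) hk'0, ?_⟩
      · calc p' = (1 - p) * p' + p * p' := by rw [← add_mul, sub_add_cancel, one_mul]
          _ = 1 - p := by rw [h1, h2, add_zero]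
      · rw [hk, Matrix.mul_smul] at hk'
        have h3 : k • b' = k' • bi := by
          calc k • b' = bi * (k • (b * b')) := by rw [Matrix.mul_smul, ← mul_assoc, hbi', one_mul]
            _ = k' • bi := by rw [hk', Matrix.mul_smul, mul_one]
        rw [mul_smul, ← h3, smul_smul, inv_mul_cancel₀ hk0, one_smul]
    · exfalso
      apply hp1'
      calc p' = (1 - p) * p' + p * p' := by rw [← add_mul, sub_add_cancel, one_mul]
        _ = 1 := by rw [h1, h2, sub_add_cancel]

/-- **Lemma B** -/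
theorem TS.lemB {κ : Type} [Fintype κ] [DecidableEq κ] {s r : Matrix κ κ F →ₐ[F] Matrix ι ι F} (h : TS s r)
    {p p' c b b' d : Matrix κ κ F} (hp : p * p = p) (hp0 : p ≠ 0) (hp1 : p ≠ 1)
    (hp' : p' * p' = p') (hp0' : p' ≠ 0) (hp1' : p' ≠ 1) (hc : IsUnit c)
    (eq : (s p * r b + s (1 - p)) * (s c * r d) = r p' * s b' + r (1 - p')) :
    ∃ k l : F, b' = k • (1 - p) + l • p := by
  have hq0 : (1 - p) ≠ 0 := sub_ne_zero.2 (Ne.symm hp1)
  have hqp : (1 - p) * p = 0 := by rw [sub_mul, one_mul, hp, sub_self]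
  have hpq : p * (1 - p) = 0 := by rw [mul_sub, mul_one, hp, sub_self]
  have hqq : (1 - p) * (1 - p) = 1 - p := by rw [mul_sub, hqp, mul_one, sub_zero]
  have hlin : ∀ a b : F, a • p' + b • (1 - p') = 0 → a = 0 ∧ b = 0 := by
    intro a b e
    have e1 : a • p' = 0 := by
      have := congrArg (fun y => p' * y) e
      simpa [mul_add, Matrix.mul_smul, hp', mul_sub] using this
    have e2 : b • (1 - p') = 0 := by rw [e1, zero_add] at e; exact e
    exact ⟨(smul_eq_zero.1 e1).resolve_right hp0', (smul_eq_zero.1 e2).resolve_right (sub_ne_zero.2 (Ne.symm hp1'))⟩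
  have key : ∀ (e : Matrix κ κ F) (D : Matrix κ κ F), e ≠ 0 → s (e * c) * r D = s (e * b') * r p' + s e * r (1 - p') →
      ∃ k : F, e * b' = k • e := by
    intro e D he h1
    have hec : e * c ≠ 0 := by
      intro h0
      apply he
      obtain ⟨c, rfl⟩ := hc
      calc e = e * c * ((c⁻¹ : (Matrix κ κ F)ˣ) : Matrix κ κ F) := by rw [mul_assoc, Units.mul_inv, mul_one]
        _ = 0 := by rw [h0, zero_mul]
    obtain ⟨a, b, h2, h3, -⟩ := h.key h1 hec hlin
    have hb0 : b ≠ 0 := by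
      rintro rfl
      rw [zero_smul] at h3
      exact he h3
    refine ⟨a * b⁻¹, ?_⟩
    rw [h2, mul_smul]
    congr 1
    rw [eq_inv_smul_iff₀ hb0]
    exact h3.symm
  obtain ⟨k, hk⟩ := key (1 - p) d hq0 (by
    have := congrArg (fun y => s (1 - p) * y) eq
    simp only [mul_add, ← mul_assoc, ← map_mul, hqp, hqq, map_zero, zero_mul, zero_add, add_mul] at this
    rw [this, mul_assoc, ← h.comm b' p', ← mul_assoc, ← map_mul])
  obtain ⟨l, hl⟩ := key p (b * d) hp0 (by
    have := congrArg (fun y => s p * y) eq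
    simp only [mul_add, ← mul_assoc, ← map_mul, hpq, hp, map_zero, zero_mul, add_zero, add_mul] at this
    rw [mul_assoc (s p), ← h.comm c b, ← mul_assoc, ← map_mul, mul_assoc, ← map_mul] at this
    rw [this, mul_assoc, ← h.comm b' p', ← mul_assoc, ← map_mul])
  refine ⟨k, l, ?_⟩
  calc b' = (1 - p) * b' + p * b' := by rw [← add_mul, sub_add_cancel, one_mul]
    _ = k • (1 - p) + l • p := by rw [hk, hl]

end Cfsg.Agent.H487.EP
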