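import Cfsg.Agent.H458.EP.Norm
import Cfsg.Agent.H487.EP.TS

/-!
# S3499: the kill criterion for elements `x = s p * r b + s (1 - p)` (helper487)
-/

set_option autoImplicit false
set_option linter.unusedSectionVars false

namespace Cfsg.Agent.H487.EP

open Matrix Subgroup Cfsg.Agent.H284 Cfsg.Agent.H419.EP
open scoped MatrixGroups

variable {κ₁ κ₂ ι : Type} [Fintype κ₁] [DecidableEq κ₁] [Fintype κ₂] [DecidableEq κ₂] [Fintype ι] [DecidableEq ι]
variable {F : Type*} [Field F]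

/-- conjugation of matrices by an invertible matrix -/
def cjm {κ : Type} [Fintype κ] [DecidableEq κ] (a : GL κ F) (u : Matrix κ κ F) : Matrix κ κ F :=
  (a : Matrix κ κ F) * u * ((a⁻¹ : GL κ F) : Matrix κ κ F)

section cjm

variable {κ : Type} [Fintype κ] [DecidableEq κ] (a : GL κ F)

theorem cjm_mul (u v : Matrix κ κ F) : cjm a (u * v) = cjm a u * cjm a v := by
  simp only [cjm, mul_assoc, Units.inv_mul_cancel_left]

theorem cjm_one : cjm a (1 : Matrix κ κ F) = 1 := by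
  simp only [cjm, mul_one, Units.mul_inv]

theorem cjm_add (u v : Matrix κ κ F) : cjm a (u + v) = cjm a u + cjm a v := by
  simp only [cjm, mul_add, add_mul]

theorem cjm_sub (u v : Matrix κ κ F) : cjm a (u - v) = cjm a u - cjm a v := by
  simp only [cjm, mul_sub, sub_mul]

theorem cjm_smul (k : F) (u : Matrix κ κ F) : cjm a (k • u) = k • cjm a u := by
  simp only [cjm, Matrix.mul_smul, Matrix.smul_mul]

theorem cjm_cjm (a' : GL κ F) (u : Matrix κ κ F) : cjm a (cjm a' u) = cjm (a * a') u := by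
  simp only [cjm, mul_assoc, _root_.mul_inv_rev, Units.val_mul]

theorem cjm_inv_self (u : Matrix κ κ F) : cjm a⁻¹ (cjm a u) = u := by
  rw [cjm_cjm, inv_mul_cancel]
  simp [cjm]

theorem cjm_self_inv (u : Matrix κ κ F) : cjm a (cjm a⁻¹ u) = u := by
  rw [cjm_cjm, mul_inv_cancel]
  simp [cjm]

theorem cjm_zero : cjm a (0 : Matrix κ κ F) = 0 := by simp [cjm]

theorem cjm_ne_zero {u : Matrix κ κ F} (hu : u ≠ 0) : cjm a u ≠ 0 := fun h => hu (by
  rw [← cjm_inv_self a u, h, cjm_zero])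

theorem cjm_ne_one {u : Matrix κ κ F} (hu : u ≠ 1) : cjm a u ≠ 1 := fun h => hu (by
  rw [← cjm_inv_self a u, h, cjm_one])

theorem NonSc.cjm {u : Matrix κ κ F} (hu : NonSc u) : NonSc (cjm a u) := fun k h => hu k (by
  rw [← cjm_inv_self a u, h, cjm_smul, cjm_one])

end cjm

theorem TS.inj_left {s : Matrix κ₁ κ₁ F →ₐ[F] Matrix ι ι F} {r : Matrix κ₂ κ₂ F →ₐ[F] Matrix ι ι F} (h : TS s r)
    (h1 : (1 : Matrix κ₂ κ₂ F) ≠ 0) {u v : Matrix κ₁ κ₁ F} (e : s u = s v) : u = v := by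
  rcases h.ind1 (u := u - v) (v := 1) (by rw [map_sub, e, sub_self, zero_mul]) with h2 | h2
  · exact sub_eq_zero.1 h2
  · exact absurd h2 h1

variable {Q : Type*} [Group Q] [Finite Q] {A : Subgroup Q} {Γ : Subgroup (MulAut Q)}

/-- the hypothesis on the matrices `b`, `c` -/
structure BC (b bi : Matrix κ₂ κ₂ F) (c : GL κ₂ F) : Prop where
  mbi : b * bi = 1
  ne : ∀ k : F, cjm c b ≠ k • b
  inv1 : ∀ (a : GL κ₂ F) (k : F), k ≠ 0 → cjm a b = k • b → ∃ k' : F, k' ≠ 0 ∧ cjm a (cjm c⁻¹ b) = k' • cjm c⁻¹ b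
  inv2 : ∀ (a : GL κ₂ F) (k : F), k ≠ 0 → cjm a b = k • bi → ∃ k' : F, k' ≠ 0 ∧ cjm a (cjm c⁻¹ b) = k' • cjm c⁻¹ bi

/-- `c b c⁻¹ = b⁻¹` and `b²` is not scalar -/
theorem BC.of_inv {b bi : Matrix κ₂ κ₂ F} {c : GL κ₂ F} (hbi : b * bi = 1) (hc : cjm c b = bi)
    (hb : NonSc (b * b)) : BC b bi c := by
  have hbi' : bi * b = 1 := mul_eq_one_comm.1 hbi
  have h1 : cjm c bi = b := by
    have := cjm_mul c b bi
    rw [hbi, cjm_one, hc] at this
    calc cjm c bi = b * (bi * cjm c bi) := by rw [← mul_assoc, hbi, one_mul]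
      _ = b := by rw [← this, mul_one]
  have h2 : cjm c⁻¹ b = bi := by rw [← h1, cjm_inv_self]
  have h3 : cjm c⁻¹ bi = b := by rw [← hc, cjm_inv_self]
  have hinv : ∀ (a : GL κ₂ F) (k : F), k ≠ 0 → ∀ y y' : Matrix κ₂ κ₂ F, y * y' = 1 → cjm a b = k • y →
      cjm a bi = k⁻¹ • y' := by
    intro a k hk y y' hy hab
    have hy' : y' * y = 1 := mul_eq_one_comm.1 hy
    have := cjm_mul a b bi
    rw [hbi, cjm_one, hab] at this
    calc cjm a bi = y' * (y * cjm a bi) := by rw [← mul_assoc, hy', one_mul]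
      _ = k⁻¹ • (y' * ((k • y) * cjm a bi)) := by
        rw [Matrix.smul_mul, Matrix.mul_smul, smul_smul, inv_mul_cancel₀ hk, one_smul]
      _ = k⁻¹ • y' := by rw [← this, mul_one]
  refine ⟨hbi, ?_, ?_, ?_⟩
  · intro k hk
    rw [hc] at hk
    have hk0 : k ≠ 0 := by
      rintro rfl
      rw [zero_smul] at hk
      rw [hk, mul_zero] at hbi
      apply hb 0
      rw [← hbi, smul_zero]
      calc b * b = b * b * 1 := (mul_one _).symm
        _ = 0 := by rw [← hbi, mul_zero]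
    apply hb k⁻¹
    have : k • (b * b) = 1 := by rw [← Matrix.mul_smul, ← hk, hbi]
    rw [← this, smul_smul, inv_mul_cancel₀ hk0, one_smul]
  · intro a k hk hab
    rw [h2]
    exact ⟨k⁻¹, inv_ne_zero hk, hinv a k hk b bi hbi hab⟩
  · intro a k hk hab
    rw [h2, h3]
    exact ⟨k⁻¹, inv_ne_zero hk, hinv a k hk bi b hbi' hab⟩

/-- `b = 1 + N`, `N² = 0`, `c N c⁻¹ = μ N`, `μ ≠ 1` -/
theorem BC.of_nil {N : Matrix κ₂ κ₂ F} {c : GL κ₂ F} (hN : N * N = 0) (hN0 : N ≠ 0) {μ : F} (hμ0 : μ ≠ 0) (hμ : μ ≠ 1)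
    (hc : cjm c N = μ • N) : BC (1 + N) (1 - N) c := by
  have hone : (1 : Matrix κ₂ κ₂ F) ≠ 0 := by
    intro h0
    apply hN0
    calc N = N * 1 := (mul_one N).symm
      _ = 0 := by rw [h0, mul_zero]
  -- a scalar plus a multiple of `N` of square zero
  have key : ∀ k l : F, (k • (1 : Matrix κ₂ κ₂ F) + l • N) * (k • (1 : Matrix κ₂ κ₂ F) + l • N) = 0 → k = 0 := by
    intro k l e
    have h1 : N * ((k • (1 : Matrix κ₂ κ₂ F) + l • N) * (k • (1 : Matrix κ₂ κ₂ F) + l • N)) = (k * k) • N := by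
      simp only [mul_add, add_mul, Matrix.mul_smul, Matrix.smul_mul, mul_one, one_mul, hN,
        smul_zero, add_zero, smul_smul]
    rw [e, mul_zero] at h1
    rcases smul_eq_zero.1 h1.symm with h2 | h2
    · exact mul_self_eq_zero.1 h2
    · exact absurd h2 hN0
  have hc' : cjm c⁻¹ N = μ⁻¹ • N := by
    have : N = cjm c (μ⁻¹ • N) := by rw [cjm_smul, hc, smul_smul, inv_mul_cancel₀ hμ0, one_smul]
    conv_lhs => rw [this]
    rw [cjm_inv_self]
  have hsq : ∀ a : GL κ₂ F, cjm a N * cjm a N = 0 := fun a => by rw [← cjm_mul, hN, cjm_zero]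
  refine ⟨by simp [add_mul, mul_sub, hN], ?_, ?_, ?_⟩
  · intro k hk
    rw [cjm_add, cjm_one, hc] at hk
    -- 1 + μ N = k + k N
    have e1 : (k - 1) • (1 : Matrix κ₂ κ₂ F) + (k - μ) • N = 0 := by
      rw [sub_smul, sub_smul, one_smul]
      have : k • (1 + N) = k • (1 : Matrix κ₂ κ₂ F) + k • N := smul_add _ _ _
      rw [this] at hk
      rw [show k • (1 : Matrix κ₂ κ₂ F) - 1 + (k • N - μ • N) = (k • (1 : Matrix κ₂ κ₂ F) + k • N) - (1 + μ • N) by abel,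
        hk, sub_self]
    have hk1 : k - 1 = 0 := key (k - 1) (k - μ) (by rw [e1, zero_mul])
    rw [hk1, zero_smul, zero_add] at e1
    have hk2 : k - μ = 0 := (smul_eq_zero.1 e1).resolve_right hN0
    apply hμ
    linear_combination hk1 - hk2
  · intro a k hk hab
    rw [cjm_add, cjm_one] at hab
    have e1 : cjm a N = (k - 1) • (1 : Matrix κ₂ κ₂ F) + k • N := by
      rw [sub_smul, one_smul]
      have : k • (1 + N) = k • (1 : Matrix κ₂ κ₂ F) + k • N := smul_add _ _ _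
      rw [this] at hab
      rw [show k • (1 : Matrix κ₂ κ₂ F) - 1 + k • N = (k • (1 : Matrix κ₂ κ₂ F) + k • N) - 1 by abel, ← hab]
      abel
    have hk1 : k - 1 = 0 := key (k - 1) k (by rw [← e1, hsq])
    have hk2 : k = 1 := by linear_combination hk1
    rw [hk1, zero_smul, zero_add, hk2, one_smul] at e1
    refine ⟨1, one_ne_zero, ?_⟩
    rw [cjm_add c⁻¹, cjm_one, hc', cjm_add, cjm_one, cjm_smul, e1, one_smul]
  · intro a k hk hab
    rw [cjm_add, cjm_one] at hab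
    have e1 : cjm a N = (k - 1) • (1 : Matrix κ₂ κ₂ F) + (-k) • N := by
      rw [sub_smul, one_smul, neg_smul]
      have : k • (1 - N) = k • (1 : Matrix κ₂ κ₂ F) - k • N := smul_sub _ _ _
      rw [this] at hab
      rw [show k • (1 : Matrix κ₂ κ₂ F) - 1 + -(k • N) = (k • (1 : Matrix κ₂ κ₂ F) - k • N) - 1 by abel, ← hab]
      abel
    have hk1 : k - 1 = 0 := key (k - 1) (-k) (by rw [← e1, hsq])
    have hk2 : k = 1 := by linear_combination hk1
    rw [hk1, zero_smul, zero_add, hk2, neg_smul, one_smul] at e1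
    refine ⟨1, one_ne_zero, ?_⟩
    rw [cjm_add c⁻¹, cjm_sub c⁻¹, cjm_one, hc', cjm_add, cjm_one, cjm_smul, e1, one_smul, smul_neg, sub_eq_add_neg]

/-- the action of an element of `GL ι F` on the two algebras -/
structure Acts (s : Matrix κ₁ κ₁ F →ₐ[F] Matrix ι ι F) (r : Matrix κ₂ κ₂ F →ₐ[F] Matrix ι ι F) (g : GL ι F)
    (a₁ : GL κ₁ F) (a₂ : GL κ₂ F) : Prop where
  left : ∀ u, cjm g (s u) = s (cjm a₁ u)
  right : ∀ v, cjm g (r v) = r (cjm a₂ v)

section acts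

variable {s : Matrix κ₁ κ₁ F →ₐ[F] Matrix ι ι F} {r : Matrix κ₂ κ₂ F →ₐ[F] Matrix ι ι F}

theorem Acts.mul {g g' : GL ι F} {a₁ a₁' : GL κ₁ F} {a₂ a₂' : GL κ₂ F} (h : Acts s r g a₁ a₂)
    (h' : Acts s r g' a₁' a₂') : Acts s r (g * g') (a₁ * a₁') (a₂ * a₂') :=
  ⟨fun u => by rw [← cjm_cjm, h'.left, h.left, cjm_cjm], fun v => by rw [← cjm_cjm, h'.right, h.right, cjm_cjm]⟩

theorem Acts.inv {g : GL ι F} {a₁ : GL κ₁ F} {a₂ : GL κ₂ F} (h : Acts s r g a₁ a₂) : Acts s r g⁻¹ a₁⁻¹ a₂⁻¹ :=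
  ⟨fun u => by
    conv_lhs => rw [← cjm_self_inv a₁ u, ← h.left, cjm_inv_self],
   fun v => by
    conv_lhs => rw [← cjm_self_inv a₂ v, ← h.right, cjm_inv_self]⟩

/-- a product `s u * r v` acts -/
theorem Acts.of_pure (hTS : TS s r) {g : GL ι F} {a₁ : GL κ₁ F} {a₂ : GL κ₂ F}
    (e : (g : Matrix ι ι F) = s (a₁ : Matrix κ₁ κ₁ F) * r (a₂ : Matrix κ₂ κ₂ F)) : Acts s r g a₁ a₂ := by
  have h1 : ∀ y z : Matrix ι ι F, (g : Matrix ι ι F) * y = z * (g : Matrix ι ι F) → cjm g y = z := by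
    intro y z hyz
    rw [cjm, hyz, mul_assoc, Units.mul_inv, mul_one]
  constructor
  · intro u
    apply h1
    calc (g : Matrix ι ι F) * s u = s (a₁ : Matrix κ₁ κ₁ F) * (r (a₂ : Matrix κ₂ κ₂ F) * s u) := by rw [e, mul_assoc]
      _ = s ((a₁ : Matrix κ₁ κ₁ F) * u) * r (a₂ : Matrix κ₂ κ₂ F) := by rw [← hTS.comm, ← mul_assoc, ← map_mul]
      _ = s (cjm a₁ u * (a₁ : Matrix κ₁ κ₁ F)) * r (a₂ : Matrix κ₂ κ₂ F) := by
        rw [cjm, mul_assoc _ _ (a₁ : Matrix κ₁ κ₁ F), Units.inv_mul, mul_one]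
      _ = s (cjm a₁ u) * (g : Matrix ι ι F) := by rw [e, map_mul, mul_assoc]
  · intro v
    apply h1
    calc (g : Matrix ι ι F) * r v = s (a₁ : Matrix κ₁ κ₁ F) * r ((a₂ : Matrix κ₂ κ₂ F) * v) := by
          rw [e, mul_assoc, ← map_mul]
      _ = s (a₁ : Matrix κ₁ κ₁ F) * r (cjm a₂ v * (a₂ : Matrix κ₂ κ₂ F)) := by
        rw [cjm, mul_assoc _ _ (a₂ : Matrix κ₂ κ₂ F), Units.inv_mul, mul_one]
      _ = r (cjm a₂ v) * (g : Matrix ι ι F) := by rw [e, map_mul, ← mul_assoc, hTS.comm, mul_assoc]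

end acts

/-- **The kill.** -/
theorem kill_two (h : EPT A Γ) {S : Subgroup (GL ι F)} (m : Model Q S) {M : Subgroup (GL ι F)} (hA : m.hat A = M ⊓ S)
    {s : Matrix κ₁ κ₁ F →ₐ[F] Matrix ι ι F} {r : Matrix κ₂ κ₂ F →ₐ[F] Matrix ι ι F} (hTS : TS s r)
    {p : Matrix κ₁ κ₁ F} (hp : p * p = p) (hp0 : p ≠ 0) {b bi : Matrix κ₂ κ₂ F} {c : GL κ₂ F} (hbc : BC b bi c)
    {x : GL ι F} (hxS : x ∈ S) (hxv : (x : Matrix ι ι F) = s p * r b + s (1 - p))
    (hpure : ∀ (u : GL κ₁ F) (v : GL κ₂ F) (g : GL ι F),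
      (g : Matrix ι ι F) = s (u : Matrix κ₁ κ₁ F) * r (v : Matrix κ₂ κ₂ F) → g ∈ M)
    (hM : ∀ g ∈ M, x⁻¹ * g * x ∈ M → ∃ (a₁ : GL κ₁ F) (a₂ : GL κ₂ F), Acts s r g a₁ a₂ ∧
      ((cjm a₁ p = p ∧ ∃ k : F, k ≠ 0 ∧ cjm a₂ b = k • b) ∨ (cjm a₁ p = 1 - p ∧ ∃ k : F, k ≠ 0 ∧ cjm a₂ b = k • bi)))
    {w : GL ι F} (hwM : w ∈ M) (hwS : w ∈ S) {c₁ : GL κ₁ F} (hw : Acts s r w c₁ c) (hcp : cjm c₁ p = p) : False := by
  have hone : (1 : Matrix κ₂ κ₂ F) ≠ 0 := by
    intro h0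
    apply hbc.ne 0
    rw [zero_smul]
    calc cjm c b = cjm c b * 1 := (mul_one _).symm
      _ = 0 := by rw [h0, mul_zero]
  have hone1 : (1 : Matrix κ₁ κ₁ F) ≠ 0 := by
    intro h0
    apply hp0
    calc p = p * 1 := (mul_one _).symm
      _ = 0 := by rw [h0, mul_zero]
  -- `w` is not in `M^x`
  have hwno : ¬ x⁻¹ * w * x ∈ M := by
    intro hcon
    obtain ⟨a₁, a₂, hact, h1⟩ := hM w hwM hcon
    have e1 : cjm a₁ p = p := by
      apply hTS.inj_left hone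
      rw [← hact.left, hw.left, hcp]
    have e2 : cjm a₂ b = cjm c b := by
      apply hTS.symm.inj_left hone1
      rw [← hact.right, hw.right]
    rcases h1 with ⟨-, k, hk, h2⟩ | ⟨h2, -⟩
    · exact hbc.ne k (by rw [← e2, h2])
    · rw [e1] at h2
      apply hp0
      calc p = p * p := hp.symm
        _ = p * (1 - p) := by rw [← h2]
        _ = 0 := by rw [mul_sub, mul_one, hp, sub_self]
  have hxM : x ∉ M := fun hx => hwno (M.mul_mem (M.mul_mem (M.inv_mem hx) hwM) hx)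
  have hwA : w ∈ m.hat A := by rw [hA]; exact ⟨hwM, hwS⟩
  have key : w ∈ cj x (m.hat A) := by
    refine Cfsg.Agent.H458.EP.kill_norm h m hxS (fun hx => hxM (by rw [hA] at hx; exact (mem_inf.1 hx).1)) hwA ?_
    intro g hg hgx
    rw [hA] at hg hgx ⊢
    rw [mem_cj] at hgx ⊢
    obtain ⟨hgM, hgS⟩ := mem_inf.1 hg
    refine mem_inf.2 ⟨?_, S.mul_mem (S.mul_mem (S.inv_mem hxS) (S.mul_mem (S.mul_mem hwS hgS) (S.inv_mem hwS))) hxS⟩
    obtain ⟨a₁, a₂, hact, h1⟩ := hM g hgM (mem_inf.1 hgx).1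
    have hg'M : w * g * w⁻¹ ∈ M := M.mul_mem (M.mul_mem hwM hgM) (M.inv_mem hwM)
    have hact' := (hw.mul hact).mul hw.inv
    set g' := w * g * w⁻¹ with hg'
    have hX : cjm g' (x : Matrix ι ι F) = s (cjm (c₁ * a₁ * c₁⁻¹) p) * r (cjm (c * a₂ * c⁻¹) b) +
        (1 - s (cjm (c₁ * a₁ * c₁⁻¹) p)) := by
      rw [hxv, cjm_add, cjm_mul, hact'.left, hact'.right, map_sub, map_one, cjm_sub, cjm_one, hact'.left]
    have hcp' : cjm c₁⁻¹ p = p := by rw [← hcp, cjm_inv_self, hcp]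
    have hsplit : x⁻¹ * g' * x = (x⁻¹ * (g' * x * g'⁻¹)) * g' := by group
    rw [hsplit]
    refine M.mul_mem ?_ hg'M
    have hq : (1 - p) * p = 0 := by rw [sub_mul, one_mul, hp, sub_self]
    have hq' : p * (1 - p) = 0 := by rw [mul_sub, mul_one, hp, sub_self]
    have hqq : (1 - p) * (1 - p) = 1 - p := by rw [mul_sub, hq, mul_one, sub_zero]
    have hfin : ∀ (u : GL κ₁ F) (v : GL κ₂ F), cjm g' (x : Matrix ι ι F) =
        (x : Matrix ι ι F) * (s (u : Matrix κ₁ κ₁ F) * r (v : Matrix κ₂ κ₂ F)) → x⁻¹ * (g' * x * g'⁻¹) ∈ M := by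
      intro u v e
      apply hpure u v
      have : ((x⁻¹ * (g' * x * g'⁻¹) : GL ι F) : Matrix ι ι F) = ((x⁻¹ : GL ι F) : Matrix ι ι F) * cjm g' (x : Matrix ι ι F) :=
        rfl
      rw [this, e, ← mul_assoc, Units.inv_mul, one_mul]
    rcases h1 with ⟨h2, k, hk, h3⟩ | ⟨h2, k, hk, h3⟩
    · obtain ⟨k', hk', h4⟩ := hbc.inv1 a₂ k hk h3
      have e1 : cjm (c₁ * a₁ * c₁⁻¹) p = p := by rw [← cjm_cjm, hcp', ← cjm_cjm, h2, hcp]
      have e2 : cjm (c * a₂ * c⁻¹) b = k' • b := by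
        rw [← cjm_cjm, ← cjm_cjm, h4, cjm_smul, cjm_self_inv]
      let u : GL κ₁ F := ⟨k' • p + (1 - p), k'⁻¹ • p + (1 - p), by
        simp only [mul_add, add_mul, Matrix.smul_mul, Matrix.mul_smul, hp, hq, hq', hqq, smul_zero, add_zero, zero_add,
          smul_smul, mul_inv_cancel₀ hk', inv_mul_cancel₀ hk', one_smul]
        abel, by
        simp only [mul_add, add_mul, Matrix.smul_mul, Matrix.mul_smul, hp, hq, hq', hqq, smul_zero, add_zero, zero_add,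
          smul_smul, mul_inv_cancel₀ hk', inv_mul_cancel₀ hk', one_smul]
        abel⟩
      apply hfin u 1
      rw [hX, e1, e2, Units.val_one, map_one, mul_one, hxv, map_smul]
      change _ = (s p * r b + s (1 - p)) * s (k' • p + (1 - p))
      have e3 : p * (k' • p + (1 - p)) = k' • p := by rw [mul_add, hq', add_zero, Matrix.mul_smul, hp]
      have e4 : (1 - p) * (k' • p + (1 - p)) = 1 - p := by
        rw [mul_add, hqq, Matrix.mul_smul, hq, smul_zero, zero_add]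
      rw [add_mul, mul_assoc, ← hTS.comm, ← mul_assoc, ← map_mul, ← map_mul, e3, e4, map_smul, map_sub, map_one,
        Matrix.mul_smul, Matrix.smul_mul]
    · obtain ⟨k', hk', h4⟩ := hbc.inv2 a₂ k hk h3
      have e1 : cjm (c₁ * a₁ * c₁⁻¹) p = 1 - p := by rw [← cjm_cjm, hcp', ← cjm_cjm, h2, cjm_sub, cjm_one, hcp]
      have e2 : cjm (c * a₂ * c⁻¹) b = k' • bi := by
        rw [← cjm_cjm, ← cjm_cjm, h4, cjm_smul, cjm_self_inv]
      let u : GL κ₁ F := ⟨p + k' • (1 - p), p + k'⁻¹ • (1 - p), by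
        simp only [mul_add, add_mul, Matrix.smul_mul, Matrix.mul_smul, hp, hq, hq', hqq, smul_zero, add_zero, zero_add,
          smul_smul, mul_inv_cancel₀ hk', inv_mul_cancel₀ hk', one_smul]
        abel, by
        simp only [mul_add, add_mul, Matrix.smul_mul, Matrix.mul_smul, hp, hq, hq', hqq, smul_zero, add_zero, zero_add,
          smul_smul, mul_inv_cancel₀ hk', inv_mul_cancel₀ hk', one_smul]
        abel⟩
      let v : GL κ₂ F := ⟨bi, b, mul_eq_one_comm.1 hbc.mbi, hbc.mbi⟩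
      apply hfin u v
      rw [hX, e1, e2, hxv]
      change _ = (s p * r b + s (1 - p)) * (s (p + k' • (1 - p)) * r bi)
      rw [add_mul, ← mul_assoc, ← mul_assoc, mul_assoc (s p), ← hTS.comm, ← mul_assoc, ← map_mul, ← map_mul, mul_add,
        mul_add, Matrix.mul_smul, Matrix.mul_smul, hp, hq, hq', hqq, smul_zero, add_zero, zero_add, mul_assoc (s p),
        ← map_mul, hbc.mbi, map_one, mul_one, map_smul, map_smul, Matrix.mul_smul, Matrix.smul_mul, map_sub, map_one]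
      abel
  rw [mem_cj] at key
  rw [hA] at key
  exact hwno (mem_inf.1 key).1

end Cfsg.Agent.H487.EP
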