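import Cfsg.Agent.H487.EP.OmC4C7
import Cfsg.Agent.H681.EP.OmThree

/-!
# S3499, task Om-C4C7, first part: tensor products in orthogonal groups (helper487)
-/

set_option autoImplicit false

namespace Cfsg.Agent.H487.EP

open Cfsg.Agent.H284 Cfsg.Agent.H419.EP

theorem killThree : KillThree := fun h _ _ _ h3 _ _ _ _ m _ e P _ _ hf₂ hfr hp hA =>
  Cfsg.Agent.H681.EP.kill_three h h3 m e P hf₂ hfr hp hA

/-- **[Om-C4C7, first part]** -/
theorem omC4 (hC2b : Cfsg.Agent.H778.EP.OmC2b) (hC3 : Cfsg.Agent.H778.EP.OmC3) : Cfsg.Agent.H778.EP.OmC4 :=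
  omC4_of killThree hC2b hC3

end Cfsg.Agent.H487.EP
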