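import Cfsg.Agent.H924.QuadTensor
import Cfsg.Agent.H932.TensAlt

/-!
# Tensor decompositions in characteristic two: the quadratic form vanishes on pure tensors (helper487)
-/

set_option autoImplicit false
set_option linter.unusedSectionVars false

open Cfsg Cfsg.Geo Matrix
open scoped Kronecker

namespace Cfsg.Agent.H487.EP

open Cfsg.Agent.H919 (HermForm)
open Cfsg.Agent.H912 (tens pt gramPe comp_eq_sum exists_comp_eq)
open Cfsg.Agent.H924 (upper upper_add_transpose gram_diag gram_symm_of_two quad_eq_of_span)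
open Cfsg.Agent.H925 (mem_iso_iff polar_iso polar_self Q_add')

variable {ι : Type} [Fintype ι] [DecidableEq ι] {F : Type*} [Field F]
variable {f : (ι → F) → (ι → F) → F}

/-- The quadratic form attached to an "upper triangular half" `M` of the Gram matrix. -/
theorem exists_quad_of_half' (_hf : IsSymplecticForm f) {κ : Type} [Fintype κ] [DecidableEq κ] (e : ι ≃ κ) (P : GL ι F)
    (M : Matrix κ κ F) (c : F)
    (hform : ∀ x y : κ → F, f ((P : Matrix ι ι F) *ᵥ (x ∘ e)) ((P : Matrix ι ι F) *ᵥ (y ∘ e)) =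
      c * (x ⬝ᵥ ((M + Mᵀ) *ᵥ y)))
    (S : Set (κ → F)) (hS1 : ∀ a, Pi.single a 1 ∈ S) (hS0 : ∀ x ∈ S, x ⬝ᵥ (M *ᵥ x) = 0) :
    ∃ Q : (ι → F) → F, (∀ (t : F) v, Q (t • v) = t ^ 2 * Q v) ∧ (∀ u v, QuadraticMap.polar Q u v = f u v) ∧
      (∀ x ∈ S, Q ((P : Matrix ι ι F) *ᵥ (x ∘ e)) = 0) ∧
      ∀ g : GL ι F, (∀ u v, f ((g : Matrix ι ι F) *ᵥ u) ((g : Matrix ι ι F) *ᵥ v) = f u v) →
        (∀ x ∈ S, ∃ y ∈ S, (g : Matrix ι ι F) *ᵥ ((P : Matrix ι ι F) *ᵥ (x ∘ e)) = (P : Matrix ι ι F) *ᵥ (y ∘ e)) →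
        ∀ v, Q ((g : Matrix ι ι F) *ᵥ v) = Q v := by
  classical
  let co : (ι → F) → (κ → F) := fun v => (((P⁻¹ : GL ι F) : Matrix ι ι F) *ᵥ v) ∘ e.symm
  have hco : ∀ v, (P : Matrix ι ι F) *ᵥ (co v ∘ e) = v := by
    intro v
    have : co v ∘ e = ((P⁻¹ : GL ι F) : Matrix ι ι F) *ᵥ v := by
      funext i; simp [co]
    rw [this, Matrix.mulVec_mulVec, ← Units.val_mul, mul_inv_cancel, Units.val_one, Matrix.one_mulVec]
  have hco2 : ∀ x : κ → F, co ((P : Matrix ι ι F) *ᵥ (x ∘ e)) = x := by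
    intro x
    funext a
    simp only [co, Function.comp_apply]
    rw [Matrix.mulVec_mulVec, ← Units.val_mul, inv_mul_cancel, Units.val_one, Matrix.one_mulVec]
    simp
  have hadd : ∀ u v, co (u + v) = co u + co v := by
    intro u v; funext a; simp [co, Matrix.mulVec_add]
  have hsm : ∀ (t : F) v, co (t • v) = t • co v := by
    intro t v; funext a; simp [co, Matrix.mulVec_smul]
  let Q : (ι → F) → F := fun v => c * (co v ⬝ᵥ (M *ᵥ co v))
  have hQs : ∀ (t : F) v, Q (t • v) = t ^ 2 * Q v := by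
    intro t v
    simp only [Q, hsm, Matrix.mulVec_smul, smul_dotProduct, dotProduct_smul, smul_eq_mul]
    ring
  have hpol : ∀ u v, QuadraticMap.polar Q u v = f u v := by
    intro u v
    conv_rhs => rw [← hco u, ← hco v]
    rw [hform]
    simp only [QuadraticMap.polar, Q, hadd]
    have h1 : (co u ⬝ᵥ ((M + Mᵀ) *ᵥ co v)) = co u ⬝ᵥ (M *ᵥ co v) + co v ⬝ᵥ (M *ᵥ co u) := by
      rw [Matrix.add_mulVec, dotProduct_add, Matrix.mulVec_transpose, dotProduct_comm (co u) (co v ᵥ* M),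
        ← Matrix.dotProduct_mulVec]
    rw [h1]
    simp only [Matrix.mulVec_add, dotProduct_add, add_dotProduct]
    ring
  have h0 : ∀ x ∈ S, Q ((P : Matrix ι ι F) *ᵥ (x ∘ e)) = 0 := by
    intro x hx
    simp only [Q, hco2, hS0 x hx, mul_zero]
  refine ⟨Q, hQs, hpol, h0, ?_⟩
  intro g hg hgS v
  have key := quad_eq_of_span e P (Q := fun v => Q ((g : Matrix ι ι F) *ᵥ v)) (Q' := Q) ?_ hQs ?_ ?_ v
  · exact key
  · intro t v
    show Q ((g : Matrix ι ι F) *ᵥ (t • v)) = _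
    rw [Matrix.mulVec_smul, hQs]
  · intro u v
    rw [H914.polar_comp, hpol, hpol, hg]
  · intro a
    obtain ⟨y, hy, h⟩ := hgS _ (hS1 a)
    show Q ((g : Matrix ι ι F) *ᵥ _) = _
    rw [h, h0 y hy, h0 _ (hS1 a)]

/-- a semilinear function whose kernel is invariant under an irreducible group is zero -/
theorem semilin_zero [Finite F] (h2 : (2 : F) = 0) (hι : 2 ≤ Fintype.card ι) {S : Set (Matrix ι ι F)}
    (hS : ActsIrreducibly S) {D : (ι → F) → F} (hadd : ∀ x y, D (x + y) = D x + D y)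
    (hsmul : ∀ (c : F) x, D (c • x) = c ^ 2 * D x) (hinv : ∀ s ∈ S, ∀ x, D x = 0 → D (s *ᵥ x) = 0) (x : ι → F) :
    D x = 0 := by
  have hzero : D 0 = 0 := by
    have := hsmul 0 0
    simpa using this
  let V₀ : Submodule F (ι → F) :=
    { carrier := {x | D x = 0}
      add_mem' := by
        intro a b ha hb
        simp only [Set.mem_setOf_eq] at ha hb ⊢
        rw [hadd, ha, hb, add_zero]
      zero_mem' := hzero
      smul_mem' := by
        intro c x hx
        simp only [Set.mem_setOf_eq] at hx ⊢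
        rw [hsmul, hx, mul_zero] }
  rcases hS V₀ (by
    rintro s hs _ ⟨v, hv, rfl⟩
    exact hinv s hs v hv) with h | h
  · exfalso
    have hchar : CharP F 2 := CharTwo.of_one_ne_zero_of_two_eq_zero one_ne_zero h2
    obtain ⟨i, j, hij⟩ := Fintype.exists_pair_of_one_lt_card (α := ι) (by omega)
    have hmem : ∀ v : ι → F, D v = 0 → v = 0 := by
      intro v hv
      have : v ∈ V₀ := hv
      rw [h] at this
      simpa using this
    let x : ι → F := Pi.single i 1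
    let y : ι → F := Pi.single j 1
    have hy : D y ≠ 0 := fun hy => by
      have := congrFun (hmem _ hy) j
      simp [y] at this
    obtain ⟨c, hc⟩ := (bijective_frobenius F 2).2 (-(D x) / D y)
    rw [frobenius_def] at hc
    have h5 : D (x + c • y) = 0 := by
      rw [hadd, hsmul, hc]
      field_simp
      ring
    have h6 := congrFun (hmem _ h5) i
    simp [x, y, hij] at h6
  · have : x ∈ V₀ := by rw [h]; exact Submodule.mem_top
    exact this

/-- **Pure tensors are singular.** -/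
theorem quad_pure [Finite F] {Qf : (ι → F) → F} (hQ : IsNondegenerateQuadraticForm Qf) (h2 : (2 : F) = 0) {n₁ n₂ : ℕ}
    (hι : 2 ≤ Fintype.card ι) {ε₁ ε₂ : F}
    {f₁ : (Fin n₁ → F) → (Fin n₁ → F) → F} {f₂ : (Fin n₂ → F) → (Fin n₂ → F) → F}
    (hf₁ : HermForm (RingEquiv.refl F) ε₁ f₁) (hf₂ : HermForm (RingEquiv.refl F) ε₂ f₂)
    (ha₁ : ∀ v, f₁ v v = 0) (ha₂ : ∀ v, f₂ v v = 0)
    {e : ι ≃ Fin n₁ × Fin n₂} {P : GL ι F}
    (hstr : IsTensorFormStructure (RingEquiv.refl F) (QuadraticMap.polar Qf) f₁ f₂ e P)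
    {H : Subgroup (GL ι F)} (hirr : ActsIrreducibly (matrixSet H)) (hI : H ≤ isometryGroup F Qf)
    (hH : H ≤ tensorProductSubgroup n₁ n₂ e P) (v : Fin n₁ → F) (w : Fin n₂ → F) :
    Qf ((P : Matrix ι ι F) *ᵥ (pt v w ∘ e)) = 0 := by
  classical
  have hneg : ∀ x : F, -x = x := by
    intro x
    have h1 : x + x = 0 := by rw [← two_mul, h2, zero_mul]
    exact neg_eq_of_add_eq_zero_left h1
  have hf : IsSymplecticForm (QuadraticMap.polar Qf) :=
    ⟨hQ.polar_bilinear, fun u v => by rw [hneg, QuadraticMap.polar_comm],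
      fun v => by rw [polar_self hQ, h2, zero_mul], hQ.nondegenerate⟩
  obtain ⟨c, hc, hform⟩ := hstr
  set G₁ := gramMatrix f₁
  set G₂ := gramMatrix f₂
  have hG₂ : ∀ w : Fin n₂ → F, w ⬝ᵥ (G₂ *ᵥ w) = 0 := by
    intro w
    have h := H912.formOfGram_gramMatrix hf₂
    have h3 := congrFun (congrFun h w) w
    rw [H912.formOfGram_eq_dotProduct, ha₂] at h3
    exact h3
  have hM : (upper G₁ ⊗ₖ G₂) + (upper G₁ ⊗ₖ G₂)ᵀ = G₁ ⊗ₖ G₂ := by
    have h1 : (upper G₁ ⊗ₖ G₂)ᵀ = (upper G₁)ᵀ ⊗ₖ G₂ := by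
      ext ⟨a, b⟩ ⟨a', b'⟩
      simp only [Matrix.transpose_apply, Matrix.kroneckerMap_apply]
      rw [show G₂ b' b = G₂ b b' from gram_symm_of_two hf₂ h2 ha₂ b' b]
    rw [h1, ← Matrix.add_kronecker, upper_add_transpose (gram_diag ha₁) (gram_symm_of_two hf₁ h2 ha₁)]
  obtain ⟨Q, hQs, hpol, h0, hinv⟩ := exists_quad_of_half' hf e P (upper G₁ ⊗ₖ G₂) c (by
      intro x y
      rw [hform x y, hM, H912.formOfGram_eq_dotProduct]
      rfl) {x | ∃ v w, x = pt v w} (by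
      rintro ⟨a, b⟩
      refine ⟨Pi.single a 1, Pi.single b 1, ?_⟩
      funext ⟨a', b'⟩
      simp only [pt, Pi.single_apply, Prod.mk.injEq]
      by_cases h1 : a' = a <;> by_cases h2 : b' = b <;> simp [h1, h2]) (by
      rintro _ ⟨v, w, rfl⟩
      rw [H912.kronecker_mulVec_pt]
      have h : pt v w ⬝ᵥ pt (upper G₁ *ᵥ v) (G₂ *ᵥ w) = (v ⬝ᵥ (upper G₁ *ᵥ v)) * (w ⬝ᵥ (G₂ *ᵥ w)) := by
        simp only [dotProduct, pt, Fintype.sum_prod_type, Finset.sum_mul_sum]
        exact Finset.sum_congr rfl (fun _ _ => Finset.sum_congr rfl (fun _ _ => by ring))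
      rw [h, hG₂, mul_zero])
  have hHQ : ∀ g ∈ H, ∀ v, Q ((g : Matrix ι ι F) *ᵥ v) = Q v := by
    intro g hg
    refine hinv g (fun u v => polar_iso (hI hg) u v) ?_
    rintro _ ⟨v, w, rfl⟩
    obtain ⟨a, b, hab⟩ := H912.mem_tensorProductSubgroup_iff.mp (hH hg)
    refine ⟨_, ⟨(a : Matrix _ _ F) *ᵥ v, (b : Matrix _ _ F) *ᵥ w, rfl⟩, ?_⟩
    rw [hab, H912.tens_mulVec, H912.kronecker_mulVec_pt]
  have hD := semilin_zero h2 hι hirr (D := fun v => Qf v - Q v) (by
    intro x y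
    have := hpol x y
    simp only [QuadraticMap.polar] at this
    show Qf (x + y) - Q (x + y) = (Qf x - Q x) + (Qf y - Q y)
    linear_combination -this) (by
    intro c x
    show Qf (c • x) - Q (c • x) = c ^ 2 * (Qf x - Q x)
    rw [hQ.smul, hQs]; ring) (by
    rintro _ ⟨g, hg, rfl⟩ x hx
    show Qf ((g : Matrix ι ι F) *ᵥ x) - Q ((g : Matrix ι ι F) *ᵥ x) = 0
    rw [mem_iso_iff.1 (hI hg), hHQ g hg]
    exact hx) ((P : Matrix ι ι F) *ᵥ (pt v w ∘ e))
  have h1 := h0 _ ⟨v, w, rfl⟩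
  linear_combination hD + h1

end Cfsg.Agent.H487.EP
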