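import Cfsg.Agent.H487.EP.GoodKill
import Cfsg.Agent.H487.EP.DataSp2
import Cfsg.Agent.H487.EP.DataSym
import Cfsg.Agent.H487.EP.QuadPure
import Cfsg.Agent.H681.EP.OmC4Two
import Cfsg.Agent.H919.AschWreathForm4

/-!
# S3499, task Om-C4C7: tensor products and tensor powers in orthogonal groups (helper487)
-/

set_option autoImplicit false
set_option linter.unusedSectionVars false

namespace Cfsg.Agent.H487.EP

open Matrix Subgroup Cfsg.Agent.H284 Cfsg.Agent.H419.EP Cfsg.Geo QuadraticMap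
open Cfsg.Agent.H919 (HermForm WreathData framePure)
open Cfsg.Agent.H912 (pt)
open Cfsg.Agent.H778.EP (OmRow OmC2b OmC3 OmC4 OmC7 omegaGL_le)
open scoped MatrixGroups Kronecker

/-- the field with three elements, a factor of dimension two -/
def KillThree : Prop :=
  ∀ {Q : Type} [Group Q] [Finite Q] {A : Subgroup Q} {Γ : Subgroup (MulAut Q)}, EPT A Γ →
    ∀ {F : Type} [Field F] [Fintype F], Fintype.card F = 3 → ∀ {ι : Type} [Fintype ι] [DecidableEq ι]
    {Qf : (ι → F) → F} (m : Model Q (omegaGL Qf)) {n₁ : ℕ} (e : ι ≃ Fin n₁ × Fin 2) (P : GL ι F)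
    {f₁ : (Fin n₁ → F) → (Fin n₁ → F) → F} {f₂ : (Fin 2 → F) → (Fin 2 → F) → F}, IsSymplecticForm f₂ →
    Fr Qf (sL e P) (sR e P) (gramMatrix f₁) (gramMatrix f₂) → PP (gramMatrix f₁) →
    m.hat A ≤ tensorProductSubgroup n₁ 2 e P → False

/-- two-dimensional slots -/
def OmC7Two : Prop := OmRow fun F _ _ ι _ _ _ H =>
  ActsIrreducibly (matrixSet H) ∧ ∃ (t : ℕ) (e : ι ≃ (Fin t → Fin 2)) (P : GL ι F)
    (E : Fin t → Subgroup (GL ι F)), 2 ^ t = Fintype.card ι ∧ WreathData H 2 t e P E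

section

variable {ι : Type} [Fintype ι] [DecidableEq ι] {F : Type} [Field F] [Fintype F]

theorem tensorForm_swap {f : (ι → F) → (ι → F) → F} {n₁ n₂ : ℕ} {f₁ : (Fin n₁ → F) → (Fin n₁ → F) → F}
    {f₂ : (Fin n₂ → F) → (Fin n₂ → F) → F} {e : ι ≃ Fin n₁ × Fin n₂} {P : GL ι F}
    (h : IsTensorFormStructure id f f₁ f₂ e P) :
    IsTensorFormStructure id f f₂ f₁ (e.trans (Equiv.prodComm _ _)) P := by
  obtain ⟨c, hc, h⟩ := h
  refine ⟨c, hc, fun x y => ?_⟩
  have h1 := h (x ∘ Prod.swap) (y ∘ Prod.swap)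
  have e1 : (x ∘ (e.trans (Equiv.prodComm _ _)) : ι → F) = (x ∘ Prod.swap) ∘ e := rfl
  have e2 : (y ∘ (e.trans (Equiv.prodComm _ _)) : ι → F) = (y ∘ Prod.swap) ∘ e := rfl
  rw [e1, e2, h1]
  congr 1
  unfold formOfGram
  rw [← Equiv.sum_comp (Equiv.prodComm (Fin n₂) (Fin n₁))]
  refine Finset.sum_congr rfl fun a _ => ?_
  rw [← Equiv.sum_comp (Equiv.prodComm (Fin n₂) (Fin n₁))]
  refine Finset.sum_congr rfl fun b _ => ?_
  simp only [Function.comp_apply, Equiv.prodComm_apply, Prod.swap_swap, kroneckerMap_apply, Prod.fst_swap, Prod.snd_swap]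
  ring

theorem symm_of_herm {n : ℕ} {f : (Fin n → F) → (Fin n → F) → F} (h : HermForm (RingEquiv.refl F) 1 f) :
    IsSymmetricForm f where
  bilinear := ⟨h.add_left, h.smul_left, h.add_right, fun c v x => h.smul_right v c x⟩
  symm := fun v w => by rw [h.herm v w]; simp
  nondegenerate := h.nondegenerate

theorem symp_of_herm {n : ℕ} {ε : F} {f : (Fin n → F) → (Fin n → F) → F} (h : HermForm (RingEquiv.refl F) ε f)
    (hε : ε = -1) (ha : ∀ v, f v v = 0) : IsSymplecticForm f where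
  bilinear := ⟨h.add_left, h.smul_left, h.add_right, fun c v x => h.smul_right v c x⟩
  skew := fun v w => by rw [h.herm v w, hε]; simp
  alternating := ha
  nondegenerate := h.nondegenerate

theorem even_of_symp {n : ℕ} {f : (Fin n → F) → (Fin n → F) → F} (hf : IsSymplecticForm f) : Even n := by
  obtain ⟨m, b, hm, -⟩ := exists_sympl hf
  exact ⟨m, by omega⟩

variable {Q : Type} [Group Q] [Finite Q] {A : Subgroup Q} {Γ : Subgroup (MulAut Q)} {Qf : (ι → F) → F}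

/-- two alternating factors, the first of dimension at least four -/
theorem alt_case (hthree : KillThree) (h : EPT A Γ) (m : Model Q (omegaGL Qf)) {n₁ n₂ : ℕ} {e : ι ≃ Fin n₁ × Fin n₂}
    {P : GL ι F} {f₁ : (Fin n₁ → F) → (Fin n₁ → F) → F} {f₂ : (Fin n₂ → F) → (Fin n₂ → F) → F}
    (hf₁ : IsSymplecticForm f₁) (hf₂ : IsSymplecticForm f₂)
    (hfr : Fr Qf (sL e P) (sR e P) (gramMatrix f₁) (gramMatrix f₂)) (h1 : 4 ≤ n₁) (h2 : 2 ≤ n₂)
    (hF : Fintype.card F = 2 → n₂ ≠ 2) (hA : m.hat A ≤ tensorProductSubgroup n₁ n₂ e P) : False := by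
  have hPP := pp_symp h1 hf₁
  by_cases h4 : 4 ≤ Fintype.card F
  · exact good_tensor h m e P hA (hfr.good hPP (bb_big h2 h4 hf₂))
  · by_cases hn : 4 ≤ n₂
    · exact good_tensor h m e P hA (hfr.good hPP (bb_four hn hf₂))
    · obtain ⟨k, hk⟩ := even_of_symp hf₂
      have hn2 : n₂ = 2 := by omega
      have hc : 1 < Fintype.card F := Fintype.one_lt_card
      have hc2 : Fintype.card F ≠ 2 := fun hc => hF hc hn2
      subst hn2
      exact hthree h (by omega) m e P hf₂ hfr hPP hA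

end

/-- **[Om-C4C7, first part]** tensor products -/
theorem omC4_of (hthree : KillThree) (hC2b : OmC2b) (hC3 : OmC3) : OmC4 := by
  rintro Q _ _ hs A Γ h F _ _ ι _ _ Qf m h7 hQ ⟨hirr, n₁, n₂, e, P, ε, f₁, f₂, h1, h2, h12, hε, hf1, hf2, hT, hHT⟩
  have hI : m.hat A ≤ isometryGroup F Qf := (m.hat_le A).trans (omegaGL_le Qf)
  have hTs := tensorForm_swap hT
  have hHs : m.hat A ≤ tensorProductSubgroup n₂ n₁ (e.trans (Equiv.prodComm _ _)) P := by rw [tensor_swap]; exact hHT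
  by_cases hsmall : ((ε = 1 ∧ (2 : F) ≠ 0) ∨ Fintype.card F = 2) ∧ (n₁ = 2 ∨ n₂ = 2)
  · obtain ⟨hc, hn | hn⟩ := hsmall
    · subst hn
      exact Cfsg.Agent.H681.EP.omC4_two hC2b hC3 hs h m h7 hQ ⟨hirr, n₂, e, P, ε, f₁, f₂, h2, hf1, hf2, hc, hT, hHT⟩
    · subst hn
      exact Cfsg.Agent.H681.EP.omC4_two hC2b hC3 hs h m h7 hQ ⟨hirr, n₁, _, P, ε, f₂, f₁, h1, hf2, hf1, hc, hTs, hHs⟩
  by_cases hodd : ε = 1 ∧ (2 : F) ≠ 0
  · -- symmetric factors
    obtain ⟨rfl, hchar⟩ := hodd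
    have hn1 : n₁ ≠ 2 := fun hn => hsmall ⟨Or.inl ⟨rfl, hchar⟩, Or.inl hn⟩
    have hn2 : n₂ ≠ 2 := fun hn => hsmall ⟨Or.inl ⟨rfl, hchar⟩, Or.inr hn⟩
    exact good_tensor h m e P hHT (good_sym hchar (by omega) (by omega) (symm_of_herm hf1) (symm_of_herm hf2)
      (fr_tensor hQ hT (Or.inl hchar)))
  · -- alternating factors
    have hpol : ∀ g ∈ m.hat A, ∀ u v, polar Qf ((g : Matrix ι ι F) *ᵥ u) ((g : Matrix ι ι F) *ᵥ v) = polar Qf u v :=
      fun g hg => Cfsg.Agent.H925.polar_iso (hI hg)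
    obtain ⟨hε', ha1, ha2⟩ : ε = -1 ∧ (∀ v, f₁ v v = 0) ∧ (∀ v, f₂ v v = 0) := by
      by_cases hchar : (2 : F) = 0
      · refine ⟨?_, ?_, ?_⟩
        · have h11 : (1 : F) = -1 := by linear_combination hchar
          rcases hε with h | h
          · rw [h]; exact h11
          · exact h
        · exact Cfsg.Agent.H912.second_alternating hchar (by omega) h1 hf2 hf1 hTs hirr hHs hpol
        · exact Cfsg.Agent.H912.second_alternating hchar (by omega) h2 hf1 hf2 hT hirr hHT hpol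
      · have hε1 : ε = -1 := hε.resolve_left (fun he => hodd ⟨he, hchar⟩)
        have key : ∀ {n : ℕ} {f : (Fin n → F) → (Fin n → F) → F}, HermForm (RingEquiv.refl F) ε f → ∀ v, f v v = 0 := by
          intro n f hf v
          have h3 := hf.herm v v
          rw [hε1] at h3
          simp only [RingEquiv.refl_apply] at h3
          have h4 : 2 * f v v = 0 := by linear_combination h3
          exact (mul_eq_zero.1 h4).resolve_left hchar
        exact ⟨hε1, key hf1, key hf2⟩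
    have hs1 := symp_of_herm hf1 hε' ha1
    have hs2 := symp_of_herm hf2 hε' ha2
    have hq : (2 : F) ≠ 0 ∨ ∀ v w, Qf ((P : Matrix ι ι F) *ᵥ (pt v w ∘ e)) = 0 := by
      by_cases hchar : (2 : F) = 0
      · exact Or.inr fun v w => quad_pure hQ hchar (by omega) hf1 hf2 ha1 ha2 hT hirr hI hHT v w
      · exact Or.inl hchar
    have hqs : (2 : F) ≠ 0 ∨ ∀ v w, Qf ((P : Matrix ι ι F) *ᵥ (pt v w ∘ (e.trans (Equiv.prodComm _ _)))) = 0 := by
      by_cases hchar : (2 : F) = 0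
      · exact Or.inr fun v w => quad_pure hQ hchar (by omega) hf2 hf1 ha2 ha1 hTs hirr hI hHs v w
      · exact Or.inl hchar
    obtain ⟨a, ha⟩ := even_of_symp hs1
    obtain ⟨b, hb⟩ := even_of_symp hs2
    by_cases h4 : 4 ≤ n₁
    · exact alt_case hthree h m hs1 hs2 (fr_tensor hQ hT hq) h4 h2 (fun hc hn => hsmall ⟨Or.inr hc, Or.inr hn⟩) hHT
    · have hn1 : n₁ = 2 := by omega
      have h4' : 4 ≤ n₂ := by
        subst hn1
        omega
      exact alt_case hthree h m hs2 hs1 (fr_tensor hQ hTs hqs) h4' h1 (fun hc hn => hsmall ⟨Or.inr hc, Or.inl hn⟩) hHs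

/-- **[Om-C4C7, second part]** tensor powers -/
theorem omC7_of (htwo : OmC7Two) : OmC7 := by
  rintro Q _ _ hs A Γ h F _ _ ι _ _ Qf mo h7 hQ ⟨hirr, k, t, e, P, E, hkt, W⟩
  by_cases hk2 : k = 2
  · subst hk2
    exact htwo hs h mo h7 hQ ⟨hirr, t, e, P, E, hkt, W⟩
  have hk : 3 ≤ k := by
    have := W.two_le_m
    omega
  have hI : mo.hat A ≤ isometryGroup F Qf := (mo.hat_le A).trans (omegaGL_le Qf)
  have hpol : ∀ g ∈ mo.hat A, ∀ u v, polar Qf ((g : Matrix ι ι F) *ᵥ u) ((g : Matrix ι ι F) *ᵥ v) = polar Qf u v :=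
    fun g hg => Cfsg.Agent.H925.polar_iso (hI hg)
  have ht := W.two_le_t
  let i0 : Fin t := ⟨0, by omega⟩
  let i1 : Fin t := ⟨1, by omega⟩
  have h01 : i0 ≠ i1 := by simp [i0, i1, Fin.ext_iff]
  by_cases hchar : (2 : F) = 0
  · obtain ⟨P', f₁, W', hf₁, hst, hpure⟩ := Cfsg.Agent.H919.C7_quad_even hQ hchar
      (fun g hg => Cfsg.Agent.H925.mem_iso_iff.1 (hI hg)) W
    obtain ⟨a, ha⟩ := even_of_symp hf₁
    exact good_wreath h mo e P' W'.wreath h01 ((fr_wreath hQ hst (Or.inr hpure) h01).good (pp_symp (by omega) hf₁)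
      (bb_four (by omega) hf₁))
  · obtain ⟨P', f₁, W', hf₁, hst, -, -⟩ := Cfsg.Agent.H919.C7_orth_odd (f := polar Qf)
      ⟨hQ.polar_bilinear, fun u v => QuadraticMap.polar_comm Qf u v, hQ.nondegenerate⟩ hchar hpol W
    have hfr := fr_wreath hQ hst (Or.inl hchar) h01
    rcases hf₁ with hf₁ | ⟨hf₁, -⟩
    · exact good_wreath h mo e P' W'.wreath h01 (good_sym hchar hk hk hf₁ hf₁ hfr)
    · obtain ⟨a, ha⟩ := even_of_symp hf₁
      exact good_wreath h mo e P' W'.wreath h01 (hfr.good (pp_symp (by omega) hf₁) (bb_four (by omega) hf₁))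

end Cfsg.Agent.H487.EP
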