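import Cfsg.Agent.H487.EP.OmC4C7
import Cfsg.Agent.H598.EP.OmTwo

/-!
# S3499, task Om-C4C7, second part: tensor powers in orthogonal groups (helper487)
-/

set_option autoImplicit false

namespace Cfsg.Agent.H487.EP

/-- **[Om-C4C7, second part]** -/
theorem omC7 : Cfsg.Agent.H778.EP.OmC7 := omC7_of Cfsg.Agent.H598.EP.omC7_two

end Cfsg.Agent.H487.EP
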