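import Cfsg.Agent.H487.EP.Kill

/-!
# S3499: the kill for stabilisers of tensor decompositions (helper487)
-/

set_option autoImplicit false
set_option linter.unusedSectionVars false

namespace Cfsg.Agent.H487.EP

open Matrix Subgroup Cfsg.Agent.H284 Cfsg.Agent.H419.EP Cfsg.Geo
open scoped MatrixGroups Kronecker

section frame

variable {κ₁ κ₂ κ ι : Type} [Fintype κ₁] [DecidableEq κ₁] [Fintype κ₂] [DecidableEq κ₂] [Fintype ι] [DecidableEq ι]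
variable [Fintype κ] [DecidableEq κ] {F : Type*} [Field F]

/-- change of frame -/
def frA (e : ι ≃ κ) (P : GL ι F) : Matrix κ κ F →ₐ[F] Matrix ι ι F :=
  AlgHom.ofLinearMap
    { toFun := fun X => (P : Matrix ι ι F) * Matrix.reindexAlgEquiv F F e.symm X * ((P⁻¹ : GL ι F) : Matrix ι ι F)
      map_add' := fun X Y => by rw [map_add, mul_add, add_mul]
      map_smul' := fun c X => by rw [map_smul, Matrix.mul_smul, Matrix.smul_mul, RingHom.id_apply] }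
    (by
      change (P : Matrix ι ι F) * Matrix.reindexAlgEquiv F F e.symm 1 * ((P⁻¹ : GL ι F) : Matrix ι ι F) = 1
      rw [map_one, mul_one, Units.mul_inv])
    (fun X Y => by
      change (P : Matrix ι ι F) * Matrix.reindexAlgEquiv F F e.symm (X * Y) * ((P⁻¹ : GL ι F) : Matrix ι ι F) =
        (P : Matrix ι ι F) * Matrix.reindexAlgEquiv F F e.symm X * ((P⁻¹ : GL ι F) : Matrix ι ι F) *
        ((P : Matrix ι ι F) * Matrix.reindexAlgEquiv F F e.symm Y * ((P⁻¹ : GL ι F) : Matrix ι ι F))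
      rw [map_mul]
      simp only [mul_assoc, Units.inv_mul_cancel_left])

theorem frA_apply (e : ι ≃ κ) (P : GL ι F) (X : Matrix κ κ F) : frA e P X =
    (P : Matrix ι ι F) * Matrix.reindexAlgEquiv F F e.symm X * ((P⁻¹ : GL ι F) : Matrix ι ι F) := rfl

theorem frA_injective (e : ι ≃ κ) (P : GL ι F) : Function.Injective (frA e P : Matrix κ κ F → Matrix ι ι F) := by
  intro X Y h
  rw [frA_apply, frA_apply] at h
  have h2 : (Matrix.reindexAlgEquiv F F e.symm X) = (Matrix.reindexAlgEquiv F F e.symm Y) := by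
    have := congrArg (fun Z => ((P⁻¹ : GL ι F) : Matrix ι ι F) * Z * (P : Matrix ι ι F)) h
    simpa [mul_assoc] using this
  exact (Matrix.reindexAlgEquiv F F e.symm).injective h2

/-- `u ↦ u ⊗ 1` -/
def krL (κ₁ κ₂ : Type) [Fintype κ₁] [DecidableEq κ₁] [Fintype κ₂] [DecidableEq κ₂] (F : Type*) [Field F] :
    Matrix κ₁ κ₁ F →ₐ[F] Matrix (κ₁ × κ₂) (κ₁ × κ₂) F :=
  AlgHom.ofLinearMap
    { toFun := fun u => u ⊗ₖ (1 : Matrix κ₂ κ₂ F)
      map_add' := fun u v => Matrix.add_kronecker _ _ _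
      map_smul' := fun c u => Matrix.smul_kronecker _ _ _ }
    (Matrix.one_kronecker_one) (fun u v => by
      change (u * v) ⊗ₖ (1 : Matrix κ₂ κ₂ F) = (u ⊗ₖ (1 : Matrix κ₂ κ₂ F)) * (v ⊗ₖ (1 : Matrix κ₂ κ₂ F))
      rw [← Matrix.mul_kronecker_mul, mul_one])

/-- `v ↦ 1 ⊗ v` -/
def krR (κ₁ κ₂ : Type) [Fintype κ₁] [DecidableEq κ₁] [Fintype κ₂] [DecidableEq κ₂] (F : Type*) [Field F] :
    Matrix κ₂ κ₂ F →ₐ[F] Matrix (κ₁ × κ₂) (κ₁ × κ₂) F :=
  AlgHom.ofLinearMap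
    { toFun := fun u => (1 : Matrix κ₁ κ₁ F) ⊗ₖ u
      map_add' := fun u v => Matrix.kronecker_add _ _ _
      map_smul' := fun c u => Matrix.kronecker_smul _ _ _ }
    (Matrix.one_kronecker_one) (fun u v => by
      change (1 : Matrix κ₁ κ₁ F) ⊗ₖ (u * v) = ((1 : Matrix κ₁ κ₁ F) ⊗ₖ u) * ((1 : Matrix κ₁ κ₁ F) ⊗ₖ v)
      rw [← Matrix.mul_kronecker_mul, mul_one])

theorem krL_apply (u : Matrix κ₁ κ₁ F) : krL κ₁ κ₂ F u = u ⊗ₖ (1 : Matrix κ₂ κ₂ F) := rfl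
theorem krR_apply (u : Matrix κ₂ κ₂ F) : krR κ₁ κ₂ F u = (1 : Matrix κ₁ κ₁ F) ⊗ₖ u := rfl

theorem krL_mul_krR (u : Matrix κ₁ κ₁ F) (v : Matrix κ₂ κ₂ F) : krL κ₁ κ₂ F u * krR κ₁ κ₂ F v = u ⊗ₖ v := by
  rw [krL_apply, krR_apply, ← Matrix.mul_kronecker_mul, mul_one, one_mul]

theorem krR_mul_krL (u : Matrix κ₁ κ₁ F) (v : Matrix κ₂ κ₂ F) : krR κ₁ κ₂ F v * krL κ₁ κ₂ F u = u ⊗ₖ v := by
  rw [krL_apply, krR_apply, ← Matrix.mul_kronecker_mul, mul_one, one_mul]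

/-- the left factor -/
def sL (e : ι ≃ κ₁ × κ₂) (P : GL ι F) : Matrix κ₁ κ₁ F →ₐ[F] Matrix ι ι F := (frA e P).comp (krL κ₁ κ₂ F)

/-- the right factor -/
def sR (e : ι ≃ κ₁ × κ₂) (P : GL ι F) : Matrix κ₂ κ₂ F →ₐ[F] Matrix ι ι F := (frA e P).comp (krR κ₁ κ₂ F)

theorem sL_mul_sR (e : ι ≃ κ₁ × κ₂) (P : GL ι F) (u : Matrix κ₁ κ₁ F) (v : Matrix κ₂ κ₂ F) :
    sL e P u * sR e P v = frA e P (u ⊗ₖ v) := by
  rw [← krL_mul_krR, map_mul]
  rfl

theorem ts (e : ι ≃ κ₁ × κ₂) (P : GL ι F) : TS (sL e P) (sR e P) where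
  comm := fun a b => by
    rw [sL_mul_sR, ← krR_mul_krL, map_mul]
    rfl
  ind := fun N u v h i j k l => by
    have h1 : frA e P (∑ a, (u a) ⊗ₖ (v a)) = 0 := by
      rw [map_sum, ← h]
      exact Finset.sum_congr rfl fun a _ => (sL_mul_sR e P _ _).symm
    have h2 : ∑ a, (u a) ⊗ₖ (v a) = 0 := frA_injective e P (by rw [h1, map_zero])
    have h3 := congrFun (congrFun h2 (i, k)) (j, l)
    rw [Matrix.sum_apply] at h3
    simpa [Matrix.kroneckerMap_apply] using h3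

end frame

section tensor

variable {ι : Type} [Fintype ι] [DecidableEq ι] {F : Type*} [Field F] {n₁ n₂ : ℕ}

theorem mem_tensor (e : ι ≃ Fin n₁ × Fin n₂) (P : GL ι F) {g : GL ι F} :
    g ∈ tensorProductSubgroup n₁ n₂ e P ↔ ∃ (a : GL (Fin n₁) F) (b : GL (Fin n₂) F),
      (g : Matrix ι ι F) = sL e P (a : Matrix (Fin n₁) (Fin n₁) F) * sR e P (b : Matrix (Fin n₂) (Fin n₂) F) := by
  constructor
  · rintro ⟨_, ⟨k, ⟨a, b, hk⟩, rfl⟩, rfl⟩
    refine ⟨a, b, ?_⟩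
    rw [sL_mul_sR, ← hk]
    rfl
  · rintro ⟨a, b, hg⟩
    let k : GL (Fin n₁ × Fin n₂) F := ⟨(a : Matrix (Fin n₁) (Fin n₁) F) ⊗ₖ (b : Matrix (Fin n₂) (Fin n₂) F),
      ((a⁻¹ : GL (Fin n₁) F) : Matrix (Fin n₁) (Fin n₁) F) ⊗ₖ ((b⁻¹ : GL (Fin n₂) F) : Matrix (Fin n₂) (Fin n₂) F),
      by rw [← Matrix.mul_kronecker_mul, ← Units.val_mul, ← Units.val_mul, mul_inv_cancel, mul_inv_cancel,
          Units.val_one, Units.val_one, Matrix.one_kronecker_one],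
      by rw [← Matrix.mul_kronecker_mul, ← Units.val_mul, ← Units.val_mul, inv_mul_cancel, inv_mul_cancel,
          Units.val_one, Units.val_one, Matrix.one_kronecker_one]⟩
    refine ⟨_, ⟨k, ⟨a, b, rfl⟩, rfl⟩, ?_⟩
    apply Units.ext
    rw [hg, sL_mul_sR]
    rfl

variable {Q : Type*} [Group Q] [Finite Q] {A : Subgroup Q} {Γ : Subgroup (MulAut Q)}

theorem BC.nonSc {κ : Type} [Fintype κ] [DecidableEq κ] {b bi : Matrix κ κ F} {c : GL κ F} (h : BC b bi c) : NonSc b := by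
  intro k hk
  apply h.ne 1
  rw [one_smul, hk, cjm_smul, cjm_one]

/-- **The kill for tensor decompositions** -/
theorem kill_tensor (h : EPT A Γ) {S : Subgroup (GL ι F)} (m : Model Q S) (e : ι ≃ Fin n₁ × Fin n₂) (P : GL ι F)
    (hA : m.hat A = tensorProductSubgroup n₁ n₂ e P ⊓ S)
    {p : Matrix (Fin n₁) (Fin n₁) F} (hp : p * p = p) (hp0 : p ≠ 0) (hp1 : p ≠ 1)
    {b bi : Matrix (Fin n₂) (Fin n₂) F} {c : GL (Fin n₂) F} (hbc : BC b bi c)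
    {x : GL ι F} (hxS : x ∈ S) (hxv : (x : Matrix ι ι F) = sL e P p * sR e P b + sL e P (1 - p))
    {w : GL ι F} (hwS : w ∈ S) {c₁ : GL (Fin n₁) F} (hcp : cjm c₁ p = p)
    (hwv : (w : Matrix ι ι F) = sL e P (c₁ : Matrix (Fin n₁) (Fin n₁) F) * sR e P (c : Matrix (Fin n₂) (Fin n₂) F)) :
    False := by
  refine kill_two h m hA (ts e P) hp hp0 hbc hxS hxv (fun u v g hg => (mem_tensor e P).2 ⟨u, v, hg⟩) ?_
    ((mem_tensor e P).2 ⟨c₁, c, hwv⟩) hwS (Acts.of_pure (ts e P) hwv) hcp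
  intro g hg hgx
  obtain ⟨a₁, a₂, hga⟩ := (mem_tensor e P).1 hg
  have hact := Acts.of_pure (ts e P) hga
  refine ⟨a₁, a₂, hact, ?_⟩
  have hY : x⁻¹ * g * x * g⁻¹ ∈ tensorProductSubgroup n₁ n₂ e P := mul_mem hgx (inv_mem hg)
  obtain ⟨c', d', hY'⟩ := (mem_tensor e P).1 hY
  have e1 : (x : Matrix ι ι F) * ((x⁻¹ * g * x * g⁻¹ : GL ι F) : Matrix ι ι F) = cjm g (x : Matrix ι ι F) := by
    rw [← Units.val_mul, show x * (x⁻¹ * g * x * g⁻¹) = g * x * g⁻¹ by group]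
    rfl
  have hX : cjm g (x : Matrix ι ι F) = sL e P (cjm a₁ p) * sR e P (cjm a₂ b) + sL e P (1 - cjm a₁ p) := by
    rw [hxv, cjm_add, cjm_mul, hact.left, hact.right, hact.left, cjm_sub, cjm_one]
  rw [hY', hX, hxv] at e1
  have hp' : cjm a₁ p * cjm a₁ p = cjm a₁ p := by rw [← cjm_mul, hp]
  exact (ts e P).lemA hp hp0 hp1 hbc.mbi hp' (cjm_ne_zero a₁ hp0) (cjm_ne_one a₁ hp1) (hbc.nonSc.cjm a₂) c'.isUnit
    d'.isUnit e1

/-- exchanging the two factors -/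
theorem tensor_swap (e : ι ≃ Fin n₁ × Fin n₂) (P : GL ι F) :
    tensorProductSubgroup n₂ n₁ (e.trans (Equiv.prodComm _ _)) P = tensorProductSubgroup n₁ n₂ e P := by
  have key : ∀ (a : Matrix (Fin n₁) (Fin n₁) F) (b : Matrix (Fin n₂) (Fin n₂) F),
      sL (e.trans (Equiv.prodComm _ _)) P b * sR (e.trans (Equiv.prodComm _ _)) P a = sL e P a * sR e P b := by
    intro a b
    rw [sL_mul_sR, sL_mul_sR, frA_apply, frA_apply]
    congr 2
    ext i j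
    simp [Matrix.kroneckerMap_apply, mul_comm]
  ext g
  rw [mem_tensor, mem_tensor]
  constructor
  · rintro ⟨b, a, h⟩
    exact ⟨a, b, by rw [h, key]⟩
  · rintro ⟨a, b, h⟩
    exact ⟨b, a, by rw [h, key]⟩

end tensor

end Cfsg.Agent.H487.EP
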