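import Cfsg.Agent.H487.EP.Tensor
import Cfsg.Agent.H919.AschWreathForm2

/-!
# S3499: the kill for stabilisers of tensor decompositions with equal factors (helper487)
-/

set_option autoImplicit false
set_option linter.unusedSectionVars false

namespace Cfsg.Agent.H487.EP

open Matrix Subgroup Cfsg.Agent.H284 Cfsg.Agent.H419.EP Cfsg.Geo
open Cfsg.Agent.H919 (pureMat slotMat slotEmb pureMat_apply pureMat_mul slotMat_commute facPerm pureGL
  slotMat_apply_facPerm pureGL_conj_slotMat pureGL_mem frameGL frameGL_val mem_tensorWreathSubgroup_iff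
  scalar_of_commute_slots slotMat_mul slotMat_one)
open scoped MatrixGroups Kronecker

variable {ι : Type} [Fintype ι] [DecidableEq ι] {F : Type*} [Field F] {t m : ℕ}

/-- the `i`-th slot -/
noncomputable def sl (e : ι ≃ (Fin t → Fin m)) (P : GL ι F) (i : Fin t) : Matrix (Fin m) (Fin m) F →ₐ[F] Matrix ι ι F :=
  (frA e P).comp (slotEmb i)

theorem sl_apply (e : ι ≃ (Fin t → Fin m)) (P : GL ι F) (i : Fin t) (u : Matrix (Fin m) (Fin m) F) :
    sl e P i u = frA e P (slotMat i u) := rfl

theorem ts_sl (e : ι ≃ (Fin t → Fin m)) (P : GL ι F) {i j : Fin t} (hij : i ≠ j) : TS (sl e P i) (sl e P j) where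
  comm := fun a b => by
    rw [sl_apply, sl_apply, ← map_mul, ← map_mul, (slotMat_commute hij a b).eq]
  ind := fun N u v h i' j' k l => by
    have h1 : frA e P (∑ a, slotMat i (u a) * slotMat j (v a)) = 0 := by
      rw [map_sum, ← h]
      exact Finset.sum_congr rfl fun a _ => by rw [map_mul]; rfl
    have h2 : ∑ a, slotMat i (u a) * slotMat j (v a) = 0 := frA_injective e P (by rw [h1, map_zero])
    let x : Fin t → Fin m := Function.update (fun _ => k) i i'
    let y : Fin t → Fin m := Function.update (Function.update (fun _ => k) i j') j l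
    have h3 := congrFun (congrFun h2 x) y
    rw [Matrix.sum_apply, Matrix.zero_apply] at h3
    rw [← h3]
    refine Finset.sum_congr rfl fun a _ => ?_
    rw [slotMat, slotMat, pureMat_mul, pureMat_apply]
    have hx : x = Function.update (fun _ => k) i i' := rfl
    have hy : y = Function.update (Function.update (fun _ => k) i j') j l := rfl
    rw [← Finset.mul_prod_erase _ _ (Finset.mem_univ i),
      ← Finset.mul_prod_erase _ _ (Finset.mem_erase.2 ⟨Ne.symm hij, Finset.mem_univ j⟩)]
    have h4 : ∏ z ∈ (Finset.univ.erase i).erase j, (Function.update (fun _ : Fin t => (1 : Matrix (Fin m) (Fin m) F)) i (u a) z *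
        Function.update (fun _ : Fin t => (1 : Matrix (Fin m) (Fin m) F)) j (v a) z) (x z) (y z) = 1 := by
      apply Finset.prod_eq_one
      intro z hz
      have hzj : z ≠ j := Finset.ne_of_mem_erase hz
      have hzi : z ≠ i := Finset.ne_of_mem_erase (Finset.mem_of_mem_erase hz)
      rw [Function.update_of_ne hzi, Function.update_of_ne hzj, hx, hy, Function.update_of_ne hzi,
        Function.update_of_ne hzj, Function.update_of_ne hzi, mul_one, Matrix.one_apply_eq]
    rw [h4, mul_one, Function.update_self, Function.update_of_ne hij, Function.update_of_ne (Ne.symm hij),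
      Function.update_self, mul_one, one_mul, hx, hy, Function.update_self, Function.update_of_ne (Ne.symm hij),
      Function.update_self, Function.update_of_ne hij, Function.update_self]

/-- elements of the wreath subgroup permute the slots -/
theorem wreath_acts {e : ι ≃ (Fin t → Fin m)} {P : GL ι F} {g : GL ι F} (hg : g ∈ tensorWreathSubgroup m t e P) :
    ∃ (π : Equiv.Perm (Fin t)) (a : Fin t → GL (Fin m) F), ∀ k u, cjm g (sl e P k u) = sl e P (π k) (cjm (a k) u) := by
  obtain ⟨g, hg', rfl⟩ := (mem_tensorWreathSubgroup_iff e P g).1 hg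
  clear hg
  have key : ∃ (π : Equiv.Perm (Fin t)) (a : Fin t → GL (Fin m) F), ∀ k u,
      cjm g (slotMat k u) = slotMat (π k) (cjm (a k) u) := by
    replace hg' : g ∈ Subgroup.closure {g : GL (Fin t → Fin m) F | IsPureTensor m t g ∨ IsFactorPermutation m t g} := hg'
    induction hg' using Subgroup.closure_induction with
    | mem x hx =>
      rcases hx with ⟨gs, hgs⟩ | ⟨σ, hσ⟩
      · have hx : x = pureGL gs := Units.ext (by ext a b; exact hgs a b)
        subst hx
        exact ⟨1, gs, fun k u => pureGL_conj_slotMat gs k u⟩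
      · have hx : x = facPerm F m σ := Units.ext (by ext a b; exact hσ a b)
        subst hx
        refine ⟨σ, fun _ => 1, fun k u => ?_⟩
        have h1 : cjm (1 : GL (Fin m) F) u = u := by simp [cjm]
        rw [h1]
        exact slotMat_apply_facPerm σ k u
    | one =>
      refine ⟨1, fun _ => 1, fun k u => ?_⟩
      simp [cjm]
    | mul x y _ _ hx hy =>
      obtain ⟨π, a, h1⟩ := hx
      obtain ⟨ρ, b, h2⟩ := hy
      refine ⟨π * ρ, fun k => a (ρ k) * b k, fun k u => ?_⟩
      rw [← cjm_cjm, h2, h1, cjm_cjm]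
      rfl
    | inv x _ hx =>
      obtain ⟨π, a, h1⟩ := hx
      refine ⟨π⁻¹, fun k => (a (π⁻¹ k))⁻¹, fun k u => ?_⟩
      have h2 := h1 (π⁻¹ k) (cjm (a (π⁻¹ k))⁻¹ u)
      rw [cjm_self_inv, show π (π⁻¹ k) = k from π.apply_symm_apply k] at h2
      rw [← h2, cjm_inv_self]
  obtain ⟨π, a, h1⟩ := key
  refine ⟨π, a, fun k u => ?_⟩
  rw [sl_apply, sl_apply, ← h1]
  have h2 : ((frameGL e P g : GL ι F) : Matrix ι ι F) = frA e P (g : Matrix _ _ F) := frameGL_val e P g
  have h3 : (((frameGL e P g)⁻¹ : GL ι F) : Matrix ι ι F) = frA e P ((g⁻¹ : GL (Fin t → Fin m) F) : Matrix _ _ F) := by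
    rw [← map_inv]
    exact frameGL_val e P g⁻¹
  rw [cjm, cjm, h2, h3, ← map_mul, ← map_mul]

/-- pure tensors are in the wreath subgroup -/
theorem pure_mem {e : ι ≃ (Fin t → Fin m)} {P : GL ι F} {i j : Fin t} (hij : i ≠ j) (u v : GL (Fin m) F) {g : GL ι F}
    (hg : (g : Matrix ι ι F) = sl e P i (u : Matrix (Fin m) (Fin m) F) * sl e P j (v : Matrix (Fin m) (Fin m) F)) :
    g ∈ tensorWreathSubgroup m t e P := by
  rw [mem_tensorWreathSubgroup_iff]
  refine ⟨pureGL (Function.update (Function.update (fun _ => 1) i u) j v), pureGL_mem _, ?_⟩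
  apply Units.ext
  have h2 : ((frameGL e P (pureGL (Function.update (Function.update (fun _ => 1) i u) j v)) : GL ι F) : Matrix ι ι F) =
    frA e P (pureGL (Function.update (Function.update (fun _ => 1) i u) j v) : GL (Fin t → Fin m) F).val := frameGL_val e P _
  rw [h2, hg, sl_apply, sl_apply, ← map_mul, slotMat, slotMat, pureMat_mul]
  congr 1
  rw [Cfsg.Agent.H919.pureGL_val]
  congr 1
  funext k
  by_cases hkj : k = j
  · subst hkj
    rw [Function.update_self, Function.update_self, Function.update_of_ne (Ne.symm hij), one_mul]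
  · rw [Function.update_of_ne hkj, Function.update_of_ne hkj, mul_one]
    by_cases hki : k = i
    · subst hki
      rw [Function.update_self, Function.update_self]
    · rw [Function.update_of_ne hki, Function.update_of_ne hki, Units.val_one]

theorem scalar_of_sl {e : ι ≃ (Fin t → Fin m)} {P : GL ι F} (Y : Matrix ι ι F)
    (h : ∀ k u, Y * sl e P k u = sl e P k u * Y) : ∃ c : F, Y = c • 1 := by
  -- `frA` is onto
  obtain ⟨Z, rfl⟩ : ∃ Z, frA e P Z = Y := by
    refine ⟨(Matrix.reindexAlgEquiv F F e.symm).symm (((P⁻¹ : GL ι F) : Matrix ι ι F) * Y * (P : Matrix ι ι F)), ?_⟩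
    rw [frA_apply, AlgEquiv.apply_symm_apply]
    simp only [← mul_assoc, Units.mul_inv, one_mul]
    rw [mul_assoc, Units.mul_inv, mul_one]
  obtain ⟨c, hc⟩ := scalar_of_commute_slots (M := Z) fun k u => frA_injective e P (by
    rw [map_mul, map_mul]
    exact h k u)
  exact ⟨c, by rw [hc, map_smul, map_one]⟩

end Cfsg.Agent.H487.EP
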