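import Cfsg.Agent.H487.EP.Wreath

/-!
# S3499: the kill for stabilisers of tensor decompositions with equal factors, main part (helper487)
-/

set_option autoImplicit false
set_option linter.unusedSectionVars false

namespace Cfsg.Agent.H487.EP

open Matrix Subgroup Cfsg.Agent.H284 Cfsg.Agent.H419.EP Cfsg.Geo
open scoped MatrixGroups Kronecker

section prop

variable {κ₁ κ₂ ι : Type} [Fintype κ₁] [DecidableEq κ₁] [Fintype κ₂] [DecidableEq κ₂] [Fintype ι] [DecidableEq ι]
variable {F : Type*} [Field F]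
variable {s : Matrix κ₁ κ₁ F →ₐ[F] Matrix ι ι F} {r : Matrix κ₂ κ₂ F →ₐ[F] Matrix ι ι F}

theorem TS.prop_right (h : TS s r) {u u1 : Matrix κ₁ κ₁ F} {v v1 : Matrix κ₂ κ₂ F} (e : s u * r v = s u1 * r v1)
    (hu : u ≠ 0) : ∃ a : F, v = a • v1 := by
  obtain ⟨i, j, hij⟩ : ∃ i j, u i j ≠ 0 := by
    by_contra hc; push Not at hc; exact hu (by ext i j; exact hc i j)
  refine ⟨u1 i j / u i j, ?_⟩
  ext k l
  have := h.ind2 e i j k l
  rw [Matrix.smul_apply, smul_eq_mul]
  field_simp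
  linear_combination this

theorem TS.prop_left (h : TS s r) {u u1 : Matrix κ₁ κ₁ F} {v v1 : Matrix κ₂ κ₂ F} (e : s u * r v = s u1 * r v1)
    (hv : v ≠ 0) : ∃ a : F, u = a • u1 :=
  h.symm.prop_right (by rw [← h.comm, ← h.comm, e]) hv

theorem exists_mul_mul_ne {κ : Type} [Fintype κ] [DecidableEq κ] {a b : Matrix κ κ F} (ha : a ≠ 0) (hb : b ≠ 0) :
    ∃ y, a * y * b ≠ 0 := by
  obtain ⟨i, j, hij⟩ : ∃ i j, a i j ≠ 0 := by
    by_contra hc; push Not at hc; exact ha (by ext i j; exact hc i j)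
  obtain ⟨k, l, hkl⟩ : ∃ i j, b i j ≠ 0 := by
    by_contra hc; push Not at hc; exact hb (by ext i j; exact hc i j)
  refine ⟨Matrix.single j k 1, fun h => ?_⟩
  have h1 := congrFun (congrFun h i) l
  rw [Matrix.mul_apply, Finset.sum_eq_single k] at h1
  · rw [Matrix.mul_single_apply_same, mul_one] at h1
    exact mul_ne_zero hij hkl h1
  · intro z _ hz
    rw [Matrix.mul_single_apply_of_ne _ _ _ _ _ hz, zero_mul]
  · intro hk; exact absurd (Finset.mem_univ _) hk

theorem NonSc.exists_not_comm {κ : Type} [Fintype κ] [DecidableEq κ] {b : Matrix κ κ F} (hb : NonSc b) :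
    ∃ v : Matrix κ κ F, v * b ≠ b * v := by
  by_contra hcon
  push Not at hcon
  have : b ∈ Set.range (Matrix.scalar κ : F →+* Matrix _ _ F) := by
    rw [Matrix.mem_range_scalar_iff_commute_single']
    intro i j
    exact hcon _
  obtain ⟨c, hc⟩ := this
  exact hb c (by rw [← hc, Matrix.scalar_apply, Matrix.smul_one_eq_diagonal])

end prop

variable {ι : Type} [Fintype ι] [DecidableEq ι] {F : Type*} [Field F] {t m : ℕ}
variable {e : ι ≃ (Fin t → Fin m)} {P : GL ι F} {i0 i1 : Fin t}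
variable {p : Matrix (Fin m) (Fin m) F} {b bi : Matrix (Fin m) (Fin m) F}

theorem sl_scalar {k l : Fin t} (hkl : k ≠ l) {u u' : Matrix (Fin m) (Fin m) F} (hone : (1 : Matrix (Fin m) (Fin m) F) ≠ 0)
    (h : sl e P k u = sl e P l u') : ∃ a : F, u = a • 1 := by
  apply (ts_sl e P hkl).prop_left (v := 1) (v1 := u') _ hone
  rw [map_one, map_one, one_mul, mul_one, h]

theorem sl_inj {k : Fin t} (hone : (1 : Matrix (Fin m) (Fin m) F) ≠ 0) {l : Fin t} (hkl : k ≠ l)
    {u u' : Matrix (Fin m) (Fin m) F} (h : sl e P k u = sl e P k u') : u = u' :=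
  (ts_sl e P hkl).inj_left hone h

section N

variable (h01 : i0 ≠ i1) (hp : p * p = p) (hp0 : p ≠ 0) (hp1 : p ≠ 1) (hb : NonSc b) {x : GL ι F}
  (hx : (x : Matrix ι ι F) = sl e P i0 p * sl e P i1 b + sl e P i0 (1 - p))

include hp hx in
theorem qx : sl e P i0 (1 - p) * (x : Matrix ι ι F) = sl e P i0 (1 - p) := by
  have hqp : (1 - p) * p = 0 := by rw [sub_mul, one_mul, hp, sub_self]
  have hqq : (1 - p) * (1 - p) = 1 - p := by rw [mul_sub, hqp, mul_one, sub_zero]
  rw [hx, mul_add, ← mul_assoc, ← map_mul, ← map_mul, hqp, hqq, map_zero, zero_mul, zero_add]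

include hp hx in
theorem px : sl e P i0 p * (x : Matrix ι ι F) = sl e P i0 p * sl e P i1 b := by
  have hpq : p * (1 - p) = 0 := by rw [mul_sub, mul_one, hp, sub_self]
  rw [hx, mul_add, ← mul_assoc, ← map_mul, ← map_mul, hpq, hp, map_zero, add_zero]

include h01 hx in
theorem x_comm {l : Fin t} (h0 : l ≠ i0) (h1 : l ≠ i1) (u : Matrix (Fin m) (Fin m) F) :
    (x : Matrix ι ι F) * sl e P l u = sl e P l u * (x : Matrix ι ι F) := by
  rw [hx, add_mul, mul_add, mul_assoc, (ts_sl e P (Ne.symm h1)).comm, ← mul_assoc, (ts_sl e P (Ne.symm h0)).comm,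
    mul_assoc, (ts_sl e P (Ne.symm h0)).comm]

include h01 hp hp0 hp1 hb hx in
theorem N0 {l : Fin t} (H : ∀ u, ∃ u', sl e P i0 u * (x : Matrix ι ι F) = (x : Matrix ι ι F) * sl e P l u') : False := by
  have hT := ts_sl e P h01
  have hq0 : (1 - p) ≠ 0 := sub_ne_zero.2 (Ne.symm hp1)
  have hqp : (1 - p) * p = 0 := by rw [sub_mul, one_mul, hp, sub_self]
  have hpq : p * (1 - p) = 0 := by rw [mul_sub, mul_one, hp, sub_self]
  have hqq : (1 - p) * (1 - p) = 1 - p := by rw [mul_sub, hqp, mul_one, sub_zero]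
  obtain ⟨E0, hE0⟩ := exists_mul_mul_ne hq0 hp0
  set E := (1 - p) * E0 * p with hE
  have h1 : E * p = E := by rw [hE, mul_assoc, hp]
  have h2 : (1 - p) * E = E := by rw [hE, ← mul_assoc, ← mul_assoc, hqq]
  have h3 : E * (1 - p) = 0 := by rw [mul_sub, mul_one, h1, sub_self]
  have h4 : E * E = 0 := by
    calc E * E = (E * p) * ((1 - p) * E) := by rw [h1, h2]
      _ = 0 := by rw [mul_assoc, ← mul_assoc p, hpq, zero_mul, mul_zero]
  have hone : (1 : Matrix (Fin m) (Fin m) F) ≠ 0 := hb.one_ne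
  obtain ⟨u', hu'⟩ := H E
  have hEx : sl e P i0 E * (x : Matrix ι ι F) = sl e P i0 E * sl e P i1 b := by
    rw [hx, mul_add, ← mul_assoc, ← map_mul, ← map_mul, h1, h3, map_zero, add_zero]
  have h5 : sl e P i0 E * sl e P i1 b = sl e P i0 (1 - p) * sl e P l u' := by
    calc sl e P i0 E * sl e P i1 b = sl e P i0 (1 - p) * (sl e P i0 E * (x : Matrix ι ι F)) := by
          rw [hEx, ← mul_assoc, ← map_mul, h2]
      _ = sl e P i0 (1 - p) * sl e P l u' := by rw [hu', ← mul_assoc, qx hp hx]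
  by_cases hl0 : l = i0
  · rw [hl0, ← map_mul] at h5
    obtain ⟨a, ha⟩ := hT.prop_right (u1 := (1 - p) * u') (v1 := 1) (by rw [h5, map_one, mul_one]) hE0
    exact hb a ha
  by_cases hl1 : l = i1
  · rw [hl1] at h5
    obtain ⟨a, ha⟩ := hT.prop_left h5 (fun h0 => hb 0 (by rw [h0, zero_smul]))
    apply hE0
    calc E = E * p := h1.symm
      _ = 0 := by rw [ha, Matrix.smul_mul, hqp, smul_zero]
  · rw [x_comm h01 hx hl0 hl1] at hu'
    have h6 : sl e P i0 E = sl e P l u' := by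
      have := congrArg (fun y => y * ((x⁻¹ : GL ι F) : Matrix ι ι F)) hu'
      simpa [mul_assoc] using this
    obtain ⟨a, ha⟩ := sl_scalar (Ne.symm hl0) hone h6
    rw [ha, Matrix.smul_mul, one_mul, smul_smul] at h4
    have ha0 : a = 0 := mul_self_eq_zero.1 ((smul_eq_zero.1 h4).resolve_right hone)
    apply hE0
    rw [ha, ha0, zero_smul]

include h01 hp hp1 hx in
theorem N1' {v v' : Matrix (Fin m) (Fin m) F}
    (H : sl e P i1 v * (x : Matrix ι ι F) = (x : Matrix ι ι F) * sl e P i0 v') : ∃ a : F, v = a • 1 := by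
  have hT := ts_sl e P h01
  have hq0 : (1 - p) ≠ 0 := sub_ne_zero.2 (Ne.symm hp1)
  refine hT.prop_right (u := 1 - p) (u1 := (1 - p) * v') ?_ hq0
  calc sl e P i0 (1 - p) * sl e P i1 v = sl e P i0 (1 - p) * (x : Matrix ι ι F) * sl e P i1 v := by rw [qx hp hx]
    _ = sl e P i0 (1 - p) * (sl e P i1 v * (x : Matrix ι ι F)) := by
      rw [← mul_assoc, hT.comm (1 - p) v, mul_assoc (sl e P i1 v), qx hp hx]
      exact hT.comm _ _
    _ = sl e P i0 ((1 - p) * v') * sl e P i1 1 := by rw [H, ← mul_assoc, qx hp hx, ← map_mul, map_one, mul_one]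

include h01 hp hp0 hp1 hb hx in
theorem N1 {l : Fin t} (H : ∀ v, ∃ v', sl e P i1 v * (x : Matrix ι ι F) = (x : Matrix ι ι F) * sl e P l v') : False := by
  have hT := ts_sl e P h01
  have hq0 : (1 - p) ≠ 0 := sub_ne_zero.2 (Ne.symm hp1)
  have hone : (1 : Matrix (Fin m) (Fin m) F) ≠ 0 := hb.one_ne
  obtain ⟨v, hv⟩ := hb.exists_not_comm
  have hvs : ∀ a : F, v ≠ a • 1 := by
    rintro a rfl
    apply hv
    rw [Matrix.smul_mul, Matrix.mul_smul, one_mul, mul_one]
  obtain ⟨v', hv'⟩ := H v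
  by_cases hl0 : l = i0
  · rw [hl0] at hv'
    obtain ⟨a, ha⟩ := N1' h01 hp hp1 hx hv'
    exact hvs a ha
  by_cases hl1 : l = i1
  · rw [hl1] at hv'
    have h1 : v = v' := by
      have e1 : sl e P i0 (1 - p) * sl e P i1 (v - v') = 0 := by
        have h2 : sl e P i0 (1 - p) * (sl e P i1 v * (x : Matrix ι ι F)) = sl e P i0 (1 - p) * sl e P i1 v := by
          rw [← mul_assoc, hT.comm, mul_assoc, qx hp hx, ← hT.comm]
        rw [map_sub (sl e P i1) v v', mul_sub, ← h2, hv', ← mul_assoc, qx hp hx, sub_self]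
      rcases hT.ind1 e1 with h3 | h3
      · exact absurd h3 hq0
      · exact sub_eq_zero.1 h3
    have e1 : sl e P i0 p * sl e P i1 (v * b - b * v) = 0 := by
      have h2 : sl e P i0 p * (sl e P i1 v * (x : Matrix ι ι F)) = sl e P i0 p * sl e P i1 (v * b) := by
        rw [← mul_assoc, hT.comm, mul_assoc, px hp hx, ← mul_assoc, ← hT.comm, mul_assoc, ← map_mul]
      have h3 : sl e P i0 p * ((x : Matrix ι ι F) * sl e P i1 v') = sl e P i0 p * sl e P i1 (b * v') := by
        rw [← mul_assoc, px hp hx, mul_assoc, ← map_mul]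
      rw [map_sub (sl e P i1), mul_sub, ← h2, hv', h3, h1, sub_self]
    rcases hT.ind1 e1 with h3 | h3
    · exact hp0 h3
    · exact hv (sub_eq_zero.1 h3)
  · rw [x_comm h01 hx hl0 hl1] at hv'
    have h6 : sl e P i1 v = sl e P l v' := by
      have := congrArg (fun y => y * ((x⁻¹ : GL ι F) : Matrix ι ι F)) hv'
      simpa [mul_assoc] using this
    obtain ⟨a, ha⟩ := sl_scalar (Ne.symm hl1) hone h6
    exact hvs a ha

include h01 hp hp0 hp1 hb hx in
theorem N0' {v u' : Matrix (Fin m) (Fin m) F}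
    (H : sl e P i0 v * (x : Matrix ι ι F) = (x : Matrix ι ι F) * sl e P i1 u') : ∃ a : F, v = a • 1 := by
  have hT := ts_sl e P h01
  have hq0 : (1 - p) ≠ 0 := sub_ne_zero.2 (Ne.symm hp1)
  have hqp : (1 - p) * p = 0 := by rw [sub_mul, one_mul, hp, sub_self]
  have hpq : p * (1 - p) = 0 := by rw [mul_sub, mul_one, hp, sub_self]
  have hqq : (1 - p) * (1 - p) = 1 - p := by rw [mul_sub, hqp, mul_one, sub_zero]
  have h1 : sl e P i0 (1 - p) * sl e P i1 u' =
      sl e P i0 ((1 - p) * v * p) * sl e P i1 b + sl e P i0 ((1 - p) * v * (1 - p)) * sl e P i1 1 := by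
    calc sl e P i0 (1 - p) * sl e P i1 u' = sl e P i0 (1 - p) * (sl e P i0 v * (x : Matrix ι ι F)) := by
          rw [H, ← mul_assoc, qx hp hx]
      _ = _ := by rw [hx, mul_add, mul_add, map_one, mul_one]; simp only [← mul_assoc, ← map_mul]
  obtain ⟨a, c, h2, h3, h4⟩ := hT.key h1 hq0 hb.lin
  have ha : a = 0 := by
    have h5 : a • (1 - p) = 0 := by
      calc a • (1 - p) = (a • (1 - p)) * (1 - p) := by rw [Matrix.smul_mul, hqq]
        _ = 0 := by rw [← h2, mul_assoc, hpq, mul_zero]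
    exact (smul_eq_zero.1 h5).resolve_right hq0
  rw [ha, zero_smul, zero_add] at h4
  rw [h4, map_smul, map_one, Matrix.mul_smul, mul_one] at H
  refine ⟨c, sl_inj (e := e) (P := P) hb.one_ne h01 ?_⟩
  have := congrArg (fun y => y * ((x⁻¹ : GL ι F) : Matrix ι ι F)) H
  rw [map_smul, map_one]
  simpa [mul_assoc] using this

end N

end Cfsg.Agent.H487.EP
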